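import Mathlib
import Cfsg.Prelude.Def_Blocks
import Cfsg.Prelude.Def_Characters
import Cfsg.Prelude.Def_Solvable
import Cfsg.Prelude.Def_CaseTheorems
import Cfsg.Agent.H21.BRMDefs

set_option autoImplicit false

/-! S4700-E2 for helper21: in a perfect group with a Sylow `p`-subgroup of order `p`,
`|N(P) : C(P)|` is not `1` and divides `p - 1`. -/

namespace Cfsg.Agent.H20.BRQ

open Cfsg Cfsg.Agent.H21.BR

theorem perfect_relIndex {G : Type*} [Group G] [Finite G] (hperf : commutator G = ⊤) (p : ℕ)
    [Fact p.Prime] (P : Sylow p G) (hP : Nat.card (P : Subgroup G) = p) :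
    (Subgroup.centralizer ((P : Subgroup G) : Set G)).relIndex
        (Subgroup.normalizer ((P : Subgroup G) : Set G)) ≠ 1 ∧
      (Subgroup.centralizer ((P : Subgroup G) : Set G)).relIndex
        (Subgroup.normalizer ((P : Subgroup G) : Set G)) ∣ p - 1 := by
  have hp : p.Prime := Fact.out
  have hcyc : IsCyclic (P : Subgroup G) := isCyclic_of_prime_card hP
  constructor
  · intro h
    rw [Subgroup.relIndex_eq_one] at h
    have hcompl := MonoidHom.ker_transferSylow_isComplement' P h
    have hker : (MonoidHom.transferSylow P h).ker = ⊤ := by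
      apply top_le_iff.1
      rw [← hperf, commutator_eq_closure, Subgroup.closure_le]
      rintro _ ⟨a, b, rfl⟩
      have hcomm : MonoidHom.transferSylow P h a * MonoidHom.transferSylow P h b =
          MonoidHom.transferSylow P h b * MonoidHom.transferSylow P h a :=
        (IsCyclic.commGroup (α := (P : Subgroup G))).mul_comm _ _
      rw [SetLike.mem_coe, MonoidHom.mem_ker, commutatorElement_def, map_mul, map_mul, map_mul,
        map_inv, map_inv, hcomm]
      group
    rw [hker] at hcompl
    have h1 := hcompl.card_mul_card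
    rw [Subgroup.card_top] at h1
    have h2 : Nat.card (P : Subgroup G) = 1 :=
      Nat.eq_of_mul_eq_mul_left Nat.card_pos (by rw [h1, mul_one])
    rw [hP] at h2
    exact hp.one_lt.ne' h2
  · have key := Subgroup.card_dvd_of_injective _
      (QuotientGroup.kerLift_injective (P : Subgroup G).normalizerMonoidHom)
    rw [Subgroup.normalizerMonoidHom_ker, ← Subgroup.index, ← Subgroup.relIndex] at key
    rw [IsCyclic.card_mulAut, hP, Nat.totient_prime hp] at key
    exact key

example {G : Type*} [Group G] [Finite G] (hperf : commutator G = ⊤) (p : ℕ)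
    [Fact p.Prime] (P : Sylow p G) (hP : Nat.card (P : Subgroup G) = p) :
    (Subgroup.centralizer ((P : Subgroup G) : Set G)).relIndex
        (Subgroup.normalizer ((P : Subgroup G) : Set G)) ≠ 1 ∧
      (Subgroup.centralizer ((P : Subgroup G) : Set G)).relIndex
        (Subgroup.normalizer ((P : Subgroup G) : Set G)) ∣ p - 1 :=
  perfect_relIndex hperf p P hP

end Cfsg.Agent.H20.BRQ

#print axioms Cfsg.Agent.H20.BRQ.perfect_relIndex
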