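import Mathlib
import Cfsg.Prelude.Def_Blocks
import Cfsg.Prelude.Def_Characters
import Cfsg.Prelude.Def_Solvable
import Cfsg.Prelude.Def_CaseTheorems
import Cfsg.Agent.H21.BRMDefs

set_option autoImplicit false

/-! S4700-NDF for helper21: the arithmetic form of the failure of `ND p n`. -/

namespace Cfsg.Agent.H20.BRQ

open Cfsg Cfsg.Agent.H21.BR

theorem not_nd_form (p n : ℕ) (hp : p.Prime) (h : ¬ ND p n) :
    ∃ h u : ℕ, 0 < h ∧ 0 < u ∧ n * (u + 1) = h * u * p + u ^ 2 + u + h := by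
  unfold ND at h
  push Not at h
  obtain ⟨d, hd, hmod, hd1, hlt⟩ := h
  have hp1 : 1 ≤ p := hp.one_le
  obtain ⟨u, hu⟩ : ∃ u, d = 1 + u * p := by
    refine ⟨d / p, ?_⟩
    have h1 := Nat.div_add_mod d p
    rw [hmod] at h1
    rw [mul_comm] at h1
    omega
  have hu0 : 0 < u := by
    rcases Nat.eq_zero_or_pos u with h0 | h0
    · subst h0
      simp at hu
      exact absurd hu hd1
    · exact h0
  have hun : u < n := by
    rw [hu] at hlt
    have h1 : u * p < n * p := by omega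
    exact lt_of_mul_lt_mul_right h1 (Nat.zero_le p)
  have hdvd : (d : ℤ) ∣ ((u : ℤ) + 1) * ((n : ℤ) - u) := by
    have h1 : (d : ℤ) ∣ ((p : ℤ) - 1) * (1 + n * p) := by
      have h0 := Int.natCast_dvd_natCast.2 hd
      push_cast [Nat.cast_sub hp1] at h0
      exact h0
    have h2 : ((u : ℤ) + 1) * ((n : ℤ) - u) =
        (u : ℤ) ^ 2 * (((p : ℤ) - 1) * (1 + n * p)) -
          (d : ℤ) * (n * u * p + u - n - u * n) := by
      rw [hu]; push_cast; ring
    rw [h2]
    exact dvd_sub (Dvd.dvd.mul_left h1 _) (dvd_mul_right _ _)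
  have hpos : 0 < (u + 1) * (n - u) := Nat.mul_pos (Nat.succ_pos u) (Nat.sub_pos_of_lt hun)
  have hdvdN : d ∣ (u + 1) * (n - u) := by
    have h0 : ((d : ℕ) : ℤ) ∣ (((u + 1) * (n - u) : ℕ) : ℤ) := by
      push_cast [Nat.cast_sub hun.le]; exact hdvd
    exact Int.natCast_dvd_natCast.1 h0
  obtain ⟨h', hh'⟩ := hdvdN
  have hh0 : 0 < h' := by
    rcases Nat.eq_zero_or_pos h' with h0 | h0
    · subst h0
      rw [mul_zero] at hh'
      omega
    · exact h0
  refine ⟨h', u, hh0, hu0, ?_⟩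
  rw [hu] at hh'
  have h3 : ((u : ℤ) + 1) * ((n : ℤ) - u) = (1 + u * p) * h' := by
    have h0 := congrArg (Nat.cast : ℕ → ℤ) hh'
    push_cast [Nat.cast_sub hun.le] at h0
    exact h0
  have goal : (n : ℤ) * (u + 1) = h' * u * p + u ^ 2 + u + h' := by
    linear_combination h3
  exact_mod_cast goal

example (p n : ℕ) (hp : p.Prime) (h : ¬ ND p n) :
    ∃ h u : ℕ, 0 < h ∧ 0 < u ∧ n * (u + 1) = h * u * p + u ^ 2 + u + h :=
  not_nd_form p n hp h

end Cfsg.Agent.H20.BRQ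

#print axioms Cfsg.Agent.H20.BRQ.not_nd_form
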