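import Cfsg.Agent.H1.BTDefs
import Cfsg.Agent.H62.BRTBDih
import Cfsg.Agent.H4.Irr
import Cfsg.Agent.H4.Chars
import Cfsg.Agent.H80.Basic

set_option autoImplicit false

/-! S0997-B-DIH for helper1: constituents of a character with vanishing dihedral sums. -/

namespace Cfsg.Agent.H20.BT

open Cfsg Cfsg.Agent.H21.BR Cfsg.Agent.H1.BT
open scoped ComplexConjugate

universe u

theorem dih_aux {G : Type u} [Group G] [Fintype G] (p : ℕ) (hp : p.Prime) (hp2 : p ≠ 2)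
    (P : Subgroup G) (hP : Nat.card P = p) (τ : G) (hτ : orderOf τ = 2)
    (hinv : ∀ y ∈ P, τ * y * τ⁻¹ = y⁻¹) (Ξ : G → ℂ) (hΞ : IsCharacter G Ξ)
    (ψ : IrrCharacter G) (hψ : classInner Ξ (ψ : G → ℂ) ≠ 0) (σ : ℤ) (hσ : σ = 1 ∨ σ = -1)
    (h : (∑ᶠ y : ↥P, Ξ (y : G)) + (σ : ℂ) * ((p : ℂ) * Ξ τ) = 0) :
    (∑ᶠ y : ↥P, (ψ : G → ℂ) (y : G)) + (σ : ℂ) * ((p : ℂ) * (ψ : G → ℂ) τ) = 0 := by
  classical
  have : Fact p.Prime := ⟨hp⟩
  have : Finite (IrrCharacter G) := Cfsg.Agent.H80.irr_finite G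
  let _ : Fintype (IrrCharacter G) := Fintype.ofFinite _
  let _ : Fintype P := Fintype.ofFinite P
  have hdb : ∀ χ : IrrCharacter G, ∃ (w : ℕ) (s : ℤ), (χ : G → ℂ) τ = (s : ℂ) ∧
      ∑ᶠ y : ↥P, (χ : G → ℂ) (y : G) = (p : ℂ) * (w : ℂ) ∧ |s| ≤ (w : ℤ) :=
    fun χ => Cfsg.Agent.H62.BR.dihedral_bound p hp2 P hP τ hτ hinv χ.1
      (Cfsg.Agent.H4.isCharacter_of_isIrrCharacter χ.2)
  choose w s hs hw hsw using hdb
  have hn : ∀ χ : IrrCharacter G, ∃ n : ℕ, classInner Ξ (χ : G → ℂ) = n := fun χ =>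
    Cfsg.Agent.H4.classInner_isCharacter_nat hΞ (Cfsg.Agent.H4.isCharacter_of_isIrrCharacter χ.2)
  choose n hn using hn
  have hdec : ∀ g : G, Ξ g = ∑ χ : IrrCharacter G, (n χ : ℂ) * (χ : G → ℂ) g := by
    intro g
    have h0 := congrFun (Cfsg.Agent.H4.classFunction_eq_finsum
      (Cfsg.Agent.H4.isClassFunction_of_isCharacter hΞ)) g
    rw [finsum_eq_sum_of_fintype, Finset.sum_apply] at h0
    rw [h0]
    refine Finset.sum_congr rfl fun χ _ => ?_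
    rw [Pi.smul_apply, smul_eq_mul, hn]
  have hsumP : ∑ᶠ y : ↥P, Ξ (y : G) =
      ∑ χ : IrrCharacter G, (n χ : ℂ) * ((p : ℂ) * (w χ : ℂ)) := by
    rw [finsum_eq_sum_of_fintype]
    simp_rw [hdec]
    rw [Finset.sum_comm]
    refine Finset.sum_congr rfl fun χ _ => ?_
    rw [← Finset.mul_sum, ← hw χ, finsum_eq_sum_of_fintype]
  have hτΞ : Ξ τ = ∑ χ : IrrCharacter G, (n χ : ℂ) * (s χ : ℂ) := by
    rw [hdec]
    refine Finset.sum_congr rfl fun χ _ => ?_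
    rw [hs]
  have hnψ : n ψ ≠ 0 := by
    intro h0
    apply hψ
    rw [hn, h0]
    simp
  have hz : ∑ χ : IrrCharacter G, (n χ : ℤ) * ((p : ℤ) * ((w χ : ℤ) + σ * s χ)) = 0 := by
    have h1 : ((∑ χ : IrrCharacter G, (n χ : ℤ) * ((p : ℤ) * ((w χ : ℤ) + σ * s χ)) : ℤ) : ℂ)
        = 0 := by
      rw [← h, hsumP, hτΞ, Finset.mul_sum, Finset.mul_sum, ← Finset.sum_add_distrib]
      push_cast
      refine Finset.sum_congr rfl fun χ _ => ?_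
      ring
    exact_mod_cast h1
  have hnn : ∀ χ ∈ (Finset.univ : Finset (IrrCharacter G)),
      0 ≤ (n χ : ℤ) * ((p : ℤ) * ((w χ : ℤ) + σ * s χ)) := by
    intro χ _
    have h1 := hsw χ
    have h2 : 0 ≤ (w χ : ℤ) + σ * s χ := by
      rcases hσ with rfl | rfl
      · have := neg_abs_le (s χ); linarith
      · have := le_abs_self (s χ); linarith
    exact mul_nonneg (Int.natCast_nonneg _) (mul_nonneg (Int.natCast_nonneg _) h2)
  have hterm := (Finset.sum_eq_zero_iff_of_nonneg hnn).1 hz ψ (Finset.mem_univ ψ)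
  have hws : (w ψ : ℤ) + σ * s ψ = 0 := by
    rcases mul_eq_zero.1 hterm with h1 | h1
    · exact absurd (by exact_mod_cast h1) hnψ
    · rcases mul_eq_zero.1 h1 with h2 | h2
      · exact absurd (by exact_mod_cast h2) hp.ne_zero
      · exact h2
  rw [hw ψ, hs ψ]
  have h3 : ((w ψ : ℤ) : ℂ) + (σ : ℂ) * ((s ψ : ℤ) : ℂ) = 0 := by exact_mod_cast hws
  push_cast at h3
  linear_combination (p : ℂ) * h3

theorem dih : StDih.{u} := by
  intro G _ _ p hp hp2 P hP τ hτ hinv Ξ hΞ ψ hψ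
  constructor
  · intro h
    have h1 := dih_aux p hp hp2 P hP τ hτ hinv Ξ hΞ ψ hψ 1 (Or.inl rfl)
      (by push_cast; rw [one_mul]; exact h)
    push_cast at h1
    rw [one_mul] at h1
    exact h1
  · intro h
    have h1 := dih_aux p hp hp2 P hP τ hτ hinv Ξ hΞ ψ hψ (-1) (Or.inr rfl)
      (by push_cast; rw [neg_one_mul, ← sub_eq_add_neg]; exact h)
    push_cast at h1
    rw [neg_one_mul, ← sub_eq_add_neg] at h1
    exact h1

example : ∀ {G : Type u} [Group G] [Fintype G] (p : ℕ) (_ : p.Prime) (_ : p ≠ 2)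
    (P : Subgroup G)
    (_ : Nat.card P = p) (τ : G) (_ : orderOf τ = 2) (_ : ∀ y ∈ P, τ * y * τ⁻¹ = y⁻¹)
    (Ξ : G → ℂ) (_ : IsCharacter G Ξ) (ψ : IrrCharacter G) (_ : classInner Ξ (ψ : G → ℂ) ≠ 0),
    ((∑ᶠ y : ↥P, Ξ (y : G)) + (p : ℂ) * Ξ τ = 0 →
        (∑ᶠ y : ↥P, (ψ : G → ℂ) (y : G)) + (p : ℂ) * (ψ : G → ℂ) τ = 0) ∧
      ((∑ᶠ y : ↥P, Ξ (y : G)) - (p : ℂ) * Ξ τ = 0 →
        (∑ᶠ y : ↥P, (ψ : G → ℂ) (y : G)) - (p : ℂ) * (ψ : G → ℂ) τ = 0) := dih.{u}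

end Cfsg.Agent.H20.BT

#print axioms Cfsg.Agent.H20.BT.dih
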