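import Cfsg.Agent.H1.BTDefs
import Cfsg.Agent.H4.RealClasses

set_option autoImplicit false

/-! S0997-B-REAL for helper1: the two exceptional characters are real valued. -/

namespace Cfsg.Agent.H20.BT

open Cfsg Cfsg.Agent.H21.BR Cfsg.Agent.H1.BT
open scoped ComplexConjugate

universe u

theorem real_aux {G : Type u} [Group G] [Finite G] (p e b : ℕ) (P : Sylow p G)
    (X Y : Finset (IrrCharacter G)) (δ : IrrCharacter G → ℤ) (τ x : G) (θ₁ θ₂ : IrrCharacter G)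
    (hT : T2 p e b P X Y δ τ x θ₁ θ₂) (θ θo : IrrCharacter G)
    (hY : ∀ ψ : IrrCharacter G, ψ ∈ Y → ψ = θ ∨ ψ = θo)
    (hsum : (θ : G → ℂ) x + (θo : G → ℂ) x = 1)
    (hprod : (θ : G → ℂ) x * (θo : G → ℂ) x = -(e : ℂ) / 2)
    (hreal : conj ((θ : G → ℂ) x) = (θ : G → ℂ) x)
    (hneo : (θ : G → ℂ) x ≠ (θo : G → ℂ) x) :
    ∀ g : G, conj ((θ : G → ℂ) g) = (θ : G → ℂ) g := by
  classical
  have hc := hT.ctx
  have he0 : (e : ℂ) ≠ 0 := Nat.cast_ne_zero.2 (by have := hc.he2; omega)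
  have hθx0 : (θ : G → ℂ) x ≠ 0 := by
    intro h0
    rw [h0, zero_mul] at hprod
    apply he0
    linear_combination (2 : ℂ) * hprod
  have hirr : IsIrrCharacter G (fun g => conj ((θ : G → ℂ) g)) :=
    Cfsg.Agent.H4.isIrrCharacter_conj θ.2
  have hθ'x : ((⟨_, hirr⟩ : IrrCharacter G) : G → ℂ) x = (θ : G → ℂ) x := hreal
  have hnX : (⟨_, hirr⟩ : IrrCharacter G) ∉ X := by
    intro hX
    have hv := hc.hB0.val_X _ hX x hc.hx hc.hx1
    rw [hθ'x] at hv
    rcases hc.hB0.δ_pm _ hX with hd | hd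
    · rw [hd] at hv
      have h1 : (θo : G → ℂ) x = 0 := by
        rw [hv] at hsum
        push_cast at hsum
        linear_combination hsum
      rw [h1, mul_zero] at hprod
      apply he0
      linear_combination (2 : ℂ) * hprod
    · rw [hd] at hv
      have h1 : (θo : G → ℂ) x = 2 := by
        rw [hv] at hsum
        push_cast at hsum
        linear_combination hsum
      rw [hv, h1] at hprod
      push_cast at hprod
      have h4 : (e : ℂ) = ((4 : ℕ) : ℂ) := by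
        push_cast
        linear_combination (2 : ℂ) * hprod
      have h4' : e = 4 := Nat.cast_injective h4
      have hp9 : p = 9 := by rw [← hT.ht, h4']
      have hp := hc.hp
      rw [hp9] at hp
      norm_num at hp
  have hmY : (⟨_, hirr⟩ : IrrCharacter G) ∈ Y := by
    by_contra hnY
    have hv := hc.hB0.out_van _ hnX hnY x hc.hx hc.hx1
    rw [hθ'x] at hv
    exact hθx0 hv
  rcases hY _ hmY with h | h
  · intro g
    exact congrArg (fun t : IrrCharacter G => (t : G → ℂ) g) h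
  · exfalso
    apply hneo
    rw [← hθ'x]
    exact congrArg (fun t : IrrCharacter G => (t : G → ℂ) x) h

theorem real : StReal.{u} := by
  intro G _ _ p e b P X Y δ τ x θ₁ θ₂ hT hV
  have hc := hT.ctx
  obtain ⟨hs, hpr, hr1, hr2⟩ := hV x hc.hx hc.hx1
  have hpC : (p : ℂ) ≠ 0 := Nat.cast_ne_zero.2 hc.hp.ne_zero
  have hpe : (p : ℂ) = 2 * (e : ℂ) + 1 := by rw [← hT.ht]; push_cast; ring
  have hne12 : (θ₁ : G → ℂ) x ≠ (θ₂ : G → ℂ) x := by
    intro h
    apply hpC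
    have h1 : (p : ℂ) = ((θ₁ : G → ℂ) x + (θ₂ : G → ℂ) x) ^ 2 -
        4 * ((θ₁ : G → ℂ) x * (θ₂ : G → ℂ) x) := by
      rw [hs, hpr, hpe]; ring
    rw [h1, h]; ring
  refine ⟨?_, ?_⟩
  · exact real_aux p e b P X Y δ τ x θ₁ θ₂ hT θ₁ θ₂ (fun ψ hψ => (hT.hY ψ).1 hψ) hs hpr hr1 hne12
  · exact real_aux p e b P X Y δ τ x θ₁ θ₂ hT θ₂ θ₁ (fun ψ hψ => ((hT.hY ψ).1 hψ).symm)
      (by rw [add_comm]; exact hs) (by rw [mul_comm]; exact hpr) hr2 hne12.symm

example : ∀ {G : Type u} [Group G] [Finite G] (p e b : ℕ) (P : Sylow p G)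
    (X Y : Finset (IrrCharacter G)) (δ : IrrCharacter G → ℤ) (τ x : G) (θ₁ θ₂ : IrrCharacter G)
    (_ : T2 p e b P X Y δ τ x θ₁ θ₂) (_ : ValP e P θ₁ θ₂),
    (∀ g : G, conj ((θ₁ : G → ℂ) g) = (θ₁ : G → ℂ) g) ∧
      ∀ g : G, conj ((θ₂ : G → ℂ) g) = (θ₂ : G → ℂ) g := real.{u}

end Cfsg.Agent.H20.BT

#print axioms Cfsg.Agent.H20.BT.real
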