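import Cfsg.Agent.H1.BTDefs
import Cfsg.Agent.H16.BRCol
import Cfsg.Agent.H81.Counting
import Cfsg.Agent.H4.Irr

set_option autoImplicit false

/-! S0997-B-VALP for helper1: the values of the two exceptional characters on `P \ 1`. -/

namespace Cfsg.Agent.H20.BT

open Cfsg Cfsg.Agent.H21.BR Cfsg.Agent.H1.BT
open scoped ComplexConjugate

universe u

theorem valP : StValP.{u} := by
  intro G _ _ p e b P X Y δ τ x θ₁ θ₂ hT y hy hy1
  classical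
  have hc := hT.ctx
  have : Fact p.Prime := ⟨hc.hp⟩
  obtain ⟨f0, -, -, hsum, hsq⟩ :=
    Cfsg.Agent.H16.BR.col_facts p P hc.hP hc.hC e X Y δ (-1) hc.hB0
  have hYeq : Y = {θ₁, θ₂} := by
    ext θ
    simp [hT.hY]
  have hreal : ∀ θ : IrrCharacter G, conj ((θ : G → ℂ) y) = (θ : G → ℂ) y := by
    intro θ
    rw [← Cfsg.Agent.H81.irr_inv θ y, ← hc.hinv y hy]
    exact Cfsg.Agent.H4.irr_isClassFunction θ y τ
  have h1 := hsum y hy hy1
  have h2 := hsq y hy hy1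
  rw [hYeq, Finset.sum_pair hT.hne] at h1 h2
  rw [hreal θ₁, hreal θ₂] at h2
  have hpe : (p : ℂ) - (e : ℂ) = (e : ℂ) + 1 := by
    rw [← hT.ht]; push_cast; ring
  rw [hpe] at h2
  simp only [Int.cast_neg, Int.cast_one, neg_neg] at h1
  refine ⟨h1, ?_, hreal θ₁, hreal θ₂⟩
  have h3 : (θ₁ : G → ℂ) y * (θ₂ : G → ℂ) y =
      (((θ₁ : G → ℂ) y + (θ₂ : G → ℂ) y) ^ 2 -
        ((θ₁ : G → ℂ) y * (θ₁ : G → ℂ) y + (θ₂ : G → ℂ) y * (θ₂ : G → ℂ) y)) / 2 := by ring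
  rw [h3, h1, h2]; ring

example : ∀ {G : Type u} [Group G] [Finite G] (p e b : ℕ) (P : Sylow p G)
    (X Y : Finset (IrrCharacter G)) (δ : IrrCharacter G → ℤ) (τ x : G) (θ₁ θ₂ : IrrCharacter G)
    (_ : T2 p e b P X Y δ τ x θ₁ θ₂), ValP e P θ₁ θ₂ := valP.{u}

end Cfsg.Agent.H20.BT

#print axioms Cfsg.Agent.H20.BT.valP
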