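import Mathlib
import Cfsg.Prelude.Def_Blocks
import Cfsg.Prelude.Def_BrauerPairs
import Cfsg.Agent.H20.HeightZero
import Cfsg.Agent.H80.EqvIrr

/-!
# helper20: the Brauer correspondence over a subgroup containing `N_G(P)`

* `isDefectGroup_eqvIrr_image` : defect groups are transported by group isomorphisms.
* `block_eq_of_coeff_congr` : a block with a defect class in `C_G(P)` is determined by the
  coefficients of its idempotent on `C_G(P)` modulo the local ideal.
* `exists_normalizer_block_coeff`, `exists_block_of_normalizer_coeff` : the first main theorem with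
  the congruence of idempotents on `C_G(P)`.
* `exists_normalizer_block_coeff_over`, `exists_block_over_of_normalizer_coeff` : the same for a
  subgroup `H ⊇ N_G(P)` in place of `G`.
-/

set_option autoImplicit false
set_option linter.style.haveILetI false
set_option linter.unusedSectionVars false

namespace Cfsg.Agent.H20

open Cfsg Cfsg.Agent.H4

open scoped BigOperators

universe u

section Transport

variable {K K' : Type u} [Group K] [Group K'] {p : ℕ} {M : Ideal AlgInt}

theorem isDefectClass_eqvIrr_image (ψ : K ≃* K') (A : Set (IrrCharacter K)) (g : K)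
    (h : IsDefectClass M A g) : IsDefectClass M (Cfsg.Agent.H80.eqvIrr ψ '' A) (ψ g) := by
  obtain ⟨h1, h2, h3⟩ := h
  have e : blockCoeff (Cfsg.Agent.H80.eqvIrr ψ '' A) (ψ g) = blockCoeff A g := by
    rw [Cfsg.Agent.H80.blockCoeff_eqvIrr_image, MulEquiv.symm_apply_apply]
  refine ⟨?_, ?_, ?_⟩
  · rw [e]; exact h1
  · rw [e]; exact h2
  · rintro χ' ⟨χ, hχ, rfl⟩
    rw [Cfsg.Agent.H80.centralChar_eqvIrr, MulEquiv.symm_apply_apply]
    exact h3 χ hχ

theorem isMaxP_centralizer_equiv (ψ : K ≃* K') (g : K) (D : Subgroup K)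
    (h : IsMaxP p (Subgroup.centralizer ({g} : Set K)) D) :
    IsMaxP p (Subgroup.centralizer ({ψ g} : Set K')) (D.map ψ.toMonoidHom) := by
  obtain ⟨hle, hp, hmax⟩ := h
  refine ⟨?_, hp.map _, ?_⟩
  · rintro x ⟨d, hd, rfl⟩
    have := hle hd
    rw [Subgroup.mem_centralizer_singleton_iff] at this ⊢
    show ψ d * ψ g = ψ g * ψ d
    rw [← map_mul, ← map_mul, this]
  · intro Q hQ hDQ hQC
    have hQ' : IsPGroup p (Q.comap ψ.toMonoidHom) := hQ.comap_of_injective _ ψ.injective
    have h1 : D ≤ Q.comap ψ.toMonoidHom := by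
      intro d hd
      exact hDQ ⟨d, hd, rfl⟩
    have h2 : Q.comap ψ.toMonoidHom ≤ Subgroup.centralizer ({g} : Set K) := by
      intro x hx
      have := hQC (Subgroup.mem_comap.mp hx)
      rw [Subgroup.mem_centralizer_singleton_iff] at this ⊢
      apply ψ.injective
      rw [map_mul, map_mul]
      exact this
    have h3 := hmax _ hQ' h1 h2
    rw [← h3, Subgroup.map_comap_eq_self_of_surjective]
    exact ψ.surjective

theorem isDefectGroup_eqvIrr_image [Fact p.Prime] [Finite K] (ψ : K ≃* K')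
    (A : Set (IrrCharacter K)) (D : Subgroup K) (h : IsDefectGroup p M A D) :
    IsDefectGroup p M (Cfsg.Agent.H80.eqvIrr ψ '' A) (D.map ψ.toMonoidHom) := by
  haveI : Finite K' := Finite.of_equiv K ψ.toEquiv
  obtain ⟨g, hg, S, hS⟩ := h
  refine ⟨ψ g, isDefectClass_eqvIrr_image ψ A g hg, ?_⟩
  exact (isMaxP_centralizer_equiv ψ g D (isMaxP_of_sylow_map _ _ S hS)).exists_sylow

end Transport

section Unique

variable {G : Type u} [Group G] [Fintype G] {p : ℕ} [Fact p.Prime] {M : Ideal AlgInt}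

/-- A block with a defect class in `C_G(P)` is determined by the coefficients of its idempotent on
`C_G(P)` modulo the local ideal. -/
theorem block_eq_of_coeff_congr (hM : IsPModular p M) (P : Subgroup G) (hP : IsPGroup p P)
    (χ₁ χ₂ : IrrCharacter G) (y : G) (hy : y ∈ Subgroup.centralizer (P : Set G))
    (hy1 : ¬ MemLocalIdeal M (blockCoeff (blockOf M (χ₁ : G → ℂ)) y))
    (hcong : ∀ x ∈ Subgroup.centralizer (P : Set G), MemLocalIdeal M
      (blockCoeff (blockOf M (χ₁ : G → ℂ)) x - blockCoeff (blockOf M (χ₂ : G → ℂ)) x)) :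
    blockOf M (χ₁ : G → ℂ) = blockOf M (χ₂ : G → ℂ) := by
  classical
  letI : Fintype (Subgroup.normalizer (P : Set G)) := Fintype.ofFinite _
  have hMp := isPrime_of_isPModular hM
  have hCN : Subgroup.centralizer (P : Set G) ≤ Subgroup.normalizer (P : Set G) :=
    Subgroup.centralizer_le_normalizer _
  by_contra hne
  have hinter := Cfsg.Agent.H80.blocks_inter_eq_empty hMp ⟨χ₁, rfl⟩ ⟨χ₂, rfl⟩ hne
  have he1R := blockElt_mem hMp χ₁
  have he2R := blockElt_mem hMp χ₂
  have hprod : blockElt (blockOf M (χ₁ : G → ℂ)) * blockElt (blockOf M (χ₂ : G → ℂ)) = 0 := by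
    rw [Cfsg.Agent.H80.blockElt_mul_blockElt, hinter, Cfsg.Agent.H80.blockElt_empty]
  obtain ⟨β₁, hβ₁⟩ : ∃ β : MonoidAlgebra ℂ (Subgroup.normalizer (P : Set G)),
      β = brMap P (Subgroup.normalizer (P : Set G)) (blockElt (blockOf M (χ₁ : G → ℂ))) :=
    ⟨_, rfl⟩
  obtain ⟨β₂, hβ₂⟩ : ∃ β : MonoidAlgebra ℂ (Subgroup.normalizer (P : Set G)),
      β = brMap P (Subgroup.normalizer (P : Set G)) (blockElt (blockOf M (χ₂ : G → ℂ))) :=
    ⟨_, rfl⟩
  have hβ₁R : β₁ ∈ cfSubring (Subgroup.normalizer (P : Set G)) (localRing M hMp) := by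
    rw [hβ₁]; exact brMap_mem le_rfl he1R
  -- β₁ * β₂ ≡ 0
  have h12 : CoeffIdeal M (β₁ * β₂) := by
    intro c
    have h1 := coeff_brMap_mul_sub_mem hM hP hCN he1R he2R c
    rw [hprod, ← hβ₁, ← hβ₂] at h1
    have h2 := memLocalIdeal_neg h1
    convert h2 using 1
    rw [MonoidAlgebra.coeff_sub, Finsupp.sub_apply, coeff_brMap]
    simp
  -- β₁ * β₁ ≡ β₁
  have h11 : CoeffIdeal M (β₁ * β₁ - β₁) := by
    intro c
    have h1 := coeff_brMap_mul_sub_mem hM hP hCN he1R he1R c
    rw [Cfsg.Agent.H81.blockElt_mul_self, ← hβ₁] at h1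
    have h2 := memLocalIdeal_neg h1
    convert h2 using 1
    rw [MonoidAlgebra.coeff_sub, MonoidAlgebra.coeff_sub]
    simp
  -- β₁ ≡ β₂
  have hd : CoeffIdeal M (β₁ - β₂) := by
    intro c
    rw [MonoidAlgebra.coeff_sub, Finsupp.sub_apply, hβ₁, hβ₂, coeff_brMap, coeff_brMap]
    by_cases hc : (c : G) ∈ Subgroup.centralizer (P : Set G)
    · rw [if_pos hc, if_pos hc, coeff_blockElt, coeff_blockElt]
      exact hcong _ hc
    · rw [if_neg hc, if_neg hc, sub_zero]
      exact memLocalIdeal_zero hMp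
  have hall : CoeffIdeal M β₁ := by
    have e : β₁ = β₁ * (β₁ - β₂) + β₁ * β₂ - (β₁ * β₁ - β₁) := by
      rw [mul_sub]
      abel
    rw [e]
    exact ((CoeffIdeal.mul_left hMp hβ₁R hd).add hMp h12).sub hMp h11
  have := hall ⟨y, hCN hy⟩
  rw [hβ₁, coeff_brMap, if_pos hy, coeff_blockElt] at this
  exact hy1 this

/-- A block with defect group `P` has a defect class in `C_G(P)`. -/
theorem exists_mem_centralizer_of_isDefectGroup (B : Set (IrrCharacter G)) (P : Subgroup G)
    (h : IsDefectGroup p M B P) :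
    ∃ y ∈ Subgroup.centralizer (P : Set G), ¬ MemLocalIdeal M (blockCoeff B y) := by
  obtain ⟨y, hy, S, hS⟩ := h
  refine ⟨y, ?_, hy.2.1⟩
  rw [Subgroup.mem_centralizer_iff]
  intro d hd
  have : d ∈ Subgroup.centralizer ({y} : Set G) := by
    rw [hS] at hd
    exact Subgroup.map_subtype_le _ hd
  rw [Subgroup.mem_centralizer_singleton_iff] at this
  exact this

end Unique

section FirstMainCoeff

variable {G : Type u} [Group G] [Fintype G] {p : ℕ} [Fact p.Prime] {M : Ideal AlgInt}

/-- First main theorem, from `G` to `N_G(P)`, with the congruence of the idempotents. -/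
theorem exists_normalizer_block_coeff (hM : IsPModular p M) (P : Subgroup G) (hP : IsPGroup p P)
    (χ₀ : IrrCharacter G) (hdef : IsDefectGroup p M (blockOf M (χ₀ : G → ℂ)) P) :
    ∃ ξ₀ : IrrCharacter (Subgroup.normalizer (P : Set G)),
      IsDefectGroup p M (blockOf M (ξ₀ : Subgroup.normalizer (P : Set G) → ℂ))
        (P.subgroupOf (Subgroup.normalizer (P : Set G))) ∧
      ∀ (x : G) (hx : x ∈ Subgroup.normalizer (P : Set G)),
        x ∈ Subgroup.centralizer (P : Set G) →
        MemLocalIdeal M (blockCoeff (blockOf M (χ₀ : G → ℂ)) x -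
          blockCoeff (blockOf M (ξ₀ : Subgroup.normalizer (P : Set G) → ℂ)) ⟨x, hx⟩) := by
  classical
  letI : Fintype (Subgroup.normalizer (P : Set G)) := Fintype.ofFinite _
  obtain ⟨ξ₀, hdefN, hind⟩ := first_main_exists hM P hP χ₀ hdef
  refine ⟨ξ₀, hdefN, fun x hx hxC => ?_⟩
  have hA := coeffIdeal_brMap_blockElt_sub hM P hP χ₀ ξ₀ hdefN hind ⟨x, hx⟩
  rw [MonoidAlgebra.coeff_sub, Finsupp.sub_apply, coeff_brMap, if_pos hxC, coeff_blockElt,
    coeff_blockElt] at hA
  exact hA

/-- First main theorem, from `N_G(P)` to `G`, with the congruence of the idempotents. -/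
theorem exists_block_of_normalizer_coeff (hM : IsPModular p M) (P : Subgroup G)
    (hP : IsPGroup p P) (ξ₀ : IrrCharacter (Subgroup.normalizer (P : Set G)))
    (hdefN : IsDefectGroup p M (blockOf M (ξ₀ : Subgroup.normalizer (P : Set G) → ℂ))
      (P.subgroupOf (Subgroup.normalizer (P : Set G)))) :
    ∃ χ₀ : IrrCharacter G, IsDefectGroup p M (blockOf M (χ₀ : G → ℂ)) P ∧
      ∀ (x : G) (hx : x ∈ Subgroup.normalizer (P : Set G)),
        x ∈ Subgroup.centralizer (P : Set G) →
        MemLocalIdeal M (blockCoeff (blockOf M (χ₀ : G → ℂ)) x -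
          blockCoeff (blockOf M (ξ₀ : Subgroup.normalizer (P : Set G) → ℂ)) ⟨x, hx⟩) := by
  classical
  letI : Fintype (Subgroup.normalizer (P : Set G)) := Fintype.ofFinite _
  obtain ⟨χ₀, hdefG, hind⟩ := first_main_i hM P hP ξ₀ hdefN
  refine ⟨χ₀, hdefG, fun x hx hxC => ?_⟩
  have hA := coeffIdeal_brMap_blockElt_sub hM P hP χ₀ ξ₀ hdefN hind ⟨x, hx⟩
  rw [MonoidAlgebra.coeff_sub, Finsupp.sub_apply, coeff_brMap, if_pos hxC, coeff_blockElt,
    coeff_blockElt] at hA
  exact hA

end FirstMainCoeff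

section Over

variable {G : Type u} [Group G] [Fintype G] {p : ℕ} [Fact p.Prime] {M : Ideal AlgInt}

theorem coe_mem_normalizer_of_mem (P H : Subgroup G) (hPH : P ≤ H) (k : H)
    (hk : k ∈ Subgroup.normalizer ((P.subgroupOf H : Subgroup H) : Set H)) :
    (k : G) ∈ Subgroup.normalizer (P : Set G) := by
  rw [← Subgroup.subgroupOf_normalizer_eq hPH] at hk
  exact hk

theorem mem_normalizer_subgroupOf_of_mem (P H : Subgroup G) (hPH : P ≤ H) (k : H)
    (hk : (k : G) ∈ Subgroup.normalizer (P : Set G)) :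
    k ∈ Subgroup.normalizer ((P.subgroupOf H : Subgroup H) : Set H) := by
  rw [← Subgroup.subgroupOf_normalizer_eq hPH]
  exact hk

/-- `N_H(P) ≃ N_G(P)` when `N_G(P) ≤ H`. -/
def normEquiv (P H : Subgroup G) (hPH : P ≤ H) (hH : Subgroup.normalizer (P : Set G) ≤ H) :
    Subgroup.normalizer ((P.subgroupOf H : Subgroup H) : Set H) ≃*
      Subgroup.normalizer (P : Set G) where
  toFun n' := ⟨((n' : H) : G), coe_mem_normalizer_of_mem P H hPH n'.1 n'.2⟩
  invFun n := ⟨⟨(n : G), hH n.2⟩, mem_normalizer_subgroupOf_of_mem P H hPH ⟨(n : G), hH n.2⟩ n.2⟩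
  left_inv n' := Subtype.ext (Subtype.ext rfl)
  right_inv n := Subtype.ext rfl
  map_mul' a b := Subtype.ext rfl

theorem map_normEquiv (P H : Subgroup G) (hPH : P ≤ H)
    (hH : Subgroup.normalizer (P : Set G) ≤ H) :
    ((P.subgroupOf H).subgroupOf (Subgroup.normalizer ((P.subgroupOf H : Subgroup H) : Set H))).map
        (normEquiv P H hPH hH).toMonoidHom =
      P.subgroupOf (Subgroup.normalizer (P : Set G)) := by
  ext n
  constructor
  · rintro ⟨n', hn', rfl⟩
    exact hn'
  · intro hn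
    exact ⟨(normEquiv P H hPH hH).symm n, hn, MulEquiv.apply_symm_apply _ n⟩

theorem map_normEquiv_symm (P H : Subgroup G) (hPH : P ≤ H)
    (hH : Subgroup.normalizer (P : Set G) ≤ H) :
    (P.subgroupOf (Subgroup.normalizer (P : Set G))).map
        (normEquiv P H hPH hH).symm.toMonoidHom =
      (P.subgroupOf H).subgroupOf (Subgroup.normalizer ((P.subgroupOf H : Subgroup H) : Set H)) := by
  ext n'
  constructor
  · rintro ⟨n, hn, rfl⟩
    exact hn
  · intro hn'
    exact ⟨normEquiv P H hPH hH n', hn', MulEquiv.symm_apply_apply _ n'⟩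

theorem mem_centralizer_subgroupOf_of_mem (P H : Subgroup G) {x : G} (hxH : x ∈ H)
    (hxC : x ∈ Subgroup.centralizer (P : Set G)) :
    (⟨x, hxH⟩ : H) ∈ Subgroup.centralizer ((P.subgroupOf H : Subgroup H) : Set H) := by
  rw [Subgroup.mem_centralizer_iff]
  intro d hd
  have hd' : (d : G) ∈ P := Subgroup.mem_subgroupOf.mp hd
  rw [Subgroup.mem_centralizer_iff] at hxC
  apply Subtype.ext
  exact hxC _ hd'

/-- First main theorem over `H ⊇ N_G(P)`: from `H` to `N_G(P)`. -/
theorem exists_normalizer_block_coeff_over (hM : IsPModular p M) (P H : Subgroup G)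
    (hP : IsPGroup p P) (hH : Subgroup.normalizer (P : Set G) ≤ H) (χc : IrrCharacter H)
    (hdef : IsDefectGroup p M (blockOf M (χc : H → ℂ)) (P.subgroupOf H)) :
    ∃ ξ₀ : IrrCharacter (Subgroup.normalizer (P : Set G)),
      IsDefectGroup p M (blockOf M (ξ₀ : Subgroup.normalizer (P : Set G) → ℂ))
        (P.subgroupOf (Subgroup.normalizer (P : Set G))) ∧
      ∀ (x : G) (hx : x ∈ Subgroup.normalizer (P : Set G)),
        x ∈ Subgroup.centralizer (P : Set G) →
        MemLocalIdeal M (blockCoeff (blockOf M (χc : H → ℂ)) ⟨x, hH hx⟩ -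
          blockCoeff (blockOf M (ξ₀ : Subgroup.normalizer (P : Set G) → ℂ)) ⟨x, hx⟩) := by
  classical
  letI : Fintype H := Fintype.ofFinite H
  have hPH : P ≤ H := Subgroup.le_normalizer.trans hH
  have hPHp : IsPGroup p (P.subgroupOf H) := hP.comap_subtype
  obtain ⟨ξ'', hdef'', hcong''⟩ := exists_normalizer_block_coeff hM (P.subgroupOf H) hPHp χc hdef
  refine ⟨Cfsg.Agent.H80.eqvIrr (normEquiv P H hPH hH) ξ'', ?_, ?_⟩
  · rw [← Cfsg.Agent.H80.eqvIrr_image_blockOf, ← map_normEquiv P H hPH hH]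
    exact isDefectGroup_eqvIrr_image (normEquiv P H hPH hH) _ _ hdef''
  · intro x hx hxC
    rw [← Cfsg.Agent.H80.eqvIrr_image_blockOf, Cfsg.Agent.H80.blockCoeff_eqvIrr_image]
    exact hcong'' ⟨x, hH hx⟩ ((normEquiv P H hPH hH).symm ⟨x, hx⟩).2
      (mem_centralizer_subgroupOf_of_mem P H (hH hx) hxC)

/-- First main theorem over `H ⊇ N_G(P)`: from `N_G(P)` to `H`. -/
theorem exists_block_over_of_normalizer_coeff (hM : IsPModular p M) (P H : Subgroup G)
    (hP : IsPGroup p P) (hH : Subgroup.normalizer (P : Set G) ≤ H)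
    (ξ₀ : IrrCharacter (Subgroup.normalizer (P : Set G)))
    (hdefN : IsDefectGroup p M (blockOf M (ξ₀ : Subgroup.normalizer (P : Set G) → ℂ))
      (P.subgroupOf (Subgroup.normalizer (P : Set G)))) :
    ∃ χc : IrrCharacter H, IsDefectGroup p M (blockOf M (χc : H → ℂ)) (P.subgroupOf H) ∧
      ∀ (x : G) (hx : x ∈ Subgroup.normalizer (P : Set G)),
        x ∈ Subgroup.centralizer (P : Set G) →
        MemLocalIdeal M (blockCoeff (blockOf M (χc : H → ℂ)) ⟨x, hH hx⟩ -
          blockCoeff (blockOf M (ξ₀ : Subgroup.normalizer (P : Set G) → ℂ)) ⟨x, hx⟩) := by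
  classical
  letI : Fintype H := Fintype.ofFinite H
  have hPH : P ≤ H := Subgroup.le_normalizer.trans hH
  have hPHp : IsPGroup p (P.subgroupOf H) := hP.comap_subtype
  have hdef'' : IsDefectGroup p M
      (blockOf M ((Cfsg.Agent.H80.eqvIrr (normEquiv P H hPH hH).symm ξ₀ :
        IrrCharacter (Subgroup.normalizer ((P.subgroupOf H : Subgroup H) : Set H))) :
          Subgroup.normalizer ((P.subgroupOf H : Subgroup H) : Set H) → ℂ))
      ((P.subgroupOf H).subgroupOf
        (Subgroup.normalizer ((P.subgroupOf H : Subgroup H) : Set H))) := by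
    rw [← Cfsg.Agent.H80.eqvIrr_image_blockOf, ← map_normEquiv_symm P H hPH hH]
    exact isDefectGroup_eqvIrr_image (normEquiv P H hPH hH).symm _ _ hdefN
  obtain ⟨χc, hdefH, hcong⟩ := exists_block_of_normalizer_coeff hM (P.subgroupOf H) hPHp _ hdef''
  refine ⟨χc, hdefH, fun x hx hxC => ?_⟩
  have h := hcong ⟨x, hH hx⟩ ((normEquiv P H hPH hH).symm ⟨x, hx⟩).2
    (mem_centralizer_subgroupOf_of_mem P H (hH hx) hxC)
  rw [← Cfsg.Agent.H80.eqvIrr_image_blockOf, Cfsg.Agent.H80.blockCoeff_eqvIrr_image] at h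
  exact h

end Over

end Cfsg.Agent.H20
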