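import Mathlib

/-!
helper20: S2478-LBA for helper98 — every monic polynomial of degree `n` is the characteristic
polynomial of an `n × n` matrix.
-/

set_option autoImplicit false

namespace Cfsg.Agent.H20.GLk

open Polynomial

theorem exists_charpoly_eq {F : Type*} [Field F] (n : ℕ) (f : F[X]) (hf : f.Monic)
    (hd : f.natDegree = n) : ∃ A : Matrix (Fin n) (Fin n) F, A.charpoly = f := by
  subst hd
  have h2 : minpoly F (AdjoinRoot.powerBasis' hf).gen = f := by
    show minpoly F (AdjoinRoot.root f) = f
    rw [AdjoinRoot.minpoly_root hf.ne_zero, hf.leadingCoeff, inv_one, map_one, mul_one]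
  exact ⟨Algebra.leftMulMatrix (AdjoinRoot.powerBasis' hf).basis (AdjoinRoot.powerBasis' hf).gen,
    (charpoly_leftMulMatrix (AdjoinRoot.powerBasis' hf)).trans h2⟩

end Cfsg.Agent.H20.GLk
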