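import Mathlib
import Cfsg.Agent.H98.GLkDefs

/-!
helper20: S2478-LBB for helper98 — the lower bound `q^n - q^(n-1) ≤ k(GL_n(q))` from the
characteristic polynomial.
-/

set_option autoImplicit false

namespace Cfsg.Agent.H20.GLk

open Polynomial Cfsg.Agent.H98.GLk

theorem card_conjClasses_ge {F : Type*} [Field F] [Fintype F]
    (hc : ∀ m : ℕ, Nat.card {g : F[X] // g.Monic ∧ g.natDegree = m ∧ g.coeff 0 ≠ 0} =
      cm (Fintype.card F) m)
    (hex : ∀ f : F[X], f.Monic → ∀ n : ℕ, f.natDegree = n →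
      ∃ A : Matrix (Fin n) (Fin n) F, A.charpoly = f)
    (n : ℕ) (hn : 1 ≤ n) :
    Fintype.card F ^ n - Fintype.card F ^ (n - 1) ≤
      Nat.card (ConjClasses (Matrix.GeneralLinearGroup (Fin n) F)) := by
  classical
  have h1 := hc n
  have hcm : cm (Fintype.card F) n = Fintype.card F ^ n - Fintype.card F ^ (n - 1) := by
    unfold cm
    rw [if_neg (by omega)]
  rw [← hcm, ← h1]
  have hA : ∀ g : {g : F[X] // g.Monic ∧ g.natDegree = n ∧ g.coeff 0 ≠ 0},
      ∃ A : Matrix.GeneralLinearGroup (Fin n) F,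
        (A : Matrix (Fin n) (Fin n) F).charpoly = g.1 := by
    intro g
    obtain ⟨A, hA⟩ := hex g.1 g.2.1 n g.2.2.1
    have hdet : A.det ≠ 0 := by
      rw [Matrix.det_eq_sign_charpoly_coeff, hA]
      exact mul_ne_zero (pow_ne_zero _ (neg_ne_zero.mpr one_ne_zero)) g.2.2.2
    exact ⟨Matrix.nonsingInvUnit A (isUnit_iff_ne_zero.mpr hdet), hA⟩
  choose Φ hΦ using hA
  have hfin : Finite (Matrix.GeneralLinearGroup (Fin n) F) := inferInstance
  apply Nat.card_le_card_of_injective (fun g => ConjClasses.mk (Φ g))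
  intro g g' hgg
  have h2 : IsConj (Φ g) (Φ g') := ConjClasses.mk_eq_mk_iff_isConj.mp hgg
  obtain ⟨c, hc'⟩ := isConj_iff.mp h2
  apply Subtype.ext
  rw [← hΦ g, ← hΦ g']
  have h3 : (Φ g' : Matrix (Fin n) (Fin n) F)
      = (c : Matrix (Fin n) (Fin n) F) * (Φ g : Matrix (Fin n) (Fin n) F)
        * (c : Matrix (Fin n) (Fin n) F)⁻¹ := by
    rw [← hc']
    simp
  rw [h3, Matrix.charpoly_units_conj]

end Cfsg.Agent.H20.GLk
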