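import Mathlib
import Cfsg.Prelude.Def_Blocks
import Cfsg.Agent.H20.LocalChar
import Cfsg.Agent.H84.ThirdMain

/-!
# helper20: Knörr's theorem on characters vanishing on the elements of order `p`

* `dvd_card_pow_eq_one` : Frobenius: if `p ∣ |D|` then `p` divides the number of solutions of
  `x ^ p = 1` in `D`.
* `not_dvd_card_orderOf_eq` : hence the number of elements of order `p` is prime to `p`.
* `knorr` : an irreducible character vanishing at all elements of order `p` has `p`-defect zero.
-/

set_option autoImplicit false
set_option linter.style.haveILetI false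
set_option linter.unusedSectionVars false

namespace Cfsg.Agent.H20

open Cfsg Cfsg.Agent.H4

open scoped BigOperators

universe u

section Frobenius

open Equiv Equiv.Perm

/-- Frobenius' theorem for exponent `p`: if `p` divides the order of `D`, then `p` divides the
number of solutions of `x ^ p = 1`. -/
theorem dvd_card_pow_eq_one (D : Type*) [Group D] [Fintype D] [DecidableEq D] (p : ℕ)
    [hp : Fact p.Prime] (hdvd : p ∣ Fintype.card D) :
    p ∣ (Finset.univ.filter (fun x : D => x ^ p = 1)).card := by
  have hp' : p - 1 ≠ 0 := mt tsub_eq_zero_iff_le.mp (not_le_of_gt hp.out.one_lt)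
  have Scard : p ∣ Fintype.card (vectorsProdEqOne D p) := by
    rw [VectorsProdEqOne.card]
    exact hdvd.trans (dvd_pow (dvd_refl _) hp')
  let f : ℕ → vectorsProdEqOne D p → vectorsProdEqOne D p := fun k v =>
    VectorsProdEqOne.rotate v k
  have hf1 : ∀ v, f 0 v = v := VectorsProdEqOne.rotate_zero
  have hf2 : ∀ j k v, f k (f j v) = f (j + k) v := fun j k v =>
    VectorsProdEqOne.rotate_rotate v j k
  have hf3 : ∀ v, f p v = v := VectorsProdEqOne.rotate_length
  let σ : Equiv.Perm (vectorsProdEqOne D p) :=
    Equiv.mk (f 1) (f (p - 1)) (fun s => by rw [hf2, add_tsub_cancel_of_le hp.out.one_lt.le, hf3])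
      fun s => by rw [hf2, tsub_add_cancel_of_le hp.out.one_lt.le, hf3]
  have hσ1 : ∀ v, σ v = f 1 v := fun v => rfl
  have hσ : ∀ k v, (σ ^ k) v = f k v := fun k =>
    Nat.rec (fun v => (hf1 v).symm) (fun k hk v => by
      rw [pow_succ, Perm.mul_apply, hk (σ v), Nat.succ_eq_one_add, ← hf2 1 k]
      simp only [σ, coe_fn_mk]) k
  replace hσ : σ ^ p ^ 1 = 1 := Perm.ext fun v => by rw [pow_one, hσ, hf3, one_apply]
  have hmod := Equiv.Perm.card_compl_support_modEq hσ
  have hfix : p ∣ (support σ)ᶜ.card :=
    (Nat.modEq_zero_iff_dvd).mp (hmod.trans (Nat.modEq_zero_iff_dvd.mpr Scard))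
  have hbij : (Finset.univ.filter (fun x : D => x ^ p = 1)).card = (support σ)ᶜ.card := by
    apply Finset.card_bij (fun x hx => (⟨List.Vector.replicate p x, by
        rw [VectorsProdEqOne.mem_iff]
        have h1 : x ^ p = 1 := (Finset.mem_filter.mp hx).2
        show (List.replicate p x).prod = 1
        rw [List.prod_replicate, h1]⟩ : vectorsProdEqOne D p))
    · intro x hx
      rw [Finset.mem_compl, Perm.mem_support, not_not, hσ1]
      exact Subtype.ext (Subtype.ext (List.rotate_replicate x p 1))
    · intro x hx y hy hxy
      have h1 : List.replicate p x = List.replicate p y :=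
        congrArg (fun v : vectorsProdEqOne D p => v.1.1) hxy
      have h2 := congrArg (fun l : List D => l.head?) h1
      obtain ⟨n, hn⟩ : ∃ n, p = n + 1 := ⟨p - 1, by have := hp.out.pos; omega⟩
      subst hn
      simpa [List.replicate_succ] using h2
    · intro v hv
      rw [Finset.mem_compl, Perm.mem_support, not_not, hσ1] at hv
      have hne : Nonempty D := ⟨1⟩
      obtain ⟨g, hg⟩ := List.rotate_one_eq_self_iff_eq_replicate.mp
        (Subtype.ext_iff.mp (Subtype.ext_iff.mp hv))
      have hg' : v.1.1 = List.replicate p g := by
        rw [hg, v.1.2]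
      refine ⟨g, ?_, ?_⟩
      · rw [Finset.mem_filter]
        refine ⟨Finset.mem_univ _, ?_⟩
        rw [← List.prod_replicate, ← hg']
        exact v.2
      · exact Subtype.ext (Subtype.ext hg'.symm)
  rw [hbij]
  exact hfix

/-- In a finite group of order divisible by `p`, the number of elements of order `p` is not
divisible by `p`. -/
theorem not_dvd_card_orderOf_eq (D : Type*) [Group D] [Finite D] (p : ℕ) [hp : Fact p.Prime]
    (hdvd : p ∣ Nat.card D) : ¬ p ∣ Nat.card {x : D // orderOf x = p} := by
  classical
  letI : Fintype D := Fintype.ofFinite D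
  rw [Nat.card_eq_fintype_card] at hdvd
  have h1 := dvd_card_pow_eq_one D p hdvd
  have h2 : Finset.univ.filter (fun x : D => x ^ p = 1) =
      insert 1 (Finset.univ.filter (fun x : D => orderOf x = p)) := by
    ext x
    rw [Finset.mem_insert, Finset.mem_filter, Finset.mem_filter]
    simp only [Finset.mem_univ, true_and]
    constructor
    · intro hx
      have h3 : orderOf x ∣ p := orderOf_dvd_of_pow_eq_one hx
      rcases (Nat.dvd_prime hp.out).mp h3 with h4 | h4
      · left; exact orderOf_eq_one_iff.mp h4
      · right; exact h4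
    · rintro (rfl | hx)
      · exact one_pow p
      · rw [← hx]; exact pow_orderOf_eq_one x
  have h3 : (1 : D) ∉ Finset.univ.filter (fun x : D => orderOf x = p) := by
    rw [Finset.mem_filter]
    rintro ⟨-, h⟩
    rw [orderOf_one] at h
    exact hp.out.one_lt.ne h
  rw [h2, Finset.card_insert_of_notMem h3] at h1
  rw [Nat.card_eq_fintype_card, Fintype.card_subtype]
  intro h4
  have h5 : p ∣ 1 := (Nat.dvd_add_right h4).mp h1
  exact hp.out.one_lt.ne' (Nat.dvd_one.mp h5)

end Frobenius

section Main

variable {G : Type u} [Group G] [Fintype G] {p : ℕ} [Fact p.Prime] {M : Ideal AlgInt}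

/-- **Knörr's theorem**: an irreducible character vanishing at every element of order `p` has
`p`-defect zero. -/
theorem knorr (hM : IsPModular p M) (χ : IrrCharacter G)
    (hvan : ∀ g : G, orderOf g = p → (χ : G → ℂ) g = 0) :
    (charDegree (χ : G → ℂ)).factorization p = (Nat.card G).factorization p := by
  classical
  have hp : p.Prime := Fact.out
  have hMp := isPrime_of_isPModular hM
  obtain ⟨y, hy⟩ := Cfsg.Agent.S0906.result p M hM (blockOf M (χ : G → ℂ)) ⟨χ, rfl⟩
  obtain ⟨S⟩ := (inferInstance : Nonempty (Sylow p (Subgroup.centralizer ({y} : Set G))))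
  set D : Subgroup G := (S : Subgroup (Subgroup.centralizer ({y} : Set G))).map
    (Subgroup.centralizer ({y} : Set G)).subtype with hDdef
  have hD : IsDefectGroup p M (blockOf M (χ : G → ℂ)) D := ⟨y, hy, S, rfl⟩
  have hDp : IsPGroup p D := isPGroup_of_isDefectGroup hD
  have hcard := card_defectGroup hM χ D hD
  have hχself := Cfsg.Agent.H80.mem_blockOf_self hMp χ
  rcases hDp.card_eq_or_dvd with h1 | hdvd
  · -- defect zero
    rw [h1] at hcard
    have hd0 : blockDefect p (blockOf M (χ : G → ℂ)) = 0 := by
      by_contra hne
      have : 1 < p ^ blockDefect p (blockOf M (χ : G → ℂ)) :=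
        Nat.one_lt_pow hne hp.one_lt
      omega
    unfold blockDefect at hd0
    have hle : sInf ((fun ψ : IrrCharacter G => (charDegree (ψ : G → ℂ)).factorization p) ''
        blockOf M (χ : G → ℂ)) ≤ (charDegree (χ : G → ℂ)).factorization p :=
      Nat.sInf_le ⟨χ, hχself, rfl⟩
    have hdvd := Cfsg.Agent.H81.irr_charDegree_dvd χ
    have hpos := (Cfsg.Agent.H81.irr_charDegree χ).2
    have hle2 : (charDegree (χ : G → ℂ)).factorization p ≤ (Nat.card G).factorization p :=
      (Nat.factorization_le_iff_dvd hpos.ne' Nat.card_pos.ne').mpr hdvd p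
    omega
  · exfalso
    letI : Fintype (Subgroup.normalizer (D : Set G)) := Fintype.ofFinite _
    have hDN : D ≤ Subgroup.normalizer (D : Set G) := Subgroup.le_normalizer
    obtain ⟨θ, hθ1, hθ2, hθ3⟩ := exists_normalizer_char hM χ D hD
    have hθ1ne := irr_one_ne_zero θ
    -- the values of `θ / θ 1` at the elements of order `p`
    have hval : ∀ g : G, orderOf g = p →
        extendByZero (Subgroup.normalizer (D : Set G))
          (fun h => (θ : Subgroup.normalizer (D : Set G) → ℂ) h /
            (θ : Subgroup.normalizer (D : Set G) → ℂ) 1) g = if g ∈ D then 1 else 0 := by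
      intro g hg
      by_cases hgN : g ∈ Subgroup.normalizer (D : Set G)
      · rw [extendByZero_of_mem _ _ hgN]
        by_cases hgD : g ∈ D
        · rw [if_pos hgD]
          have := hθ2 ⟨g, hgN⟩ (by rw [Subgroup.mem_subgroupOf]; exact hgD)
          show (θ : Subgroup.normalizer (D : Set G) → ℂ) ⟨g, hgN⟩ /
            (θ : Subgroup.normalizer (D : Set G) → ℂ) 1 = 1
          rw [this, div_self hθ1ne]
        · rw [if_neg hgD]
          have hord : orderOf ((⟨g, hgN⟩ : Subgroup.normalizer (D : Set G)) :
              Subgroup.normalizer (D : Set G) ⧸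
                D.subgroupOf (Subgroup.normalizer (D : Set G))) = p := by
            apply orderOf_eq_prime
            · rw [← QuotientGroup.mk_pow]
              have : (⟨g, hgN⟩ : Subgroup.normalizer (D : Set G)) ^ p = 1 := by
                apply Subtype.ext
                show g ^ p = 1
                rw [← hg]; exact pow_orderOf_eq_one g
              rw [this, QuotientGroup.mk_one]
            · intro h1
              rw [QuotientGroup.eq_one_iff, Subgroup.mem_subgroupOf] at h1
              exact hgD h1
          have := hθ3 ⟨g, hgN⟩ (by rw [hord])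
          show (θ : Subgroup.normalizer (D : Set G) → ℂ) ⟨g, hgN⟩ /
            (θ : Subgroup.normalizer (D : Set G) → ℂ) 1 = 0
          rw [this, zero_div]
      · rw [extendByZero_of_not_mem _ _ hgN, if_neg (fun h => hgN (hDN h))]
    -- the weight function
    set w : G → ℂ := fun g => if g ∈ D ∧ orderOf g = p then 1 else 0 with hw
    have hclass : ∀ h : G, ∑ y ∈ Finset.univ.filter (fun y => IsConj h y), w y ∈
        localIdeal M hMp := by
      intro h
      rw [mem_localIdeal]
      by_cases hh : orderOf h = p
      · have e1 : ∑ y ∈ Finset.univ.filter (fun y => IsConj h y), w y =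
            inducedCentralChar (Subgroup.normalizer (D : Set G))
              (θ : Subgroup.normalizer (D : Set G) → ℂ) h := by
          rw [Cfsg.Agent.H84.inducedCentralChar_eq_sum]
          apply Finset.sum_congr rfl
          intro y hy
          rw [Finset.mem_filter] at hy
          have hoy : orderOf y = p := by
            rw [Cfsg.Agent.H84.orderOf_eq_of_isConj hy.2, hh]
          rw [hval y hoy, hw]
          simp only [hoy, and_true]
        rw [e1]
        have a1 := hθ1 h
        have a2 : centralChar (χ : G → ℂ) h = 0 := by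
          unfold centralChar
          rw [hvan h hh, mul_zero, zero_div]
        rw [a2, sub_zero] at a1
        exact a1
      · have e1 : ∑ y ∈ Finset.univ.filter (fun y => IsConj h y), w y = 0 := by
          apply Finset.sum_eq_zero
          intro y hy
          rw [Finset.mem_filter] at hy
          have hoy : orderOf y ≠ p := by
            rw [Cfsg.Agent.H84.orderOf_eq_of_isConj hy.2]; exact hh
          rw [hw]
          simp only [hoy, and_false, if_false]
        rw [e1]
        exact memLocalIdeal_zero hMp
    have hsum := Cfsg.Agent.H84.sum_mem_of_class_sums (localIdeal M hMp) w hclass Finset.univ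
      (fun h _ x => Finset.mem_univ _)
    rw [mem_localIdeal] at hsum
    have hcount : ∑ g : G, w g = ((Nat.card {x : D // orderOf x = p} : ℕ) : ℂ) := by
      rw [hw, Finset.sum_boole]
      congr 1
      rw [Nat.card_eq_fintype_card, ← Fintype.card_subtype]
      apply Fintype.card_congr
      exact
        { toFun := fun g => ⟨⟨g.1, g.2.1⟩,
            ((Subgroup.orderOf_coe (⟨g.1, g.2.1⟩ : D)).symm).trans g.2.2⟩
          invFun := fun x => ⟨x.1.1, x.1.2, (Subgroup.orderOf_coe x.1).trans x.2⟩
          left_inv := fun g => rfl
          right_inv := fun x => rfl }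
    rw [hcount, memLocalIdeal_natCast_iff hM] at hsum
    exact not_dvd_card_orderOf_eq D p hdvd hsum

end Main

end Cfsg.Agent.H20
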