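import Cfsg.Agent.H91.L34NDefs

/-!
# S3154-E16 (for helper91): the two subgroups of exponent 2 and order 16 of the Heisenberg
group over `F₄`
-/

set_option autoImplicit false

namespace Cfsg.Agent.H20.L34N

open Subgroup Cfsg.Agent.H60 Cfsg.Agent.H60.L34 Cfsg.Agent.H91.L34N

universe u

/-- `sgA F = {p = 0}` has `|F|^2` elements. -/
theorem card_sgA {F : Type u} [Field F] [Fintype F] :
    Nat.card ↥(sgA F) = Fintype.card F * Fintype.card F := by
  have e : ↥(sgA F) ≃ F × F :=
    { toFun := fun g => (g.1.s, g.1.r)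
      invFun := fun t => ⟨⟨0, t.1, t.2⟩, mk_mem_sgA _ _⟩
      left_inv := fun g => by
        apply Subtype.ext
        apply Heis.ext
        · exact (mem_sgA.mp g.2).symm
        · rfl
        · rfl
      right_inv := fun t => rfl }
  rw [Nat.card_congr e, Nat.card_prod, Nat.card_eq_fintype_card]

/-- `sgB F = {s = 0}` has `|F|^2` elements. -/
theorem card_sgB {F : Type u} [Field F] [Fintype F] :
    Nat.card ↥(sgB F) = Fintype.card F * Fintype.card F := by
  have e : ↥(sgB F) ≃ F × F :=
    { toFun := fun g => (g.1.p, g.1.r)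
      invFun := fun t => ⟨⟨t.1, 0, t.2⟩, mk_mem_sgB _ _⟩
      left_inv := fun g => by
        apply Subtype.ext
        apply Heis.ext
        · rfl
        · exact (mem_sgB.mp g.2).symm
        · rfl
      right_inv := fun t => rfl }
  rw [Nat.card_congr e, Nat.card_prod, Nat.card_eq_fintype_card]

/-- **S3154-E16.** -/
theorem e16 : E16Stmt.{u} := by
  intro F _ _ hF A hA hcard
  have h2 : (2 : F) = 0 := two_eq_zero_of_card hF
  have hps : ∀ a ∈ A, a.p * a.s = 0 := by
    intro a ha
    have h1 := congrArg Heis.r (hA a ha)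
    rw [Heis.mul_r, Heis.one_r] at h1
    have h3 : a.r + a.r = 0 := by rw [← two_mul, h2, zero_mul]
    rw [h3, zero_add] at h1
    exact h1
  have hfin : Finite (Heis F) := Nat.finite_of_card_ne_zero (by rw [heis_card hF]; norm_num)
  have hle : A ≤ sgA F ∨ A ≤ sgB F := by
    by_contra hcon
    push Not at hcon
    obtain ⟨h1, h2'⟩ := hcon
    obtain ⟨a, ha, hap⟩ := SetLike.not_le_iff_exists.mp h1
    obtain ⟨b, hb, hbs⟩ := SetLike.not_le_iff_exists.mp h2'
    rw [mem_sgA] at hap
    rw [mem_sgB] at hbs
    have has : a.s = 0 := by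
      rcases mul_eq_zero.mp (hps a ha) with h | h
      · exact absurd h hap
      · exact h
    have hbp : b.p = 0 := by
      rcases mul_eq_zero.mp (hps b hb) with h | h
      · exact h
      · exact absurd h hbs
    have hab := hps (a * b) (A.mul_mem ha hb)
    rw [Heis.mul_p, Heis.mul_s, has, hbp, add_zero, zero_add] at hab
    rcases mul_eq_zero.mp hab with h | h
    · exact hap h
    · exact hbs h
  rcases hle with h | h
  · left
    refine Subgroup.eq_of_le_of_card_ge h ?_
    rw [card_sgA, hF, hcard]
  · right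
    refine Subgroup.eq_of_le_of_card_ge h ?_
    rw [card_sgB, hF, hcard]

end Cfsg.Agent.H20.L34N
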