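import Cfsg.Agent.H91.L34NDefs
import Cfsg.Agent.H73.L34Tr

/-!
# S3154-SPLIT (for helper91): the normalizer of the full preimage of `E` splits

In a finite central extension `φ : X → L` by a group of exponent 2, if `N_L(E) = E ⋊ j(S)` with
`S` perfect and the full preimage of `E'` is abelian, then the normalizer of the full preimage
of `E` splits over it with a complement isomorphic to `S` (transfer, `Cfsg.Agent.H73.L34.tr`).
-/

set_option autoImplicit false

namespace Cfsg.Agent.H20.L34N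

open Subgroup Cfsg.Agent.H91.L34N

open scoped commutatorElement

universe u v w

/-- A commutator is unchanged when its entries are multiplied by central elements. -/
theorem commutatorElement_mul_central {X : Type u} [Group X] (c₁ c₂ z₁ z₂ : X)
    (hz₁ : z₁ ∈ center X) (hz₂ : z₂ ∈ center X) : ⁅c₁ * z₁, c₂ * z₂⁆ = ⁅c₁, c₂⁆ := by
  have h1 : ∀ g : X, g * z₁ = z₁ * g := Subgroup.mem_center_iff.mp hz₁
  have h2 : ∀ g : X, g * z₂ = z₂ * g := Subgroup.mem_center_iff.mp hz₂
  have e1 : ∀ b : X, ⁅c₁ * z₁, b⁆ = ⁅c₁, b⁆ := by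
    intro b
    rw [commutatorElement_def, commutatorElement_def, mul_inv_rev]
    have h3 : c₁ * z₁ * b * (z₁⁻¹ * c₁⁻¹) = c₁ * b * c₁⁻¹ := by
      calc c₁ * z₁ * b * (z₁⁻¹ * c₁⁻¹) = c₁ * (z₁ * b) * z₁⁻¹ * c₁⁻¹ := by group
        _ = c₁ * (b * z₁) * z₁⁻¹ * c₁⁻¹ := by rw [h1 b]
        _ = c₁ * b * c₁⁻¹ := by group
    rw [h3]
  have e2 : ∀ a : X, ⁅a, c₂ * z₂⁆ = ⁅a, c₂⁆ := by
    intro a
    rw [commutatorElement_def, commutatorElement_def, mul_inv_rev]
    calc a * (c₂ * z₂) * a⁻¹ * (z₂⁻¹ * c₂⁻¹) = a * c₂ * (z₂ * a⁻¹) * z₂⁻¹ * c₂⁻¹ := by group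
      _ = a * c₂ * (a⁻¹ * z₂) * z₂⁻¹ * c₂⁻¹ := by rw [← h2 a⁻¹]
      _ = a * c₂ * a⁻¹ * c₂⁻¹ := by group
  rw [e1, e2]

/-- **S3154-SPLIT.** -/
theorem split : SplitStmt.{u, v, w} := by
  intro X _ _ L _ S _ _ φ hφ hker hker2 E E' hcfg hperf hab
  obtain ⟨j, U, hj, hjE, hjnorm, hnormE, hUodd, hUE'⟩ := hcfg
  let M : Subgroup X := j.range.comap φ
  let C : Subgroup X := ⁅M, M⁆
  have hCM : C ≤ M := by
    refine Subgroup.commutator_le.mpr fun a ha b hb => ?_
    rw [commutatorElement_def]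
    exact M.mul_mem (M.mul_mem (M.mul_mem ha hb) (M.inv_mem ha)) (M.inv_mem hb)
  have hMmap : M.map φ = j.range := Subgroup.map_comap_eq_self_of_surjective hφ _
  have hCmap : C.map φ = j.range := by
    show (⁅M, M⁆ : Subgroup X).map φ = j.range
    rw [Subgroup.map_commutator, hMmap, MonoidHom.range_eq_map, ← Subgroup.map_commutator,
      ← _root_.commutator_def, hperf]
  have hlift : ∀ A : S, ∃ c ∈ C, φ c = j A := by
    intro A
    have h1 : j A ∈ C.map φ := by rw [hCmap]; exact ⟨A, rfl⟩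
    exact Subgroup.mem_map.mp h1
  have hdecomp : ∀ m ∈ M, ∃ c ∈ C, ∃ z ∈ φ.ker, m = c * z := by
    intro m hm
    obtain ⟨A, hA⟩ : φ m ∈ j.range := hm
    obtain ⟨c, hc, hc'⟩ := hlift A
    refine ⟨c, hc, c⁻¹ * m, ?_, by group⟩
    rw [MonoidHom.mem_ker, map_mul, map_inv, hc', hA, inv_mul_cancel]
  have hCC : C ≤ ⁅C, C⁆ := by
    refine Subgroup.commutator_le.mpr fun a ha b hb => ?_
    obtain ⟨c₁, hc₁, z₁, hz₁, rfl⟩ := hdecomp a ha
    obtain ⟨c₂, hc₂, z₂, hz₂, rfl⟩ := hdecomp b hb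
    rw [commutatorElement_mul_central c₁ c₂ z₁ z₂ (hker hz₁) (hker hz₂)]
    exact Subgroup.commutator_mem_commutator hc₁ hc₂
  have hCC' : ⁅C, C⁆ ≤ C := by
    refine Subgroup.commutator_le.mpr fun a ha b hb => ?_
    rw [commutatorElement_def]
    exact C.mul_mem (C.mul_mem (C.mul_mem ha hb) (C.inv_mem ha)) (C.inv_mem hb)
  have hCperf : commutator ↥C = ⊤ := by
    have h1 : (commutator ↥C).map C.subtype = (⊤ : Subgroup ↥C).map C.subtype := by
      rw [Subgroup.map_subtype_commutator, ← MonoidHom.range_eq_map, Subgroup.range_subtype]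
      exact le_antisymm hCC' hCC
    exact Subgroup.map_injective C.subtype_injective h1
  -- the restriction of `φ` to `C`
  let f : ↥C →* L := φ.comp C.subtype
  have hfrange : f.range = j.range := by
    rw [← hCmap, MonoidHom.range_comp, Subgroup.range_subtype]
  let P : Subgroup ↥C := (U.map j).comap f
  have hPodd : Odd P.index := by
    show Odd ((U.map j).comap f).index
    rw [Subgroup.index_comap, hfrange, MonoidHom.range_eq_map,
      Subgroup.relIndex_map_map_of_injective _ _ hj, Subgroup.relIndex_top_right]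
    exact hUodd
  have hPE' : ∀ x : ↥P, φ ((x : ↥C) : X) ∈ E' := by
    intro x
    obtain ⟨u, hu, hu'⟩ := Subgroup.mem_map.mp (x.2 : f x ∈ U.map j)
    have h1 : φ ((x : ↥C) : X) = j u := hu'.symm
    rw [h1]
    exact hUE' u hu
  have hPab : ∀ x y : ↥P, x * y = y * x := by
    intro x y
    apply Subtype.ext
    apply Subtype.ext
    exact hab _ _ (hPE' x) (hPE' y)
  have hCker : ∀ z ∈ C, φ z = 1 → z = 1 := by
    intro z hzC hz1
    have hzker : z ∈ φ.ker := hz1
    have hcen : (⟨z, hzC⟩ : ↥C) ∈ center ↥C := by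
      rw [Subgroup.mem_center_iff]
      intro g
      apply Subtype.ext
      exact Subgroup.mem_center_iff.mp (hker hzker) g
    have hsq : (⟨z, hzC⟩ : ↥C) * ⟨z, hzC⟩ = 1 := Subtype.ext (hker2 z hzker)
    have hzP : (⟨z, hzC⟩ : ↥C) ∈ P := by
      show f ⟨z, hzC⟩ ∈ U.map j
      have h1 : f ⟨z, hzC⟩ = 1 := hz1
      rw [h1]
      exact one_mem _
    have htr := Cfsg.Agent.H73.L34.tr hCperf P hPodd ⟨z, hzC⟩ hcen hsq hzP
    have hcomm : commutator ↥P = ⊥ := by
      rw [_root_.commutator_def, Subgroup.commutator_eq_bot_iff_le_centralizer]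
      intro x _
      rw [Subgroup.mem_centralizer_iff]
      intro y _
      exact hPab y x
    rw [hcomm, Subgroup.map_bot, Subgroup.mem_bot] at htr
    exact congrArg Subtype.val htr
  have hfinj : Function.Injective f := by
    rw [injective_iff_map_eq_one]
    intro c hc
    exact Subtype.ext (hCker c c.2 hc)
  -- the isomorphism
  have hiso : Nonempty (↥C ≃* S) :=
    ⟨(MonoidHom.ofInjective hfinj).trans
      ((MulEquiv.subgroupCongr hfrange).trans (MonoidHom.ofInjective hj).symm)⟩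
  -- the normalizer
  have hCnorm : C ≤ normalizer ((E.comap φ : Subgroup X) : Set X) := by
    intro c hc
    obtain ⟨A, hA⟩ : φ c ∈ j.range := hCM hc
    rw [Subgroup.mem_normalizer_iff]
    intro h
    rw [Subgroup.mem_comap, Subgroup.mem_comap, map_mul, map_mul, map_inv, ← hA]
    constructor
    · intro hh
      exact hjnorm A _ hh
    · intro hh
      have h1 := hjnorm A⁻¹ _ hh
      rw [map_inv] at h1
      convert h1 using 1
      group
  refine ⟨C, hCnorm, ?_, ?_, hiso⟩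
  · rw [eq_bot_iff]
    intro c hc
    obtain ⟨hcC, hcE⟩ := hc
    obtain ⟨A, hA⟩ : φ c ∈ j.range := hCM hcC
    have hcE' : φ c ∈ E := hcE
    rw [← hA] at hcE'
    have hA1 := hjE A hcE'
    rw [hA1, map_one] at hA
    rw [Subgroup.mem_bot]
    exact hCker c hcC hA.symm
  · refine le_antisymm (sup_le Subgroup.le_normalizer hCnorm) ?_
    intro x hx
    rw [Subgroup.mem_normalizer_iff] at hx
    have h1 : ∀ e ∈ E, φ x * e * (φ x)⁻¹ ∈ E := by
      intro e he
      obtain ⟨h, rfl⟩ := hφ e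
      have h2 := (hx h).mp he
      rwa [Subgroup.mem_comap, map_mul, map_mul, map_inv] at h2
    obtain ⟨e, he, A, hA⟩ := hnormE (φ x) h1
    obtain ⟨c, hc, hc'⟩ := hlift A
    have h2 : x * c⁻¹ ∈ E.comap φ := by
      rw [Subgroup.mem_comap, map_mul, map_inv, hc', hA, mul_inv_cancel_right]
      exact he
    have h3 : x = x * c⁻¹ * c := by group
    rw [h3]
    exact Subgroup.mul_mem_sup h2 hc

end Cfsg.Agent.H20.L34N
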