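import Cfsg.Agent.H21.Ord720

/-!
# Pieces S1022-BDE23 and S1022-BDE6 (for helper21): the principal `19`-block of a simple group
of order `459648 = 2^7 * 3^3 * 7 * 19`

* `deg_cases`: the possible degrees `≡ ±1 (mod 19)`.
* `bde_setup`: the data of `S4441` for `p = 19`, unpacked: the nontrivial members `T` of `X`
  (as a finset), their signs and degrees, the common degree `y` of `Y`, and the degree equation.
* `relIndex_ne_two_three` (BDE23), `exists_two_characters` (BDE6).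
-/

set_option autoImplicit false

namespace Cfsg.Agent.H20.O459

open Cfsg Cfsg.Agent.H21 Cfsg.Agent.H21.E2Block

/-- The divisors `x ≠ 1` of `459648` with `x ^ 2 ≤ 459648` and `x ≡ ±1 (mod 19)`. -/
theorem deg_cases (x : ℕ) (s : ℤ) (hs : s = 1 ∨ s = -1) (hdvd : x ∣ 459648)
    (hsq : x ^ 2 ≤ 459648) (hmod : (x : ℤ) ≡ s [ZMOD 19]) (hx1 : x ≠ 1) :
    (x = 18 ∧ s = -1) ∨ (x = 56 ∧ s = -1) ∨ (x = 189 ∧ s = -1) ∨ (x = 96 ∧ s = 1) := by
  have hx : x < 678 := by nlinarith
  have hd := hmod.dvd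
  rcases hs with rfl | rfl
  · obtain ⟨k, hk⟩ := hd
    have hk0 : 0 ≤ -k := by omega
    obtain ⟨j, hj⟩ := Int.eq_ofNat_of_zero_le hk0
    have hxj : x = 19 * j + 1 := by omega
    subst hxj
    have hj36 : j < 36 := by omega
    interval_cases j <;> omega
  · obtain ⟨k, hk⟩ := hd
    have hk0 : 0 ≤ -k - 1 := by omega
    obtain ⟨j, hj⟩ := Int.eq_ofNat_of_zero_le hk0
    have hxj : x = 19 * j + 18 := by omega
    subst hxj
    have hj36 : j < 36 := by omega
    interval_cases j <;> omega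

/-- The principal `19`-block data of `S4441` for a simple group of order `459648`, unpacked:
`T` is the set of nontrivial members of `X`, `s` their signs, `y` the common degree of the
members of `Y`. -/
theorem bde_setup {G : Type*} [Group G] [Finite G] [IsSimpleGroup G]
    (h : Nat.card G = 459648) (P : Sylow 19 G) (hP : Nat.card P = 19) (e : ℕ)
    (he : (Subgroup.centralizer ((P : Subgroup G) : Set G)).relIndex
      (Subgroup.normalizer ((P : Subgroup G) : Set G)) = e)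
    (he1 : e = 2 ∨ e = 3 ∨ e = 6) :
    ∃ (T : Finset (IrrCharacter G)) (s : IrrCharacter G → ℤ) (y : ℕ) (ε : ℤ),
      T.card + 1 = e ∧
      (∀ χ ∈ T, (charDegree (χ : G → ℂ) = 18 ∧ s χ = -1) ∨
        (charDegree (χ : G → ℂ) = 56 ∧ s χ = -1) ∨
        (charDegree (χ : G → ℂ) = 189 ∧ s χ = -1) ∨ (charDegree (χ : G → ℂ) = 96 ∧ s χ = 1)) ∧
      (∀ χ ∈ T, ∀ x : G, x ∈ (P : Subgroup G) → x ≠ 1 → ∀ y : G,
        y ∈ Subgroup.centralizer ((P : Subgroup G) : Set G) → ¬ 19 ∣ orderOf y →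
        (χ : G → ℂ) (x * y) = (s χ : ℂ)) ∧
      y ∣ 459648 ∧ (ε = 1 ∨ ε = -1) ∧
      ε * (y : ℤ) = 1 + ∑ χ ∈ T, s χ * (charDegree (χ : G → ℂ) : ℤ) := by
  classical
  let : Fintype G := Fintype.ofFinite G
  let : Fintype (IrrCharacter G) := Cfsg.Agent.H4.fintypeIrr G
  have : Fact (Nat.Prime 19) := ⟨by norm_num⟩
  have hnp : ¬ (Nat.card G).Prime := by rw [h]; norm_num
  have hG : ¬ IsMulCommutative G := Cfsg.Agent.H21.not_comm_of_not_prime hnp
  have hna : ∃ u v : G, u * v ≠ v * u := by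
    by_contra hcon
    push Not at hcon
    exact hG ⟨⟨hcon⟩⟩
  obtain ⟨M, hM⟩ := Cfsg.Agent.H78.exists_isPModular 19 (by norm_num)
  obtain ⟨X, Y, hB, hdisj, hX, hY, εX, ε, hXp, hε, hYdeg, hYeq, hYsum⟩ :=
    Cfsg.Agent.S4441.result 19 M hM (by norm_num) P hP e he
  rw [Nat.card_coe_set_eq] at hX hY
  have h0B : triv G ∈ principalBlock M G := Cfsg.Agent.H81.mem_blockOf_self hM (triv G)
  have hval1 : ∀ ζ : IrrCharacter G, (ζ : G → ℂ) 1 = (charDegree (ζ : G → ℂ) : ℂ) :=
    fun ζ => (Cfsg.Agent.H81.irr_charDegree ζ).1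
  have hdeg0 : charDegree ((triv G : IrrCharacter G) : G → ℂ) = 1 := by
    have := hval1 (triv G)
    rw [triv_apply] at this
    exact_mod_cast this.symm
  have h0X : triv G ∈ X := by
    rw [hB] at h0B
    rcases h0B with h0 | h0
    · exact h0
    · exfalso
      have h1 := (hYdeg _ h0).dvd
      rw [hdeg0] at h1
      push_cast at h1
      rcases hε with rfl | rfl <;> rcases he1 with rfl | rfl | rfl <;> omega
  have hs0 : εX (triv G) = 1 := by
    obtain ⟨h1, h2, -⟩ := hXp _ h0X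
    rw [hdeg0] at h2
    have h3 := h2.dvd
    rcases h1 with h1 | h1
    · exact h1
    · rw [h1] at h3; omega
  have hYne : Y.Nonempty := by
    rw [← Set.ncard_pos (Set.toFinite Y), hY]
    rcases he1 with rfl | rfl | rfl <;> norm_num
  obtain ⟨θ, hθ⟩ := hYne
  have hTfin : (X \ {triv G}).Finite := Set.toFinite _
  have hreg1 : ¬ 19 ∣ orderOf (1 : G) := by rw [orderOf_one]; norm_num
  refine ⟨hTfin.toFinset, εX, charDegree (θ : G → ℂ), ε, ?_, ?_, ?_, ?_, hε, ?_⟩
  · rw [← Set.ncard_eq_toFinset_card _ hTfin, Set.ncard_sdiff_singleton_of_mem h0X, hX]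
    rcases he1 with rfl | rfl | rfl <;> rfl
  · intro χ hχ
    rw [Set.Finite.mem_toFinset] at hχ
    obtain ⟨hχX, hχne⟩ := hχ
    have hχne' : χ ≠ triv G := fun h => hχne (by rw [h]; rfl)
    obtain ⟨hsχ, hmodχ, -⟩ := hXp χ hχX
    have hxdvd := Cfsg.Agent.H81.irr_charDegree_dvd χ
    have hxsq := irr_degree_sq_le χ
    rw [h] at hxdvd hxsq
    refine deg_cases _ _ hsχ hxdvd hxsq hmodχ ?_
    intro h1
    have hdeg : (χ : G → ℂ) 1 = ((19 : ℕ) : ℂ) ^ 0 := by rw [hval1, h1]; simp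
    have := Cfsg.Agent.S0910.result 19 M hM hna χ (by rw [hB]; exact Or.inl hχX) 0 hdeg
    exact hχne' (Subtype.ext this)
  · intro χ hχ
    rw [Set.Finite.mem_toFinset] at hχ
    exact (hXp χ hχ.1).2.2
  · have := Cfsg.Agent.H81.irr_charDegree_dvd θ
    rwa [h] at this
  · have h1 := hYsum θ hθ 1 hreg1
    have hXeq : X = insert (triv G) (X \ {triv G}) := by
      rw [Set.insert_sdiff_singleton, Set.insert_eq_of_mem h0X]
    rw [hXeq, finsum_mem_insert _ (by simp) hTfin, finsum_mem_eq_finite_toFinset_sum _ hTfin,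
      hs0, triv_apply, hval1] at h1
    have h2 : ∀ χ : IrrCharacter G, (εX χ : ℂ) * (χ : G → ℂ) 1 =
        ((εX χ * (charDegree (χ : G → ℂ) : ℤ) : ℤ) : ℂ) := by
      intro χ; rw [hval1]; push_cast; ring
    simp only [h2] at h1
    rw [← Int.cast_sum] at h1
    exact_mod_cast h1

/-- If `ε y = S` with `ε = ±1` then `y = |S|`. -/
theorem natAbs_dvd_of_eq (y : ℕ) (ε : ℤ) (hε : ε = 1 ∨ ε = -1) (hy : y ∣ 459648) (S : ℤ)
    (hS : ε * (y : ℤ) = S) : S.natAbs ∣ 459648 := by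
  have : y = S.natAbs := by rcases hε with rfl | rfl <;> omega
  rw [← this]; exact hy

/-- **S1022-BDE23.** -/
theorem relIndex_ne_two_three {G : Type*} [Group G] [Finite G] [IsSimpleGroup G]
    (h : Nat.card G = 459648) (P : Sylow 19 G) (hP : Nat.card P = 19) (e : ℕ)
    (he : (Subgroup.centralizer ((P : Subgroup G) : Set G)).relIndex
      (Subgroup.normalizer ((P : Subgroup G) : Set G)) = e)
    (he23 : e = 2 ∨ e = 3) : False := by
  classical
  obtain ⟨T, s, y, ε, hT, hdeg, -, hy, hε, hsum⟩ := bde_setup h P hP e he (by tauto)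
  rcases he23 with rfl | rfl
  · have hT1 : T.card = 1 := by omega
    obtain ⟨χ, rfl⟩ := Finset.card_eq_one.mp hT1
    rw [Finset.sum_singleton] at hsum
    have hχ := hdeg χ (Finset.mem_singleton_self χ)
    rcases hχ with ⟨h1, h2⟩ | ⟨h1, h2⟩ | ⟨h1, h2⟩ | ⟨h1, h2⟩ <;> rw [h1, h2] at hsum <;>
      have h3 := natAbs_dvd_of_eq y ε hε hy _ hsum <;> norm_num at h3
  · have hT2 : T.card = 2 := by omega
    obtain ⟨χ, χ', hne, rfl⟩ := Finset.card_eq_two.mp hT2
    rw [Finset.sum_pair hne] at hsum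
    have hχ := hdeg χ (by simp)
    have hχ' := hdeg χ' (by simp)
    rcases hχ with ⟨h1, h2⟩ | ⟨h1, h2⟩ | ⟨h1, h2⟩ | ⟨h1, h2⟩ <;>
      rcases hχ' with ⟨h1', h2'⟩ | ⟨h1', h2'⟩ | ⟨h1', h2'⟩ | ⟨h1', h2'⟩ <;>
      rw [h1, h2, h1', h2'] at hsum <;>
      have h3 := natAbs_dvd_of_eq y ε hε hy _ hsum <;> norm_num at h3

/-- **S1022-BDE6.** -/
theorem exists_two_characters {G : Type*} [Group G] [Finite G] [IsSimpleGroup G]
    (h : Nat.card G = 459648) (P : Sylow 19 G) (hP : Nat.card P = 19)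
    (he : (Subgroup.centralizer ((P : Subgroup G) : Set G)).relIndex
      (Subgroup.normalizer ((P : Subgroup G) : Set G)) = 6) :
    ∃ (χ χ' : IrrCharacter G) (ε ε' : ℤ), χ ≠ χ' ∧
      (charDegree (χ : G → ℂ) = 18 ∨ charDegree (χ : G → ℂ) = 56 ∨ charDegree (χ : G → ℂ) = 96) ∧
      (charDegree (χ' : G → ℂ) = 18 ∨ charDegree (χ' : G → ℂ) = 56 ∨
        charDegree (χ' : G → ℂ) = 96) ∧
      (∀ x : G, x ∈ (P : Subgroup G) → x ≠ 1 → ∀ y : G,
        y ∈ Subgroup.centralizer ((P : Subgroup G) : Set G) → ¬ 19 ∣ orderOf y →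
        (χ : G → ℂ) (x * y) = (ε : ℂ)) ∧
      (∀ x : G, x ∈ (P : Subgroup G) → x ≠ 1 → ∀ y : G,
        y ∈ Subgroup.centralizer ((P : Subgroup G) : Set G) → ¬ 19 ∣ orderOf y →
        (χ' : G → ℂ) (x * y) = (ε' : ℂ)) := by
  classical
  obtain ⟨T, s, y, ε, hT, hdeg, hval, hy, hε, hsum⟩ := bde_setup h P hP 6 he (by tauto)
  have hT5 : T.card = 5 := by omega
  have hdeg' : ∀ χ ∈ T.filter (fun χ : IrrCharacter G => ¬ charDegree (χ : G → ℂ) = 189),
      charDegree (χ : G → ℂ) = 18 ∨ charDegree (χ : G → ℂ) = 56 ∨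
        charDegree (χ : G → ℂ) = 96 := by
    intro χ hχ
    rw [Finset.mem_filter] at hχ
    rcases hdeg χ hχ.1 with h1 | h1 | h1 | h1
    · exact Or.inl h1.1
    · exact Or.inr (Or.inl h1.1)
    · exact absurd h1.1 hχ.2
    · exact Or.inr (Or.inr h1.1)
  by_cases hc : 1 < (T.filter (fun χ : IrrCharacter G => ¬ charDegree (χ : G → ℂ) = 189)).card
  · obtain ⟨χ, hχ, χ', hχ', hne⟩ := Finset.one_lt_card.mp hc
    have hχT : χ ∈ T := (Finset.mem_filter.mp hχ).1
    have hχ'T : χ' ∈ T := (Finset.mem_filter.mp hχ').1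
    exact ⟨χ, χ', s χ, s χ', hne, hdeg' χ hχ, hdeg' χ' hχ', hval χ hχT, hval χ' hχ'T⟩
  · exfalso
    have hsplit := Finset.sum_filter_add_sum_filter_not T
      (fun χ : IrrCharacter G => charDegree (χ : G → ℂ) = 189) (fun χ : IrrCharacter G => s χ * (charDegree (χ : G → ℂ) : ℤ))
    have hcard := Finset.card_filter_add_card_filter_not (s := T)
      (fun χ : IrrCharacter G => charDegree (χ : G → ℂ) = 189)
    have h189 : ∑ χ ∈ T.filter (fun χ : IrrCharacter G => charDegree (χ : G → ℂ) = 189),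
        s χ * (charDegree (χ : G → ℂ) : ℤ) =
        ((T.filter (fun χ : IrrCharacter G => charDegree (χ : G → ℂ) = 189)).card : ℤ) * (-189 : ℤ) := by
      rw [← nsmul_eq_mul, ← Finset.sum_const]
      refine Finset.sum_congr rfl fun χ hχ => ?_
      rw [Finset.mem_filter] at hχ
      rcases hdeg χ hχ.1 with h1 | h1 | h1 | h1
      · rw [h1.1] at hχ; omega
      · rw [h1.1] at hχ; omega
      · rw [h1.1, h1.2]; norm_num
      · rw [h1.1] at hχ; omega
    rw [← hsplit, h189] at hsum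
    have hc' : (T.filter (fun χ : IrrCharacter G => ¬ charDegree (χ : G → ℂ) = 189)).card = 0 ∨
        (T.filter (fun χ : IrrCharacter G => ¬ charDegree (χ : G → ℂ) = 189)).card = 1 := by omega
    rcases hc' with hc0 | hc1
    · have h5 : (T.filter (fun χ : IrrCharacter G => charDegree (χ : G → ℂ) = 189)).card = 5 := by omega
      rw [Finset.card_eq_zero.mp hc0, Finset.sum_empty, h5] at hsum
      have h3 := natAbs_dvd_of_eq y ε hε hy _ hsum
      norm_num at h3
    · have h4 : (T.filter (fun χ : IrrCharacter G => charDegree (χ : G → ℂ) = 189)).card = 4 := by omega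
      obtain ⟨χ, hχ⟩ := Finset.card_eq_one.mp hc1
      have hχmem : χ ∈ T.filter (fun χ : IrrCharacter G => ¬ charDegree (χ : G → ℂ) = 189) := by
        rw [hχ]; exact Finset.mem_singleton_self χ
      rw [hχ, Finset.sum_singleton, h4] at hsum
      rw [Finset.mem_filter] at hχmem
      rcases hdeg χ hχmem.1 with h1 | h1 | h1 | h1
      · rw [h1.1, h1.2] at hsum
        have h3 := natAbs_dvd_of_eq y ε hε hy _ hsum
        norm_num at h3
      · rw [h1.1, h1.2] at hsum
        have h3 := natAbs_dvd_of_eq y ε hε hy _ hsum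
        norm_num at h3
      · exact hχmem.2 h1.1
      · rw [h1.1, h1.2] at hsum
        have h3 := natAbs_dvd_of_eq y ε hε hy _ hsum
        norm_num at h3

end Cfsg.Agent.H20.O459
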