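import Cfsg.Agent.H21.Ord720

/-!
# S4707-W7 (for helper74): the principal `p`-block for `e = 2` and a character of degree `p - 1`
-/

set_option autoImplicit false

namespace Cfsg.Agent.H20.PD

open Cfsg Cfsg.Agent.H21.E2Block

/-- A nonzero integer of absolute value less than `p` is not divisible by `p`. -/
theorem not_dvd_of_abs_lt (p : ℕ) (m : ℤ) (hm : m ≠ 0) (hlt : |m| < p) : ¬ (p : ℤ) ∣ m := by
  intro hdvd
  have h1 := Int.le_of_dvd (abs_pos.mpr hm) ((dvd_abs _ _).mpr hdvd)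
  omega

/-- **S4707-W7.** -/
theorem blk {G : Type*} [Group G] [Fintype G] {p : ℕ} [Fact p.Prime] (hp : 3 < p)
    (M : Ideal Cfsg.AlgInt) (hM : Cfsg.IsPModular p M) (P : Sylow p G) (hP : Nat.card P = p)
    (he : (Subgroup.centralizer ((P : Subgroup G) : Set G)).relIndex
      (Subgroup.normalizer ((P : Subgroup G) : Set G)) = 2)
    (χ : Cfsg.IrrCharacter G) (hχB : χ ∈ Cfsg.principalBlock M G)
    (hχ1 : (χ : G → ℂ) 1 = (p : ℂ) - 1) :
    (∀ x : G, x ∈ (P : Subgroup G) → x ≠ 1 → (χ : G → ℂ) x = -1) ∧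
      ∃ θ : Cfsg.IrrCharacter G, ∀ g : G, ¬ p ∣ orderOf g →
        (θ : G → ℂ) g = (χ : G → ℂ) g - 1 := by
  classical
  have hpp : p.Prime := Fact.out
  have : Finite (IrrCharacter G) := Cfsg.Agent.H4.finite_irr G
  obtain ⟨X, Y, hB, hdisj, hX, hY, εX, ε, hXp, hε, hYdeg, hYeq, hYsum⟩ :=
    Cfsg.Agent.S4441.result p M hM (by omega) P hP 2 he
  rw [Nat.card_coe_set_eq] at hX hY
  have h0B : triv G ∈ principalBlock M G := Cfsg.Agent.H81.mem_blockOf_self hM (triv G)
  have hval1 : ∀ ζ : IrrCharacter G, (ζ : G → ℂ) 1 = (charDegree (ζ : G → ℂ) : ℂ) :=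
    fun ζ => (Cfsg.Agent.H81.irr_charDegree ζ).1
  have hdeg0 : charDegree ((triv G : IrrCharacter G) : G → ℂ) = 1 := by
    have := hval1 (triv G)
    rw [triv_apply] at this
    exact_mod_cast this.symm
  have hdegχ : (charDegree (χ : G → ℂ) : ℤ) = (p : ℤ) - 1 := by
    have h1 := hval1 χ
    rw [hχ1] at h1
    have h2 : (((p : ℤ) - 1 : ℤ) : ℂ) = ((charDegree (χ : G → ℂ) : ℤ) : ℂ) := by
      push_cast
      exact h1
    exact_mod_cast h2.symm
  have hp3 : (3 : ℤ) < p := by exact_mod_cast hp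
  -- members of `Y` have degree `≡ ±2 (mod p)`
  have hnotY : ∀ ζ : IrrCharacter G, ((charDegree (ζ : G → ℂ) : ℤ) = 1 ∨
      (charDegree (ζ : G → ℂ) : ℤ) = (p : ℤ) - 1) → ζ ∉ Y := by
    intro ζ hζ hζY
    have h1 := (hYdeg ζ hζY).dvd
    rcases hζ with h | h
    · rw [h] at h1
      rcases hε with rfl | rfl
      · exact not_dvd_of_abs_lt p _ (by norm_num) (by norm_num; omega) h1
      · exact not_dvd_of_abs_lt p _ (by norm_num) (by norm_num; omega) h1
    · rw [h] at h1
      have h2 : (p : ℤ) ∣ ε * ((2 : ℕ) : ℤ) + 1 := by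
        have h3 := dvd_add h1 (dvd_refl (p : ℤ))
        have h4 : ε * ((2 : ℕ) : ℤ) - ((p : ℤ) - 1) + (p : ℤ) = ε * ((2 : ℕ) : ℤ) + 1 := by ring
        rwa [h4] at h3
      rcases hε with rfl | rfl
      · exact not_dvd_of_abs_lt p _ (by norm_num) (by norm_num; omega) h2
      · exact not_dvd_of_abs_lt p _ (by norm_num) (by norm_num; omega) h2
  have h0X : triv G ∈ X := by
    rw [hB] at h0B
    exact h0B.resolve_right (hnotY _ (Or.inl (by rw [hdeg0]; rfl)))
  have hχX : χ ∈ X := by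
    rw [hB] at hχB
    exact hχB.resolve_right (hnotY _ (Or.inr hdegχ))
  have hne : triv G ≠ χ := by
    intro h
    rw [← h, hdeg0] at hdegχ
    push_cast at hdegχ
    omega
  have hXeq : X = {triv G, χ} := by
    symm
    apply Set.eq_of_subset_of_ncard_le
    · intro ζ hζ
      rcases hζ with rfl | rfl
      · exact h0X
      · exact hχX
    · rw [hX, Set.ncard_pair hne]
    · exact Set.toFinite X
  have hs0 : εX (triv G) = 1 := by
    obtain ⟨h1, h2, -⟩ := hXp _ h0X
    rw [hdeg0] at h2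
    have h3 := h2.dvd
    rcases h1 with h1 | h1
    · exact h1
    · rw [h1] at h3
      exact absurd h3 (not_dvd_of_abs_lt p _ (by norm_num) (by norm_num; omega))
  have hsχ : εX χ = -1 := by
    obtain ⟨h1, h2, -⟩ := hXp _ hχX
    rw [hdegχ] at h2
    have h3 := h2.dvd
    rcases h1 with h1 | h1
    · rw [h1] at h3
      have h4 := dvd_add h3 (dvd_refl (p : ℤ))
      have h5 : (1 : ℤ) - ((p : ℤ) - 1) + (p : ℤ) = 2 := by ring
      rw [h5] at h4
      exact absurd h4 (not_dvd_of_abs_lt p _ (by norm_num) (by norm_num; omega))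
    · exact h1
  have hreg1 : ¬ p ∣ orderOf (1 : G) := by
    rw [orderOf_one]
    exact hpp.one_lt.ne' ∘ Nat.dvd_one.mp
  refine ⟨?_, ?_⟩
  · intro x hx hx1
    have h1 := (hXp χ hχX).2.2 x hx hx1 1 (one_mem _) hreg1
    rw [mul_one, hsχ] at h1
    rw [h1]
    push_cast
    rfl
  · have hYne : Y.Nonempty := by
      rw [← Set.ncard_pos (Set.toFinite Y), hY]
      exact Nat.div_pos (by omega) (by norm_num)
    obtain ⟨θ, hθ⟩ := hYne
    have hsum : ∀ g : G, ¬ p ∣ orderOf g → (ε : ℂ) * (θ : G → ℂ) g = 1 - (χ : G → ℂ) g := by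
      intro g hg
      rw [hYsum θ hθ g hg, hXeq, finsum_mem_pair hne, hs0, hsχ, triv_apply]
      push_cast
      ring
    have hεm : ε = -1 := by
      rcases hε with h | h
      · exfalso
        have h1 := hsum 1 hreg1
        rw [h, hval1, hχ1] at h1
        have h2 : ((charDegree (θ : G → ℂ) : ℤ) : ℂ) = ((2 - (p : ℤ) : ℤ) : ℂ) := by
          push_cast
          linear_combination h1
        have h3 : (charDegree (θ : G → ℂ) : ℤ) = 2 - (p : ℤ) := by exact_mod_cast h2
        have h4 := (Cfsg.Agent.H81.irr_charDegree θ).2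
        omega
      · exact h
    refine ⟨θ, fun g hg => ?_⟩
    have h1 := hsum g hg
    rw [hεm] at h1
    push_cast at h1
    linear_combination -h1

end Cfsg.Agent.H20.PD
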