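import Mathlib
import Cfsg.Agent.H45.S43Defs

namespace Cfsg.Agent.H20.S43

theorem arith : Cfsg.Agent.H45.S43.StArith := by
  intro q k n r hq hk h4 hqr
  have hq1 : 0 < q := by omega
  have h4' : k = 4 * n := by exact_mod_cast h4
  have hqr' : k = q * (q - 1) * r := by
    have : ((q * (q - 1) * r : ℕ) : ℂ) = (q : ℂ) * ((q : ℂ) - 1) * (r : ℂ) := by
      rw [Nat.cast_mul, Nat.cast_mul, Nat.cast_pred hq1]
    rw [← this] at hqr
    exact_mod_cast hqr
  obtain ⟨t, ht⟩ : ∃ t, q = 4 * t + 3 := ⟨q / 4, by omega⟩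
  have hq2 : q - 1 = 4 * t + 2 := by omega
  have hprod : q * (q - 1) = 4 * (4 * t * t + 5 * t + 1) + 2 := by
    rw [hq2, ht]; ring
  have hsq : q ^ 2 - q = q * (q - 1) := by
    rw [Nat.mul_sub, mul_one, sq]
  rw [hsq]
  rw [hprod] at hqr' ⊢
  generalize 4 * t * t + 5 * t + 1 = P at hqr' ⊢
  have hexp : (4 * P + 2) * r = 4 * (P * r) + 2 * r := by ring
  have hr2 : 2 ≤ r := by
    rcases Nat.eq_zero_or_pos r with h0 | hpos
    · subst h0; omega
    · omega
  have : (4 * P + 2) * 2 ≤ (4 * P + 2) * r := Nat.mul_le_mul_left _ hr2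
  omega

end Cfsg.Agent.H20.S43

example : Cfsg.Agent.H45.S43.StArith := Cfsg.Agent.H20.S43.arith
#print axioms Cfsg.Agent.H20.S43.arith
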