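import Mathlib

/-!
helper20: S2479-NORMA for helper98 — the determinant of multiplication by `r` on `F[X]/(p^e)`
is the `e`-th power of the determinant on `F[X]/(p)`.
-/

set_option autoImplicit false

open Polynomial DirectSum

namespace Cfsg.Agent.H20.SLk

/-- Determinants are multiplicative along a short exact sequence of finite-dimensional spaces. -/
theorem det_of_ses {F : Type*} [Field F] {A B C : Type*} [AddCommGroup A] [Module F A]
    [AddCommGroup B] [Module F B] [AddCommGroup C] [Module F C] [FiniteDimensional F B]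
    (i : A →ₗ[F] B) (π : B →ₗ[F] C) (hi : Function.Injective i) (hπ : Function.Surjective π)
    (hex : LinearMap.range i = LinearMap.ker π)
    (a : A →ₗ[F] A) (b : B →ₗ[F] B) (c : C →ₗ[F] C)
    (hia : ∀ x, b (i x) = i (a x)) (hπc : ∀ y, π (b y) = c (π y)) :
    LinearMap.det b = LinearMap.det a * LinearMap.det c := by
  have he : LinearMap.range i ≤ (LinearMap.range i).comap b := by
    rintro _ ⟨x, rfl⟩
    exact ⟨a x, (hia x).symm⟩
  rw [LinearMap.det_eq_det_mul_det (LinearMap.range i) b he]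
  congr 1
  · let e₁ : A ≃ₗ[F] LinearMap.range i := LinearEquiv.ofInjective i hi
    have h1 : b.restrict he
        = (e₁ : A →ₗ[F] LinearMap.range i).comp (a.comp (e₁.symm : LinearMap.range i →ₗ[F] A)) := by
      apply LinearMap.ext
      intro w
      obtain ⟨x, rfl⟩ := e₁.surjective w
      apply Subtype.ext
      simp only [LinearMap.coe_restrict_apply, LinearMap.coe_comp, LinearEquiv.coe_coe,
        Function.comp_apply, LinearEquiv.symm_apply_apply]
      show b (i x) = i (a x)
      exact hia x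
    rw [h1, LinearMap.det_conj]
  · let e₂ : (B ⧸ LinearMap.range i) ≃ₗ[F] C :=
      (Submodule.quotEquivOfEq (LinearMap.range i) (LinearMap.ker π) hex).trans
        (π.quotKerEquivOfSurjective hπ)
    have he₂ : ∀ z : B, e₂ (Submodule.Quotient.mk z) = π z := fun z => rfl
    have h2 : c = (e₂ : (B ⧸ LinearMap.range i) →ₗ[F] C).comp
        (((LinearMap.range i).mapQ (LinearMap.range i) b he).comp
          (e₂.symm : C →ₗ[F] (B ⧸ LinearMap.range i))) := by
      apply LinearMap.ext
      intro y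
      obtain ⟨q, rfl⟩ := e₂.surjective y
      obtain ⟨z, rfl⟩ := Submodule.Quotient.mk_surjective _ q
      simp only [LinearMap.coe_comp, LinearEquiv.coe_coe, Function.comp_apply,
        LinearEquiv.symm_apply_apply, Submodule.mapQ_apply]
      rw [he₂, he₂, hπc]
    rw [h2, LinearMap.det_conj]

theorem finite_quot {F : Type*} [Field F] (h : F[X]) (hh : h.Monic) :
    Module.Finite F (F[X] ⧸ F[X] ∙ h) := by
  by_cases h0 : 0 < h.natDegree
  · exact Module.finite_of_finrank_pos (by rw [finrank_quotient_span_eq_natDegree]; exact h0)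
  · have h1 : h = 1 := by
      have h2 : h.natDegree = 0 := by omega
      exact hh.natDegree_eq_zero.1 h2
    subst h1
    have h3 : Subsingleton (F[X] ⧸ F[X] ∙ (1 : F[X])) :=
      Submodule.Quotient.subsingleton_iff.2 Ideal.span_singleton_one
    exact Module.Finite.of_finite

/-- multiplicativity of the determinant of multiplication by `r`. -/
theorem det_lsmul_mul {F : Type*} [Field F] (f g : F[X]) (hf : f.Monic) (hg : g.Monic)
    (r : F[X]) :
    LinearMap.det ((LinearMap.lsmul F[X] (F[X] ⧸ F[X] ∙ (f * g)) r).restrictScalars F) =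
      LinearMap.det ((LinearMap.lsmul F[X] (F[X] ⧸ F[X] ∙ g) r).restrictScalars F) *
      LinearMap.det ((LinearMap.lsmul F[X] (F[X] ⧸ F[X] ∙ f) r).restrictScalars F) := by
  have : Module.Finite F (F[X] ⧸ F[X] ∙ (f * g)) := finite_quot _ (hf.mul hg)
  have h₁ : F[X] ∙ g ≤ (F[X] ∙ (f * g)).comap (LinearMap.lsmul F[X] F[X] f) := by
    intro h hh
    obtain ⟨k, rfl⟩ := Submodule.mem_span_singleton.1 hh
    rw [Submodule.mem_comap]
    apply Submodule.mem_span_singleton.2
    refine ⟨k, ?_⟩
    simp only [LinearMap.lsmul_apply, smul_eq_mul]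
    ring
  have h₂ : F[X] ∙ (f * g) ≤ (F[X] ∙ f).comap (LinearMap.id : F[X] →ₗ[F[X]] F[X]) := by
    intro h hh
    obtain ⟨k, rfl⟩ := Submodule.mem_span_singleton.1 hh
    rw [Submodule.mem_comap]
    apply Submodule.mem_span_singleton.2
    refine ⟨k * g, ?_⟩
    simp only [LinearMap.id_coe, id_eq, smul_eq_mul]
    ring
  let i' : (F[X] ⧸ F[X] ∙ g) →ₗ[F[X]] (F[X] ⧸ F[X] ∙ (f * g)) :=
    Submodule.mapQ (F[X] ∙ g) (F[X] ∙ (f * g)) (LinearMap.lsmul F[X] F[X] f) h₁
  let π' : (F[X] ⧸ F[X] ∙ (f * g)) →ₗ[F[X]] (F[X] ⧸ F[X] ∙ f) :=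
    Submodule.mapQ (F[X] ∙ (f * g)) (F[X] ∙ f) LinearMap.id h₂
  have hi'mk : ∀ h : F[X], i' (Submodule.Quotient.mk h) = Submodule.Quotient.mk (f * h) :=
    fun h => rfl
  have hπ'mk : ∀ h : F[X], π' (Submodule.Quotient.mk h) = Submodule.Quotient.mk h :=
    fun h => rfl
  refine det_of_ses (i'.restrictScalars F) (π'.restrictScalars F) ?_ ?_ ?_ _ _ _ ?_ ?_
  · -- injective
    rw [← LinearMap.ker_eq_bot, LinearMap.ker_eq_bot']
    intro x hx
    obtain ⟨h, rfl⟩ := Submodule.Quotient.mk_surjective _ x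
    have hx' : i' (Submodule.Quotient.mk h) = 0 := hx
    rw [hi'mk, Submodule.Quotient.mk_eq_zero] at hx'
    obtain ⟨k, hk⟩ := Submodule.mem_span_singleton.1 hx'
    rw [Submodule.Quotient.mk_eq_zero]
    apply Submodule.mem_span_singleton.2
    refine ⟨k, ?_⟩
    have h3 : f * (k * g) = f * h := by
      rw [← hk, smul_eq_mul]; ring
    rw [smul_eq_mul]
    exact mul_left_cancel₀ hf.ne_zero h3
  · -- surjective
    intro y
    obtain ⟨h, rfl⟩ := Submodule.Quotient.mk_surjective _ y
    exact ⟨Submodule.Quotient.mk h, rfl⟩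
  · -- exact
    apply le_antisymm
    · rintro _ ⟨x, rfl⟩
      obtain ⟨h, rfl⟩ := Submodule.Quotient.mk_surjective _ x
      rw [LinearMap.mem_ker]
      show π' (i' (Submodule.Quotient.mk h)) = 0
      rw [hi'mk, hπ'mk, Submodule.Quotient.mk_eq_zero]
      apply Submodule.mem_span_singleton.2
      exact ⟨h, by rw [smul_eq_mul, mul_comm]⟩
    · intro y hy
      obtain ⟨h, rfl⟩ := Submodule.Quotient.mk_surjective _ y
      rw [LinearMap.mem_ker] at hy
      have hy' : π' (Submodule.Quotient.mk h) = 0 := hy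
      rw [hπ'mk, Submodule.Quotient.mk_eq_zero] at hy'
      obtain ⟨k, hk⟩ := Submodule.mem_span_singleton.1 hy'
      refine ⟨Submodule.Quotient.mk k, ?_⟩
      show i' (Submodule.Quotient.mk k) = Submodule.Quotient.mk h
      rw [hi'mk, ← hk, smul_eq_mul, mul_comm f k]
  · intro x
    show r • i' x = i' (r • x)
    rw [map_smul]
  · intro y
    show π' (r • y) = r • π' y
    rw [map_smul]

/-- S2479-NORMA. -/
theorem det_lsmul_pow {F : Type*} [Field F] (p : F[X]) (hp : p.Monic) (r : F[X]) (e : ℕ) :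
    LinearMap.det ((LinearMap.lsmul F[X] (F[X] ⧸ F[X] ∙ p ^ e) r).restrictScalars F) =
      LinearMap.det ((LinearMap.lsmul F[X] (F[X] ⧸ F[X] ∙ p) r).restrictScalars F) ^ e := by
  have hcongr : ∀ (h₁ h₂ : F[X]), h₁ = h₂ →
      LinearMap.det ((LinearMap.lsmul F[X] (F[X] ⧸ F[X] ∙ h₁) r).restrictScalars F) =
        LinearMap.det ((LinearMap.lsmul F[X] (F[X] ⧸ F[X] ∙ h₂) r).restrictScalars F) := by
    rintro h₁ h₂ rfl
    rfl
  induction e with
  | zero =>
    rw [hcongr _ _ (pow_zero p), pow_zero]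
    have h3 : Subsingleton (F[X] ⧸ F[X] ∙ (1 : F[X])) :=
      Submodule.Quotient.subsingleton_iff.2 Ideal.span_singleton_one
    exact LinearMap.det_eq_one_of_subsingleton _
  | succ e ih =>
    rw [hcongr _ _ (pow_succ p e), det_lsmul_mul _ _ (hp.pow e) hp r, ih, pow_succ, mul_comm]

end Cfsg.Agent.H20.SLk
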