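import Mathlib

namespace Cfsg.Agent.H20.SN

/-- conjugation action of a subgroup `Q` on a subgroup `N` it normalizes -/
@[instance_reducible]
def conjActOn {G : Type*} [Group G] (Q N : Subgroup G)
    (hN : ∀ g ∈ Q, ∀ n ∈ N, g * n * g⁻¹ ∈ N) : MulAction Q N where
  smul g n := ⟨g * n * g⁻¹, hN g g.2 n n.2⟩
  one_smul n := by
    apply Subtype.ext
    show (1 : G) * n * (1 : G)⁻¹ = n
    simp
  mul_smul g h n := by
    apply Subtype.ext
    show (g : G) * h * n * ((g : G) * h)⁻¹ = g * (h * n * (h : G)⁻¹) * (g : G)⁻¹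
    simp [mul_assoc]

theorem eq_bot_of_normalizes_sylows {G : Type*} [Group G] [Finite G]
    (hZ : Subgroup.center G = ⊥) (K : Subgroup G) [K.Normal]
    (h : ∀ (r : ℕ) [Fact r.Prime] (R : Sylow r G),
      K ≤ Subgroup.normalizer ((R : Subgroup G) : Set G)) : K = ⊥ := by
  by_contra hK
  obtain ⟨k, hkK, hk1⟩ := (Subgroup.ne_bot_iff_exists_ne_one (H := K)).mp hK |>.choose_spec |> fun hh => (⟨_, (Subgroup.ne_bot_iff_exists_ne_one (H := K)).mp hK |>.choose.2, fun h1 => hh (Subtype.ext h1)⟩ : ∃ k : G, k ∈ K ∧ k ≠ 1)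
  have hord : orderOf k ≠ 1 := by rwa [Ne, orderOf_eq_one_iff]
  obtain ⟨q, hq, hqk⟩ := Nat.exists_prime_and_dvd hord
  have : Fact q.Prime := ⟨hq⟩
  have hxord : orderOf (k ^ (orderOf k / q)) = q :=
    orderOf_pow_orderOf_div (orderOf_pos k).ne' hqk
  have hxK : k ^ (orderOf k / q) ∈ K := K.pow_mem hkK _
  generalize k ^ (orderOf k / q) = x at hxord hxK
  have hpg : IsPGroup q (Subgroup.zpowers x) :=
    IsPGroup.of_card (n := 1) (by rw [Nat.card_zpowers, hxord, pow_one])
  obtain ⟨Q, hQ⟩ := hpg.exists_le_sylow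
  have hxQ : x ∈ (Q : Subgroup G) := hQ (Subgroup.mem_zpowers x)
  -- Claim A
  have claimA : ∀ Q' : Sylow q G, (Q' : Subgroup G) ⊓ K ≤ (Q : Subgroup G) := by
    intro Q'
    have hP : IsPGroup q ((Q' : Subgroup G) ⊓ K : Subgroup G) := Q'.2.to_le inf_le_left
    have h1 : ((Q' : Subgroup G) ⊓ K) ⊓ Subgroup.normalizer ((Q : Subgroup G) : Set G)
        = ((Q' : Subgroup G) ⊓ K) ⊓ (Q : Subgroup G) := hP.inf_normalizer_sylow Q
    have h2 : ((Q' : Subgroup G) ⊓ K) ⊓ Subgroup.normalizer ((Q : Subgroup G) : Set G)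
        = (Q' : Subgroup G) ⊓ K := inf_eq_left.mpr (inf_le_right.trans (h q Q))
    rw [h2] at h1
    exact (inf_eq_left.mp h1.symm)
  -- Claim B
  have claimB : ∀ g : G, ∀ n ∈ ((Q : Subgroup G) ⊓ K : Subgroup G),
      g * n * g⁻¹ ∈ ((Q : Subgroup G) ⊓ K : Subgroup G) := by
    intro g n hn
    have hnK : g * n * g⁻¹ ∈ K := Subgroup.Normal.conj_mem inferInstance n hn.2 g
    refine ⟨claimA (g • Q) ⟨?_, hnK⟩, hnK⟩
    exact Subgroup.smul_mem_pointwise_smul n (MulAut.conj g) (Q : Subgroup G) hn.1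
  -- the fixed point
  let _ : MulAction (Q : Subgroup G) ((Q : Subgroup G) ⊓ K : Subgroup G) :=
    conjActOn (Q : Subgroup G) ((Q : Subgroup G) ⊓ K) (fun g _ n hn => claimB g n hn)
  have hdvd : q ∣ Nat.card ((Q : Subgroup G) ⊓ K : Subgroup G) := by
    have h5 : orderOf (⟨x, hxQ, hxK⟩ : ((Q : Subgroup G) ⊓ K : Subgroup G)) = q := by
      rw [← Subgroup.orderOf_coe]; exact hxord
    have := orderOf_dvd_natCard (⟨x, hxQ, hxK⟩ : ((Q : Subgroup G) ⊓ K : Subgroup G))
    rwa [h5] at this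
  have h1fix : (1 : ((Q : Subgroup G) ⊓ K : Subgroup G)) ∈
      MulAction.fixedPoints (Q : Subgroup G) ((Q : Subgroup G) ⊓ K : Subgroup G) := by
    intro g
    apply Subtype.ext
    show (g : G) * (1 : G) * (g : G)⁻¹ = 1
    simp
  obtain ⟨b, hbfix, hb1⟩ := Q.2.exists_fixed_point_of_prime_dvd_card_of_fixed_point
    ((Q : Subgroup G) ⊓ K : Subgroup G) hdvd h1fix
  have hzQ : (b : G) ∈ (Q : Subgroup G) := b.2.1
  have hzK : (b : G) ∈ K := b.2.2
  have hz1 : (b : G) ≠ 1 := fun hh => hb1 (Subtype.ext hh.symm)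
  have hzfix : ∀ g ∈ (Q : Subgroup G), g * (b : G) * g⁻¹ = (b : G) := by
    intro g hg
    have := hbfix ⟨g, hg⟩
    exact congrArg Subtype.val this
  generalize (b : G) = z at hzQ hzK hz1 hzfix
  -- centralizer contains a Sylow for each prime
  have hcent : ∀ (r : ℕ) [Fact r.Prime], ∃ R : Sylow r G,
      (R : Subgroup G) ≤ Subgroup.centralizer {z} := by
    intro r _
    by_cases hrq : r = q
    · subst hrq
      refine ⟨Q, fun g hg => ?_⟩
      rw [Subgroup.mem_centralizer_iff]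
      intro y hy
      rw [Set.mem_singleton_iff] at hy
      subst hy
      have := hzfix g hg
      calc y * g = g * y * g⁻¹ * g := by rw [this]
        _ = g * y := by group
    · refine ⟨default, fun y hy => ?_⟩
      rw [Subgroup.mem_centralizer_iff]
      intro w hw
      rw [Set.mem_singleton_iff] at hw
      subst hw
      have hc1 : w * (y * w⁻¹ * y⁻¹) ∈ (Q : Subgroup G) := by
        apply Subgroup.mul_mem _ hzQ
        exact (claimB y w⁻¹ ⟨Subgroup.inv_mem _ hzQ, Subgroup.inv_mem _ hzK⟩).1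
      have hc2 : w * (y * w⁻¹ * y⁻¹) ∈ ((default : Sylow r G) : Subgroup G) := by
        have hn := h r (default : Sylow r G) hzK
        rw [Subgroup.mem_normalizer_iff] at hn
        have h3 := (hn y).mp hy
        have h4 : w * (y * w⁻¹ * y⁻¹) = (w * y * w⁻¹) * y⁻¹ := by group
        rw [h4]
        exact Subgroup.mul_mem _ h3 (Subgroup.inv_mem _ hy)
      have hdisj := IsPGroup.disjoint_of_ne q r (fun hh => hrq hh.symm)
        (Q : Subgroup G) ((default : Sylow r G) : Subgroup G) Q.2 (default : Sylow r G).2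
      have hc : w * (y * w⁻¹ * y⁻¹) = 1 := by
        have := Subgroup.disjoint_def.mp hdisj hc1 hc2
        exact this
      calc w * y = w * (y * w⁻¹ * y⁻¹) * (y * w) := by group
        _ = y * w := by rw [hc, one_mul]
  have hidx : (Subgroup.centralizer ({z} : Set G)).index = 1 := by
    rw [Nat.eq_one_iff_not_exists_prime_dvd]
    intro r hr hdv
    have : Fact r.Prime := ⟨hr⟩
    obtain ⟨R, hR⟩ := hcent r
    exact R.not_dvd_index (hdv.trans (Subgroup.index_dvd_of_le hR))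
  rw [Subgroup.index_eq_one] at hidx
  have hzc : z ∈ Subgroup.center G := by
    rw [Subgroup.mem_center_iff]
    intro g
    have hg : g ∈ Subgroup.centralizer ({z} : Set G) := by rw [hidx]; trivial
    rw [Subgroup.mem_centralizer_iff] at hg
    exact (hg z rfl).symm
  rw [hZ, Subgroup.mem_bot] at hzc
  exact hz1 hzc

end Cfsg.Agent.H20.SN

example {G : Type*} [Group G] [Finite G]
    (hZ : Subgroup.center G = ⊥) (K : Subgroup G) [K.Normal]
    (h : ∀ (r : ℕ) [Fact r.Prime] (R : Sylow r G),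
      K ≤ Subgroup.normalizer ((R : Subgroup G) : Set G)) : K = ⊥ :=
  Cfsg.Agent.H20.SN.eq_bot_of_normalizes_sylows hZ K h
#print axioms Cfsg.Agent.H20.SN.eq_bot_of_normalizes_sylows
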