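import Mathlib
import Cfsg.Agent.H4.TnDefs

set_option autoImplicit false

/-!
# TN-FPF (helper20, for helper4's S3805 project)

A noncyclic group `T` of order 9 and exponent 3 cannot act fixed-point-freely (every `t ∈ T#`
without fixed points) on a `3'`-group `Q`.

Proof without any Sylow reduction: for a fixed-point-free `τ` of order 3, `y · y^τ · y^{τ²} = 1`
for all `y ∈ Q` (`z ↦ z⁻¹ z^τ` is a bijection of `Q`).  Applying this to `τ` and `τ²` shows that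
the nine `T`-conjugates of any `x ∈ Q` commute pairwise; five "line" relations then give
`x³ = 1`, so `x = 1`.
-/

universe u

namespace Cfsg.Agent.H20.Tn

open Subgroup Cfsg.Agent.H4.Tn

/-- A fixed-point-free element `τ` of order 3 normalizing `Q`: `y · y^τ · y^{τ²} = 1` on `Q`. -/
theorem fpf_three {G : Type*} [Group G] [Finite G] (Q : Subgroup G) (τ : G)
    (hτN : τ ∈ normalizer (Q : Set G)) (hτ3 : τ ^ 3 = 1)
    (hfix : ∀ q ∈ Q, τ * q = q * τ → q = 1) (y : G) (hy : y ∈ Q) :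
    y * (τ * y * τ⁻¹) * (τ ^ 2 * y * (τ ^ 2)⁻¹) = 1 := by
  have hconj : ∀ z ∈ Q, τ * z * τ⁻¹ ∈ Q := fun z hz => (mem_normalizer_iff.mp hτN z).mp hz
  let φ : Q → Q :=
    fun z => ⟨(z : G)⁻¹ * (τ * z * τ⁻¹), Q.mul_mem (Q.inv_mem z.2) (hconj z z.2)⟩
  have hinj : Function.Injective φ := by
    intro z w h
    have h' : (z : G)⁻¹ * (τ * z * τ⁻¹) = (w : G)⁻¹ * (τ * w * τ⁻¹) := congrArg Subtype.val h
    have hc : τ * ((w : G) * (z : G)⁻¹) = ((w : G) * (z : G)⁻¹) * τ := by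
      calc τ * ((w : G) * (z : G)⁻¹)
          = (w : G) * ((w : G)⁻¹ * (τ * w * τ⁻¹)) * τ * (z : G)⁻¹ := by group
        _ = (w : G) * ((z : G)⁻¹ * (τ * z * τ⁻¹)) * τ * (z : G)⁻¹ := by rw [h']
        _ = ((w : G) * (z : G)⁻¹) * τ := by group
    have h1 := hfix _ (Q.mul_mem w.2 (Q.inv_mem z.2)) hc
    exact Subtype.ext (mul_inv_eq_one.mp h1).symm
  obtain ⟨z, hz⟩ := (Finite.injective_iff_surjective.mp hinj) ⟨y, hy⟩
  have hy' : y = (z : G)⁻¹ * (τ * z * τ⁻¹) := (congrArg Subtype.val hz).symm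
  rw [hy', pow_two]
  have hτ3' : τ * τ * τ = 1 := by rw [← hτ3, pow_three, mul_assoc]
  have e : (z : G)⁻¹ * (τ * z * τ⁻¹) * (τ * ((z : G)⁻¹ * (τ * z * τ⁻¹)) * τ⁻¹) *
      (τ * τ * ((z : G)⁻¹ * (τ * z * τ⁻¹)) * (τ * τ)⁻¹)
      = (z : G)⁻¹ * (τ * τ * τ) * z * (τ * τ * τ)⁻¹ := by
    group
  rw [e, hτ3']
  group

/-- The final computation in a commutative group. -/
theorem comm_calc {A : Type*} [CommGroup A] (E0 E3 E4 E5 E6 E7 E8 : A)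
    (h2 : E0 * E3 * E4 = 1) (h3 : E0 * E5 * E6 = 1) (h4 : E0 * E7 * E8 = 1)
    (h5 : E3 * E5 * E7 = 1) (h6 : E4 * E8 * E6 = 1) : E0 * E0 * E0 = 1 := by
  have h : E0 * E0 * E0 * ((E3 * E5 * E7) * (E4 * E8 * E6))
      = (E0 * E3 * E4) * (E0 * E5 * E6) * (E0 * E7 * E8) := by
    simp only [mul_comm, mul_left_comm]
  rw [h5, h6, h2, h3, h4] at h
  simpa using h

/-- **TN-FPF**. -/
theorem fpf : StFpf.{u} := by
  intro G _ _ Q T hTN hcop hcard h3 hcomm hfpf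
  rw [Subgroup.eq_bot_iff_forall]
  intro x hx
  -- two independent elements of `T`
  have hex : ∃ s ∈ T, s ≠ 1 := by
    by_contra hne
    have h1 : T = ⊥ := (Subgroup.eq_bot_iff_forall T).mpr
      (fun s hs => by by_contra h; exact hne ⟨s, hs, h⟩)
    rw [h1, Subgroup.card_bot] at hcard
    omega
  obtain ⟨s, hs, hs1⟩ := hex
  have hzs : ∃ t ∈ T, t ∉ zpowers s := by
    by_contra hne
    have hle : T ≤ zpowers s := fun t ht => by by_contra h; exact hne ⟨t, ht, h⟩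
    have h1 : Nat.card T ≤ Nat.card (zpowers s) := Subgroup.card_le_of_le hle
    have h2 : Nat.card (zpowers s) = orderOf s := Nat.card_zpowers s
    have h4 : orderOf s ∣ 3 := orderOf_dvd_of_pow_eq_one (h3 s hs)
    have h5 := Nat.le_of_dvd (by norm_num) h4
    omega
  obtain ⟨t, ht, hts⟩ := hzs
  have ht1 : t ≠ 1 := fun h => hts (h ▸ one_mem _)
  have hpow4 : ∀ τ ∈ T, (τ ^ 2) ^ 2 = τ := by
    intro τ hτ
    rw [← pow_mul]
    calc τ ^ (2 * 2) = τ ^ 3 * τ := by rw [← pow_succ]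
      _ = τ := by rw [h3 τ hτ, one_mul]
  have hts1 : t * s ≠ 1 := by
    intro h
    apply hts
    have h1 : t = s⁻¹ := eq_inv_of_mul_eq_one_left h
    rw [h1]; exact inv_mem (mem_zpowers s)
  have ht2s1 : t ^ 2 * s ≠ 1 := by
    intro h
    apply hts
    have h1 : t ^ 2 = s⁻¹ := eq_inv_of_mul_eq_one_left h
    rw [← hpow4 t ht, h1]; exact pow_mem (inv_mem (mem_zpowers s)) 2
  have hst : Commute t s := hcomm t ht s hs
  -- the conjugates of `x`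
  set c : G → G := fun σ => σ * x * σ⁻¹ with hc
  have hcQ : ∀ σ ∈ T, c σ ∈ Q := fun σ hσ => (mem_normalizer_iff.mp (hTN hσ) x).mp hx
  have hA : ∀ τ ∈ T, τ ≠ 1 → ∀ σ ∈ T, c σ * c (τ * σ) * c (τ ^ 2 * σ) = 1 := by
    intro τ hτ hτ1 σ hσ
    have h1 := fpf_three Q τ (hTN hτ) (h3 τ hτ) (fun q hq hqc => hfpf q hq τ hτ hτ1 hqc)
      (c σ) (hcQ σ hσ)
    have e1 : τ * c σ * τ⁻¹ = c (τ * σ) := by simp only [hc]; group
    have e2 : τ ^ 2 * c σ * (τ ^ 2)⁻¹ = c (τ ^ 2 * σ) := by simp only [hc]; group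
    rw [e1, e2] at h1
    exact h1
  have hCo : ∀ σ₁ ∈ T, ∀ σ₂ ∈ T, c σ₁ * c σ₂ = c σ₂ * c σ₁ := by
    intro σ₁ h1 σ₂ h2
    by_cases heq : σ₁ = σ₂
    · rw [heq]
    have hτ : σ₂ * σ₁⁻¹ ∈ T := T.mul_mem h2 (T.inv_mem h1)
    have hτ1 : σ₂ * σ₁⁻¹ ≠ 1 := fun h => heq (mul_inv_eq_one.mp h).symm
    have hτ2 : (σ₂ * σ₁⁻¹) ^ 2 ∈ T := T.pow_mem hτ 2
    have hτ21 : (σ₂ * σ₁⁻¹) ^ 2 ≠ 1 := by
      intro h
      apply hτ1
      have h4 := hpow4 _ hτ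
      rw [h, one_pow] at h4
      exact h4.symm
    have hσ : (σ₂ * σ₁⁻¹)⁻¹ * σ₁ ∈ T := T.mul_mem (T.inv_mem hτ) h1
    have r1 := hA _ hτ hτ1 _ hσ
    have r2 := hA _ hτ2 hτ21 _ hσ
    have e1 : σ₂ * σ₁⁻¹ * ((σ₂ * σ₁⁻¹)⁻¹ * σ₁) = σ₁ := by group
    have e2 : (σ₂ * σ₁⁻¹) ^ 2 * ((σ₂ * σ₁⁻¹)⁻¹ * σ₁) = σ₂ := by rw [pow_two]; group
    rw [e1, e2] at r1
    rw [hpow4 _ hτ, e1, e2] at r2
    have r1' : c σ₁ * c σ₂ = (c ((σ₂ * σ₁⁻¹)⁻¹ * σ₁))⁻¹ :=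
      eq_inv_of_mul_eq_one_right (by rw [← mul_assoc]; exact r1)
    have r2' : c σ₂ * c σ₁ = (c ((σ₂ * σ₁⁻¹)⁻¹ * σ₁))⁻¹ :=
      eq_inv_of_mul_eq_one_right (by rw [← mul_assoc]; exact r2)
    rw [r1', r2']
  -- the five line relations
  have hs2 : s ^ 2 ∈ T := T.pow_mem hs 2
  have hts' : t * s ∈ T := T.mul_mem ht hs
  have ht2s : t ^ 2 * s ∈ T := T.mul_mem (T.pow_mem ht 2) hs
  have ht2s2 : t ^ 2 * s ^ 2 ∈ T := T.mul_mem (T.pow_mem ht 2) hs2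
  have hts2 : t * s ^ 2 ∈ T := T.mul_mem ht hs2
  have R2 : c 1 * c s * c (s ^ 2) = 1 := by
    have h := hA s hs hs1 1 T.one_mem
    rwa [mul_one, mul_one] at h
  have R3 : c 1 * c (t * s) * c (t ^ 2 * s ^ 2) = 1 := by
    have h := hA (t * s) hts' hts1 1 T.one_mem
    rwa [mul_one, mul_one, hst.mul_pow] at h
  have R4 : c 1 * c (t ^ 2 * s) * c (t * s ^ 2) = 1 := by
    have h := hA (t ^ 2 * s) ht2s ht2s1 1 T.one_mem
    rwa [mul_one, mul_one, (hst.pow_left 2).mul_pow, hpow4 t ht] at h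
  have R5 : c s * c (t * s) * c (t ^ 2 * s) = 1 := hA t ht ht1 s hs
  have R6 : c (s ^ 2) * c (t * s ^ 2) * c (t ^ 2 * s ^ 2) = 1 := hA t ht ht1 (s ^ 2) hs2
  -- the commutative group generated by the conjugates
  let S : Set G := {y | ∃ σ ∈ T, y = c σ}
  have hS : ∀ y ∈ S, ∀ z ∈ S, y * z = z * y := by
    rintro _ ⟨σ₁, h1, rfl⟩ _ ⟨σ₂, h2, rfl⟩
    exact hCo σ₁ h1 σ₂ h2
  have hmem : ∀ σ ∈ T, c σ ∈ closure S := fun σ hσ => subset_closure ⟨σ, hσ, rfl⟩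
  set_option linter.deprecated false in
  have key := @comm_calc (closure S) (closureCommGroupOfComm hS)
    ⟨c 1, hmem 1 T.one_mem⟩ ⟨c s, hmem s hs⟩ ⟨c (s ^ 2), hmem _ hs2⟩ ⟨c (t * s), hmem _ hts'⟩
    ⟨c (t ^ 2 * s ^ 2), hmem _ ht2s2⟩ ⟨c (t ^ 2 * s), hmem _ ht2s⟩ ⟨c (t * s ^ 2), hmem _ hts2⟩
    (Subtype.ext R2) (Subtype.ext R3) (Subtype.ext R4) (Subtype.ext R5) (Subtype.ext R6)
  have key' : c 1 * c 1 * c 1 = 1 := congrArg Subtype.val key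
  have hx3 : x ^ 3 = 1 := by
    have h1 : c 1 = x := by simp only [hc]; group
    rw [h1] at key'
    rw [pow_three, ← mul_assoc]
    exact key'
  have hd1 : orderOf x ∣ 3 := orderOf_dvd_of_pow_eq_one hx3
  have hd2 : orderOf x ∣ Nat.card Q := Subgroup.orderOf_dvd_natCard Q hx
  have hcop' : Nat.Coprime (orderOf x) 3 := Nat.Coprime.coprime_dvd_left hd2 hcop
  exact orderOf_eq_one_iff.mp (Nat.Coprime.eq_one_of_dvd hcop' hd1)

end Cfsg.Agent.H20.Tn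

example : Cfsg.Agent.H4.Tn.StFpf.{u} := Cfsg.Agent.H20.Tn.fpf.{u}
#print axioms Cfsg.Agent.H20.Tn.fpf
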