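import Mathlib
import Cfsg.Agent.H4.TnDefs

set_option autoImplicit false

/-!
# TN-FRATT (helper20, for helper4's S3805 project): the Frattini argument

`K ⊴ G`, `T ≤ K`, `u ∈ K`: `G = N_G(T) K` and `N_G(T) = T·{1,u,v,uv}`, so every `g` is in `K`
or in `K v`.
-/

universe u

namespace Cfsg.Agent.H20.Tn

open Subgroup Cfsg.Agent.H4.Tn

/-- **TN-FRATT**. -/
theorem fratt : StFratt.{u} := by
  intro G _ _ T a b u v cfg K hK hTK hu g
  obtain ⟨S, hS⟩ := cfg.syl
  have : Fact (Nat.Prime 3) := ⟨by norm_num⟩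
  have hSK : (S : Subgroup G) ≤ K := hS ▸ hTK
  have hfr : normalizer ((S : Subgroup G) : Set G) ⊔ K = ⊤ := Sylow.normalizer_sup_eq_top' S hSK
  rw [hS] at hfr
  have hg : g ∈ ((normalizer (T : Set G) ⊔ K : Subgroup G) : Set G) := by
    rw [hfr]; exact Set.mem_univ g
  rw [Subgroup.mul_normal] at hg
  obtain ⟨n, hn, k, hk, rfl⟩ := Set.mem_mul.mp hg
  have hvinv : v⁻¹ = v := inv_eq_of_mul_eq_one_right cfg.v2
  have hkv : v * k * v ∈ K := by
    have h1 := hK.conj_mem k hk v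
    rwa [hvinv] at h1
  obtain ⟨t₁, ht₁, h | h | h | h⟩ := cfg.Nelts n hn
  · left
    rw [h]; exact K.mul_mem (hTK ht₁) hk
  · left
    rw [h]; exact K.mul_mem (K.mul_mem (hTK ht₁) hu) hk
  · right
    rw [h]
    have e : t₁ * v * k * v = t₁ * (v * k * v) := by group
    rw [e]; exact K.mul_mem (hTK ht₁) hkv
  · right
    rw [h]
    have e : t₁ * (u * v) * k * v = t₁ * u * (v * k * v) := by group
    rw [e]; exact K.mul_mem (K.mul_mem (hTK ht₁) hu) hkv

end Cfsg.Agent.H20.Tn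

example : Cfsg.Agent.H4.Tn.StFratt.{u} := Cfsg.Agent.H20.Tn.fratt.{u}
#print axioms Cfsg.Agent.H20.Tn.fratt
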