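import Mathlib
import Cfsg.Agent.H4.TnDefs

set_option autoImplicit false

/-!
# TN-TIT (helper20, for helper4's S3805 project): `T` is a TI-subgroup with normalizer `N`

If `g t g⁻¹ ∈ T` for some `t ∈ T#` then `g T g⁻¹ ≤ C_G(g t g⁻¹) ≤ N`, and the elements of
order dividing 3 of `N = T·{1,u,v,uv}` all lie in `T`.
-/

universe u

namespace Cfsg.Agent.H20.Tn

open Subgroup Cfsg.Agent.H4.Tn

/-- In a finite group, `g H g⁻¹ ⊆ H` already gives `g ∈ N(H)`. -/
theorem mem_normalizer_of_conj_mem {G : Type*} [Group G] [Finite G] {H : Subgroup G} {g : G}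
    (h : ∀ n ∈ H, g * n * g⁻¹ ∈ H) : g ∈ normalizer (H : Set G) := by
  rw [mem_normalizer_iff]
  intro n
  refine ⟨h n, fun hn => ?_⟩
  let φ : H → H := fun m => ⟨g * m * g⁻¹, h m m.2⟩
  have hinj : Function.Injective φ := by
    intro m m' hmm
    have h1 : g * (m : G) * g⁻¹ = g * (m' : G) * g⁻¹ := congrArg Subtype.val hmm
    exact Subtype.ext (by simpa using h1)
  obtain ⟨m, hm⟩ := (Finite.injective_iff_surjective.mp hinj) ⟨g * n * g⁻¹, hn⟩
  have h1 : g * (m : G) * g⁻¹ = g * n * g⁻¹ := congrArg Subtype.val hm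
  have h2 : (m : G) = n := by simpa using h1
  rw [← h2]; exact m.2

section cfg

variable {G : Type u} [Group G] {T : Subgroup G} {a b u v : G}

theorem cfg_pow_three (cfg : Cfg G T a b u v) : ∀ x ∈ T, x ^ 3 = 1 := by
  intro x hx
  obtain ⟨i, j, rfl⟩ := cfg.Telts x hx
  have hc : Commute (a ^ i) (b ^ j) := cfg.comm _ (T.pow_mem cfg.aT i) _ (T.pow_mem cfg.bT j)
  rw [hc.mul_pow, ← pow_mul, ← pow_mul, mul_comm i 3, mul_comm j 3, pow_mul, pow_mul, cfg.a3,
    cfg.b3, one_pow, one_pow, one_mul]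

theorem cfg_a_ne (cfg : Cfg G T a b u v) : a ≠ 1 := by
  intro h
  have h1 := (cfg.indep 1 0 (by simp [h])).1
  omega

theorem cfg_b_ne (cfg : Cfg G T a b u v) : b ≠ 1 := by
  intro h
  have h1 := (cfg.indep 0 1 (by simp [h])).2
  omega

theorem cfg_u_not_mem (cfg : Cfg G T a b u v) : u ∉ T := by
  intro hu
  have h1 : u * b = b * u := cfg.comm u hu b cfg.bT
  have h2 : b = b⁻¹ := by
    have h3 := cfg.ub
    rw [h1] at h3
    exact mul_right_cancel h3
  have h3 : b * b = 1 := mul_eq_one_iff_eq_inv.mpr h2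
  have h4 := cfg.b3
  rw [pow_three, h3, mul_one] at h4
  exact cfg_b_ne cfg h4

theorem cfg_v_not_mem (cfg : Cfg G T a b u v) : v ∉ T := by
  intro hv
  have h1 : v * a = a * v := cfg.comm v hv a cfg.aT
  have h2 : a = a⁻¹ := by
    have h3 := cfg.va
    rw [h1] at h3
    exact mul_right_cancel h3
  have h3 : a * a = 1 := mul_eq_one_iff_eq_inv.mpr h2
  have h4 := cfg.a3
  rw [pow_three, h3, mul_one] at h4
  exact cfg_a_ne cfg h4

theorem cfg_uv_not_mem (cfg : Cfg G T a b u v) : u * v ∉ T := by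
  intro huv
  have h1 : u * v * a = a * (u * v) := cfg.comm (u * v) huv a cfg.aT
  have hua : u * a⁻¹ = a⁻¹ * u := by
    have h5 : Commute u a := cfg.ua
    exact h5.inv_right.eq
  have h2 : u * v * a = a⁻¹ * (u * v) := by
    calc u * v * a = u * (v * a) := by group
      _ = u * (a⁻¹ * v) := by rw [cfg.va]
      _ = (u * a⁻¹) * v := by group
      _ = (a⁻¹ * u) * v := by rw [hua]
      _ = a⁻¹ * (u * v) := by group
  have h3 : a = a⁻¹ := by
    rw [h1] at h2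
    exact mul_right_cancel h2
  have h4 : a * a = 1 := mul_eq_one_iff_eq_inv.mpr h3
  have h5 := cfg.a3
  rw [pow_three, h4, mul_one] at h5
  exact cfg_a_ne cfg h5

theorem cfg_uv_sq (cfg : Cfg G T a b u v) : u * v * (u * v) = 1 := by
  calc u * v * (u * v) = u * (v * u) * v := by group
    _ = u * (u * v) * v := by rw [← cfg.uv]
    _ = (u * u) * (v * v) := by group
    _ = 1 := by rw [cfg.u2, cfg.v2, mul_one]

/-- `t κ` has no cube equal to `1` when `κ ∈ N(T) ∖ T` is an involution. -/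
theorem cube_ne_of_not_mem {κ : G} (hκ2 : κ * κ = 1) (hκN : κ ∈ normalizer (T : Set G))
    (hκT : κ ∉ T) {t₁ : G} (ht₁ : t₁ ∈ T) : (t₁ * κ) ^ 3 ≠ 1 := by
  intro h
  apply hκT
  have hc : κ * t₁ * κ⁻¹ ∈ T := (mem_normalizer_iff.mp hκN t₁).mp ht₁
  have hc2 : κ * (κ * t₁ * κ⁻¹) * κ⁻¹ ∈ T := (mem_normalizer_iff.mp hκN _).mp hc
  have e : (t₁ * κ) ^ 3 = t₁ * (κ * t₁ * κ⁻¹) * (κ * (κ * t₁ * κ⁻¹) * κ⁻¹) * κ ^ 3 := by
    rw [pow_three, pow_three]
    group
  rw [e] at h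
  have h2 : κ ^ 3 = (t₁ * (κ * t₁ * κ⁻¹) * (κ * (κ * t₁ * κ⁻¹) * κ⁻¹))⁻¹ :=
    eq_inv_of_mul_eq_one_right h
  have h3 : κ ^ 3 ∈ T := by
    rw [h2]; exact T.inv_mem (T.mul_mem (T.mul_mem ht₁ hc) hc2)
  rwa [pow_three, hκ2, mul_one] at h3

/-- An element of `N` whose cube is `1` lies in `T`. -/
theorem cfg_mem_of_cube (cfg : Cfg G T a b u v) {n : G} (hn : n ∈ normalizer (T : Set G))
    (h3 : n ^ 3 = 1) : n ∈ T := by
  obtain ⟨t₁, ht₁, h | h | h | h⟩ := cfg.Nelts n hn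
  · rw [h]; exact ht₁
  · rw [h] at h3
    exact absurd h3 (cube_ne_of_not_mem cfg.u2 cfg.uN (cfg_u_not_mem cfg) ht₁)
  · rw [h] at h3
    exact absurd h3 (cube_ne_of_not_mem cfg.v2 cfg.vN (cfg_v_not_mem cfg) ht₁)
  · rw [h] at h3
    exact absurd h3 (cube_ne_of_not_mem (cfg_uv_sq cfg)
      ((normalizer (T : Set G)).mul_mem cfg.uN cfg.vN) (cfg_uv_not_mem cfg) ht₁)

end cfg

/-- **TN-TIT**. -/
theorem tit : StTIT.{u} := by
  intro G _ _ T a b u v cfg t ht ht1 g hg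
  apply mem_normalizer_of_conj_mem
  intro x hx
  have ht1' : g * t * g⁻¹ ≠ 1 := by
    intro h
    apply ht1
    simpa using h
  have hcen : g * x * g⁻¹ ∈ centralizer ({g * t * g⁻¹} : Set G) := by
    rw [mem_centralizer_iff]
    intro y hy
    rw [Set.mem_singleton_iff] at hy
    subst hy
    have h1 := cfg.comm t ht x hx
    calc g * t * g⁻¹ * (g * x * g⁻¹) = g * (t * x) * g⁻¹ := by group
      _ = g * (x * t) * g⁻¹ := by rw [h1]
      _ = g * x * g⁻¹ * (g * t * g⁻¹) := by group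
  have hN := cfg.loc _ hg ht1' hcen
  apply cfg_mem_of_cube cfg hN
  rw [conj_pow, cfg_pow_three cfg x hx]
  group

end Cfsg.Agent.H20.Tn

example : Cfsg.Agent.H4.Tn.StTIT.{u} := Cfsg.Agent.H20.Tn.tit.{u}
#print axioms Cfsg.Agent.H20.Tn.tit
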