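import Mathlib
import Cfsg.Agent.H64.TtDefs2

universe u

namespace Cfsg.Agent.H20.Tt

open Cfsg.Agent.H64.Tt


/-- a group of order 6 with a non-central subgroup of order 2 is `S₃` -/
theorem s3_of_card_six {P : Type*} [Group P] [Finite P] (hP : Nat.card P = 6) (H : Subgroup P)
    (hH : Nat.card H = 2) (hnc : ∃ h ∈ H, ∃ p : P, p * h ≠ h * p) :
    Nonempty (P ≃* Equiv.Perm (Fin 3)) := by
  classical
  have hidx : H.index = 3 := by
    have h := H.card_mul_index
    rw [hH, hP] at h
    omega
  have hcard3 : Nat.card (P ⧸ H) = 3 := by rw [← Subgroup.index_eq_card]; exact hidx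
  have hker : (MulAction.toPermHom P (P ⧸ H)).ker = ⊥ := by
    rw [← Subgroup.normalCore_eq_ker, eq_bot_iff]
    intro z hz
    rw [Subgroup.mem_bot]
    by_contra hz1
    obtain ⟨y, -, hy⟩ := (Nat.card_eq_two_iff' (1 : H)).mp hH
    have hzH : z ∈ H := H.normalCore_le hz
    have h4 : (⟨z, hzH⟩ : H) = y := hy _ (by
      intro h'; exact hz1 (congrArg Subtype.val h'))
    have hconj : ∀ p : P, p * z * p⁻¹ = z := by
      intro p
      have h1 : p * z * p⁻¹ ∈ H.normalCore :=
        (inferInstance : H.normalCore.Normal).conj_mem z hz p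
      have h2 : p * z * p⁻¹ ∈ H := H.normalCore_le h1
      have h3 : (⟨p * z * p⁻¹, h2⟩ : H) = y := hy _ (by
        intro h'
        apply hz1
        have h5 : p * z * p⁻¹ = 1 := congrArg Subtype.val h'
        have h6 : z = p⁻¹ * (p * z * p⁻¹) * p := by group
        rw [h6, h5]; group)
      exact congrArg Subtype.val (h3.trans h4.symm)
    obtain ⟨h, hhH, p, hp⟩ := hnc
    apply hp
    by_cases hh1 : h = 1
    · rw [hh1]; simp
    · have h5 : (⟨h, hhH⟩ : H) = y := hy _ (by
        intro h'; exact hh1 (congrArg Subtype.val h'))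
      have hhz : h = z := congrArg Subtype.val (h5.trans h4.symm)
      rw [hhz]
      have h7 := hconj p
      calc p * z = p * z * p⁻¹ * p := by group
        _ = z * p := by rw [h7]
  have hinj : Function.Injective (MulAction.toPermHom P (P ⧸ H)) :=
    (MonoidHom.ker_eq_bot_iff _).mp hker
  have hbij : Function.Bijective (MulAction.toPermHom P (P ⧸ H)) := by
    apply hinj.bijective_of_nat_card_le
    rw [Nat.card_perm, hcard3, hP]
    decide
  exact ⟨(MulEquiv.ofBijective _ hbij).trans (Finite.equivFinOfCardEq hcard3).permCongrHom⟩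

theorem iso1 : Iso1Stmt.{u} := by
  intro G _ _ x g T hc
  have hx0 : x 0 ∈ X x 0 0 := mem_X x le_rfl le_rfl
  have hX00le : X x 0 0 ≤ X x 0 1 := X_mono x le_rfl (by norm_num)
  have hx0' : x 0 ∈ X x 0 1 := mem_X x le_rfl (by norm_num)
  have hx1' : x 1 ∈ X x 0 1 := mem_X x (by norm_num) le_rfl
  have hcard0 : Nat.card (X x 0 0) = 2 := by
    have h := T.card 1 le_rfl le_rfl
    simpa using h
  have hnc : x 1 * x 0 ≠ x 0 * x 1 := by
    intro hcomm
    have hS : ∀ a ∈ x '' Set.Icc (0:ℤ) 1, ∀ b ∈ x '' Set.Icc (0:ℤ) 1, a * b = b * a := by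
      rintro _ ⟨i, ⟨hi1, hi2⟩, rfl⟩ _ ⟨j, ⟨hj1, hj2⟩, rfl⟩
      have hi : i = 0 ∨ i = 1 := by omega
      have hj : j = 0 ∨ j = 1 := by omega
      rcases hi with rfl | rfl <;> rcases hj with rfl | rfl
      · rfl
      · exact hcomm.symm
      · exact hcomm
      · rfl
    have hcommP := Subgroup.isMulCommutative_closure hS
    have hsq : ∀ p ∈ X x 0 1, p * p = 1 := by
      intro p hp
      unfold X at hp
      induction hp using Subgroup.closure_induction with
      | mem y hy => obtain ⟨i, -, rfl⟩ := hy; exact T.inv i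
      | one => simp
      | mul a b ha hb iha ihb =>
        have hab : a * b = b * a := setLike_mul_comm ha hb
        calc a * b * (a * b) = a * (b * a) * b := by group
          _ = a * (a * b) * b := by rw [hab]
          _ = (a * a) * (b * b) := by group
          _ = 1 := by rw [iha, ihb, mul_one]
      | inv a ha iha =>
        have h8 : a⁻¹ = a := inv_eq_of_mul_eq_one_right iha
        rw [h8]; exact iha
    have hpg : IsPGroup 2 (X x 0 1) := by
      intro p
      refine ⟨1, Subtype.ext ?_⟩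
      simp only [pow_one, Subgroup.coe_one, pow_two]
      exact hsq p p.2
    have hf2 : Fact (Nat.Prime 2) := ⟨Nat.prime_two⟩
    obtain ⟨n, hn⟩ := IsPGroup.iff_card.mp hpg
    rw [hc] at hn
    have hn3 : n < 3 := by
      by_contra h
      have h9 : 2 ^ 3 ≤ 2 ^ n := Nat.pow_le_pow_right (by norm_num) (by omega)
      omega
    interval_cases n <;> omega
  refine s3_of_card_six hc ((X x 0 0).subgroupOf (X x 0 1)) ?_ ?_
  · rw [Nat.card_congr (Subgroup.subgroupOfEquivOfLe hX00le).toEquiv]; exact hcard0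
  · refine ⟨⟨x 0, hx0'⟩, ?_, ⟨x 1, hx1'⟩, ?_⟩
    · exact Subgroup.mem_subgroupOf.mpr hx0
    · intro h
      exact hnc (congrArg Subtype.val h)

end Cfsg.Agent.H20.Tt

example : Cfsg.Agent.H64.Tt.Iso1Stmt.{u} := Cfsg.Agent.H20.Tt.iso1
#print axioms Cfsg.Agent.H20.Tt.iso1
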