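import Mathlib
import Cfsg.Agent.H64.TtDefs2

universe u

namespace Cfsg.Agent.H20.Tt

open Cfsg.Agent.H64.Tt


/-- a finite group generated by pairwise commuting involutions has 2-power order -/
theorem card_two_pow_of_comm_invol {G : Type*} [Group G] [Finite G] (S : Set G)
    (hinv : ∀ a ∈ S, a * a = 1) (hcomm : ∀ a ∈ S, ∀ b ∈ S, a * b = b * a) :
    ∃ n : ℕ, Nat.card (Subgroup.closure S) = 2 ^ n := by
  have hcommP := Subgroup.isMulCommutative_closure hcomm
  have hsq : ∀ p ∈ Subgroup.closure S, p * p = 1 := by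
    intro p hp
    induction hp using Subgroup.closure_induction with
    | mem y hy => exact hinv y hy
    | one => simp
    | mul a b ha hb iha ihb =>
      have hab : a * b = b * a := setLike_mul_comm ha hb
      calc a * b * (a * b) = a * (b * a) * b := by group
        _ = a * (a * b) * b := by rw [hab]
        _ = (a * a) * (b * b) := by group
        _ = 1 := by rw [iha, ihb, mul_one]
    | inv a ha iha =>
      have h8 : a⁻¹ = a := inv_eq_of_mul_eq_one_right iha
      rw [h8]; exact iha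
  have hpg : IsPGroup 2 (Subgroup.closure S) := by
    intro p
    refine ⟨1, Subtype.ext ?_⟩
    simp only [pow_one, Subgroup.coe_one, pow_two]
    exact hsq p p.2
  have hf2 : Fact (Nat.Prime 2) := ⟨Nat.prime_two⟩
  exact IsPGroup.iff_card.mp hpg

/-- an involution conjugating `y` into `⟨y⟩` normalizes `⟨y⟩` -/
theorem invol_mem_normalizer_zpowers {G : Type*} [Group G] {a y : G} (ha : a * a = 1)
    (hy : a * y * a⁻¹ ∈ Subgroup.zpowers y) :
    a ∈ Subgroup.normalizer ((Subgroup.zpowers y : Subgroup G) : Set G) := by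
  have key : ∀ h ∈ Subgroup.zpowers y, a * h * a⁻¹ ∈ Subgroup.zpowers y := by
    intro h hh
    obtain ⟨k, rfl⟩ := Subgroup.mem_zpowers_iff.mp hh
    rw [← conj_zpow]
    exact Subgroup.zpow_mem _ hy k
  rw [Subgroup.mem_normalizer_iff]
  intro h
  refine ⟨key h, fun hh => ?_⟩
  have h1 := key _ hh
  have ainv : a⁻¹ = a := inv_eq_of_mul_eq_one_right ha
  have e : a * (a * h * a⁻¹) * a⁻¹ = h := by
    rw [ainv]
    calc a * (a * h * a) * a = (a * a) * h * (a * a) := by group
      _ = h := by rw [ha]; group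
  rwa [e] at h1

theorem k2 (hc1 : C1Stmt.{u}) : K2Stmt.{u} := by
  intro G _ _ x g T hc
  have i0 := T.inv 0
  have i1 := T.inv 1
  have i2 := T.inv 2
  have inv0 : (x 0)⁻¹ = x 0 := inv_eq_of_mul_eq_one_right i0
  have inv1 : (x 1)⁻¹ = x 1 := inv_eq_of_mul_eq_one_right i1
  have inv2 : (x 2)⁻¹ = x 2 := inv_eq_of_mul_eq_one_right i2
  have m0 : x 0 ∈ X x 0 2 := mem_X x le_rfl (by norm_num)
  have m1 : x 1 ∈ X x 0 2 := mem_X x (by norm_num) (by norm_num)
  have m2 : x 2 ∈ X x 0 2 := mem_X x (by norm_num) le_rfl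
  have c01 : x 0 * x 1 = x 1 * x 0 := by
    have h := hc1 x g 2 T 0 1 (by norm_num) (by norm_num)
    have hE : X x ((0:ℤ) + 1) (1 - 1) = ⊥ := X_empty x (by norm_num)
    rw [hE, Subgroup.mem_bot] at h
    have e : x 0 * x 1 = (x 0 * x 1 * (x 0)⁻¹ * (x 1)⁻¹) * (x 1 * x 0) := by group
    rw [e, h, one_mul]
  have c12 : x 1 * x 2 = x 2 * x 1 := by
    have h := hc1 x g 2 T 1 2 (by norm_num) (by norm_num)
    have hE : X x ((1:ℤ) + 1) (2 - 1) = ⊥ := X_empty x (by norm_num)
    rw [hE, Subgroup.mem_bot] at h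
    have e : x 1 * x 2 = (x 1 * x 2 * (x 1)⁻¹ * (x 2)⁻¹) * (x 2 * x 1) := by group
    rw [e, h, one_mul]
  have hx0ne : x 0 ≠ 1 := by
    intro h
    have hcard := T.card 1 le_rfl (by norm_num)
    have hbot : X x 0 (((1:ℕ):ℤ) - 1) = ⊥ := by
      rw [eq_bot_iff, X_le_iff]
      intro i hi1 hi2
      have hi : i = 0 := by
        have : (((1:ℕ):ℤ) - 1) = 0 := by norm_num
        omega
      rw [hi, h]
      exact Subgroup.one_mem _
    rw [hbot, Subgroup.card_bot] at hcard
    norm_num at hcard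
  have hx1ne : x 1 ≠ 1 := by
    intro h
    apply hx0ne
    have hs := T.shift 0
    rw [zero_add, h] at hs
    have e : x 0 = g⁻¹ * (g * x 0 * g⁻¹) * g := by group
    rw [e, hs]; group
  have hnc : x 0 * x 2 ≠ x 2 * x 0 := by
    intro h02
    have hS : ∀ a ∈ x '' Set.Icc (0:ℤ) 2, ∀ b ∈ x '' Set.Icc (0:ℤ) 2, a * b = b * a := by
      rintro _ ⟨i, ⟨hi1, hi2⟩, rfl⟩ _ ⟨j, ⟨hj1, hj2⟩, rfl⟩
      have hi : i = 0 ∨ i = 1 ∨ i = 2 := by omega
      have hj : j = 0 ∨ j = 1 ∨ j = 2 := by omega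
      rcases hi with rfl | rfl | rfl <;> rcases hj with rfl | rfl | rfl
      · rfl
      · exact c01
      · exact h02
      · exact c01.symm
      · rfl
      · exact c12
      · exact h02.symm
      · exact c12.symm
      · rfl
    obtain ⟨n, hn⟩ := card_two_pow_of_comm_invol (x '' Set.Icc (0:ℤ) 2)
      (by rintro _ ⟨i, -, rfl⟩; exact T.inv i) hS
    have hc' : Nat.card (Subgroup.closure (x '' Set.Icc (0:ℤ) 2)) = 12 := hc
    rw [hc'] at hn
    have hn4 : n < 4 := by
      by_contra h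
      have h9 : 2 ^ 4 ≤ 2 ^ n := Nat.pow_le_pow_right (by norm_num) (by omega)
      omega
    interval_cases n <;> omega
  obtain ⟨y, hy⟩ : ∃ y, y = x 0 * x 2 := ⟨_, rfl⟩
  have hyP : y ∈ X x 0 2 := by rw [hy]; exact mul_mem m0 m2
  have hnd : orderOf y ∣ 12 := by
    have h := orderOf_dvd_natCard (⟨y, hyP⟩ : X x 0 2)
    rw [← Subgroup.orderOf_coe, hc] at h
    exact h
  have hy2 : y ^ 2 ≠ 1 := by
    intro h
    apply hnc
    have h' : x 0 * x 2 * (x 0 * x 2) = 1 := by rw [← pow_two, ← hy]; exact h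
    calc x 0 * x 2 = x 0 * x 2 * (x 0 * x 2) * (x 2)⁻¹ * (x 0)⁻¹ := by group
      _ = x 2 * x 0 := by rw [h', inv2, inv0, one_mul]
  have hord_cases : orderOf y = 3 ∨ orderOf y = 6 ∨ orderOf y = 4 ∨ orderOf y = 12 := by
    have h1 : orderOf y ≠ 1 := by
      intro h
      apply hy2
      rw [orderOf_eq_one_iff.mp h]; simp
    have h2 : orderOf y ≠ 2 := by
      intro h
      apply hy2
      rw [← h]; exact pow_orderOf_eq_one y
    have hmem : orderOf y ∈ Nat.divisors 12 := Nat.mem_divisors.mpr ⟨hnd, by norm_num⟩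
    have hdiv : Nat.divisors 12 = {1, 2, 3, 4, 6, 12} := by decide
    rw [hdiv] at hmem
    simp only [Finset.mem_insert, Finset.mem_singleton] at hmem
    rcases hmem with h | h | h | h | h | h
    · exact absurd h h1
    · exact absurd h h2
    · exact Or.inl h
    · exact Or.inr (Or.inr (Or.inl h))
    · exact Or.inr (Or.inl h)
    · exact Or.inr (Or.inr (Or.inr h))
  have hbad : ∀ i : ℕ, Odd i → orderOf y * i = 12 → False := by
    intro i hi hmul
    have hCP : Subgroup.zpowers y ≤ X x 0 2 := Subgroup.zpowers_le.mpr hyP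
    have hPN : X x 0 2 ≤ Subgroup.normalizer ((Subgroup.zpowers y : Subgroup G) : Set G) := by
      rw [X_le_iff]
      intro j hj1 hj2
      have hj : j = 0 ∨ j = 1 ∨ j = 2 := by omega
      rcases hj with rfl | rfl | rfl
      · apply invol_mem_normalizer_zpowers i0
        have e : x 0 * y * (x 0)⁻¹ = y⁻¹ := by
          rw [hy, mul_inv_rev, inv0, inv2]
          calc x 0 * (x 0 * x 2) * x 0 = (x 0 * x 0) * x 2 * x 0 := by group
            _ = x 2 * x 0 := by rw [i0, one_mul]
        rw [e]; exact Subgroup.inv_mem _ (Subgroup.mem_zpowers y)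
      · apply invol_mem_normalizer_zpowers i1
        have e : x 1 * y * (x 1)⁻¹ = y := by
          rw [hy]
          calc x 1 * (x 0 * x 2) * (x 1)⁻¹ = (x 1 * x 0) * x 2 * (x 1)⁻¹ := by group
            _ = (x 0 * x 1) * x 2 * (x 1)⁻¹ := by rw [c01]
            _ = x 0 * (x 1 * x 2) * (x 1)⁻¹ := by group
            _ = x 0 * (x 2 * x 1) * (x 1)⁻¹ := by rw [c12]
            _ = x 0 * x 2 := by group
        rw [e]; exact Subgroup.mem_zpowers y
      · apply invol_mem_normalizer_zpowers i2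
        have e : x 2 * y * (x 2)⁻¹ = y⁻¹ := by
          rw [hy, mul_inv_rev, inv0, inv2]
          calc x 2 * (x 0 * x 2) * x 2 = x 2 * x 0 * (x 2 * x 2) := by group
            _ = x 2 * x 0 := by rw [i2, mul_one]
        rw [e]; exact Subgroup.inv_mem _ (Subgroup.mem_zpowers y)
    have hnorm : ((Subgroup.zpowers y).subgroupOf (X x 0 2)).Normal :=
      (Subgroup.normal_subgroupOf_iff_le_normalizer hCP).mpr hPN
    have hcardC : Nat.card ((Subgroup.zpowers y).subgroupOf (X x 0 2)) = orderOf y := by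
      rw [Nat.card_congr (Subgroup.subgroupOfEquivOfLe hCP).toEquiv, Nat.card_zpowers]
    have hidx : ((Subgroup.zpowers y).subgroupOf (X x 0 2)).index = i := by
      have h := ((Subgroup.zpowers y).subgroupOf (X x 0 2)).card_mul_index
      rw [hcardC, hc] at h
      exact Nat.eq_of_mul_eq_mul_left (orderOf_pos y) (h.trans hmul.symm)
    have hpow : ∀ a : G, a * a = 1 → a ∈ X x 0 2 → a ∈ Subgroup.zpowers y := by
      intro a ha haP
      have h := ((Subgroup.zpowers y).subgroupOf (X x 0 2)).pow_index_mem ⟨a, haP⟩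
      rw [hidx, Subgroup.mem_subgroupOf] at h
      have h' : a ^ i ∈ Subgroup.zpowers y := by simpa using h
      obtain ⟨k, rfl⟩ := hi
      have e : a ^ (2 * k + 1) = a := by
        rw [pow_succ, pow_mul, pow_two, ha, one_pow, one_mul]
      rwa [e] at h'
    obtain ⟨a, ha⟩ := Subgroup.mem_zpowers_iff.mp (hpow (x 0) i0 m0)
    obtain ⟨b, hb⟩ := Subgroup.mem_zpowers_iff.mp (hpow (x 2) i2 m2)
    apply hnc
    rw [← ha, ← hb, ← zpow_add, ← zpow_add, add_comm]
  rcases hord_cases with h3 | h6 | h4 | h12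
  · refine ⟨x 0, m0, x 2 * x 1, mul_mem m2 m1, i0, ?_, ?_⟩
    · calc x 2 * x 1 * (x 2 * x 1) = x 2 * (x 1 * x 2) * x 1 := by group
        _ = x 2 * (x 2 * x 1) * x 1 := by rw [c12]
        _ = (x 2 * x 2) * (x 1 * x 1) := by group
        _ = 1 := by rw [i2, i1, one_mul]
    · have e : x 0 * (x 2 * x 1) = y * x 1 := by rw [hy, mul_assoc]
      have hcomm : Commute y (x 1) := by
        show y * x 1 = x 1 * y
        rw [hy]
        calc x 0 * x 2 * x 1 = x 0 * (x 2 * x 1) := by group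
          _ = x 0 * (x 1 * x 2) := by rw [c12]
          _ = (x 0 * x 1) * x 2 := by group
          _ = (x 1 * x 0) * x 2 := by rw [c01]
          _ = x 1 * (x 0 * x 2) := by group
      have ho1 : orderOf (x 1) = 2 := orderOf_eq_prime (by rw [pow_two]; exact i1) hx1ne
      rw [e, hcomm.orderOf_mul_eq_mul_orderOf_of_coprime (by rw [h3, ho1]; decide), h3, ho1]
  · exact ⟨x 0, m0, x 2, m2, i0, i2, by rw [← hy]; exact h6⟩
  · exact (hbad 3 (by decide) (by rw [h4])).elim
  · exact (hbad 1 (by decide) (by rw [h12])).elim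

end Cfsg.Agent.H20.Tt

example (hc1 : Cfsg.Agent.H64.Tt.C1Stmt.{u}) : Cfsg.Agent.H64.Tt.K2Stmt.{u} :=
  Cfsg.Agent.H20.Tt.k2 hc1
#print axioms Cfsg.Agent.H20.Tt.k2
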