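/-
helper20 library: integer polynomials at `p`-power roots of unity and the local ring.

* `exists_int_prod_aeval_coprime`: the product of the values of an integer polynomial at the
  `ζ ^ γ`, `γ` prime to `n`, is a rational integer.
* `card_mul_pow_le_sum_sq_norm`: if all `f(ζ^γ) / p^h` are local integers and `f(ζ) ≠ 0` then
  `∑_γ |f(ζ^γ)|² ≥ φ(n) p^{2h}`.
* `exists_aeval_eq_two_pow_mul`: total ramification of `2` in `ℤ[ζ]`, `ζ` a `2^k`-th root of
  unity: if `f(ζ) / 2^h` is a local integer then `f(ζ) = 2^h g(ζ)` with `g ∈ ℤ[X]`.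
* `two_pow_succ_le_of_trace`: a totally positive `f(ζ) ∈ 2^h J` has mean trace `≥ 2^{h+1}`.
-/
import Mathlib
import Cfsg.Prelude.Def_Blocks
import Cfsg.Agent.H79.Cyclo
import Cfsg.Agent.H84.Contrib5

set_option autoImplicit false
set_option linter.style.haveILetI false
set_option linter.unusedSectionVars false
set_option linter.unusedVariables false

namespace Cfsg.Agent.H20

open Cfsg Cfsg.Agent.H4 Cfsg.Agent.H84 Polynomial

section Cyclo

/-- Products over the exponents prime to `n` are products over the primitive roots. -/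
theorem prod_coprime_pow_eq_prod_primitiveRoots {n : ℕ} (hn : 0 < n) {ζ : ℂ}
    (hζ : IsPrimitiveRoot ζ n) (F : ℂ → ℂ) :
    ∏ i ∈ (Finset.range n).filter (fun i => i.Coprime n), F (ζ ^ i) =
      ∏ μ ∈ primitiveRoots n ℂ, F μ := by
  have : NeZero n := ⟨hn.ne'⟩
  refine Finset.prod_bij (fun i _ => ζ ^ i) ?_ ?_ ?_ ?_
  · intro i hi
    rw [Finset.mem_filter] at hi
    rw [mem_primitiveRoots hn]
    exact hζ.pow_of_coprime i hi.2
  · intro i hi j hj hij
    rw [Finset.mem_filter, Finset.mem_range] at hi hj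
    exact hζ.pow_inj hi.1 hj.1 hij
  · intro μ hμ
    rw [mem_primitiveRoots hn] at hμ
    obtain ⟨i, hin, hic, rfl⟩ := hζ.isPrimitiveRoot_iff.mp hμ
    exact ⟨i, by rw [Finset.mem_filter, Finset.mem_range]; exact ⟨hin, hic⟩, rfl⟩
  · intro i hi
    rfl

set_option backward.isDefEq.respectTransparency false in
/-- The product of the values of an integer polynomial at all primitive `n`-th roots of unity
is a rational integer. -/
theorem exists_int_prod_aeval_primitiveRoots (n : ℕ) (hn : 0 < n) (f : ℤ[X]) :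
    ∃ z : ℤ, (z : ℂ) = ∏ μ ∈ primitiveRoots n ℂ, aeval μ f := by
  have : NeZero n := ⟨hn.ne'⟩
  have hζ := IsCyclotomicExtension.zeta_spec n ℚ (CyclotomicField n ℚ)
  set ζ := IsCyclotomicExtension.zeta n ℚ (CyclotomicField n ℚ) with hζdef
  set x : CyclotomicField n ℚ := aeval ζ f with hxdef
  have hx : IsIntegral ℤ x := Cfsg.Agent.H79.isIntegral_aeval_int ζ (hζ.isIntegral hn) f
  have hN : IsIntegral ℤ (Algebra.norm ℚ x) := Algebra.isIntegral_norm ℚ hx
  obtain ⟨z, hz⟩ := IsIntegrallyClosed.isIntegral_iff.mp hN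
  have hprod := Algebra.norm_eq_prod_embeddings ℚ ℂ x
  have hre : ∏ σ : CyclotomicField n ℚ →ₐ[ℚ] ℂ, σ x = ∏ μ ∈ primitiveRoots n ℂ, aeval μ f := by
    rw [← Finset.prod_coe_sort (primitiveRoots n ℂ)]
    refine Fintype.prod_equiv
      (hζ.embeddingsEquivPrimitiveRoots ℂ (cyclotomic.irreducible_rat hn)) _ _ ?_
    intro σ
    rw [IsPrimitiveRoot.embeddingsEquivPrimitiveRoots_apply_coe, hxdef, aeval_def, aeval_def,
      ← AlgHom.coe_toRingHom, hom_eval₂]
    congr 1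
    exact RingHom.ext_int _ _
  rw [hre, ← hz] at hprod
  refine ⟨z, ?_⟩
  rw [← hprod]
  simp

/-- The product of the values of an integer polynomial at the `ζ ^ γ`, `γ` prime to `n`, is a
rational integer. -/
theorem exists_int_prod_aeval_coprime {n : ℕ} (hn : 0 < n) {ζ : ℂ} (hζ : IsPrimitiveRoot ζ n)
    (f : ℤ[X]) :
    ∃ z : ℤ, (z : ℂ) = ∏ γ ∈ (Finset.range n).filter (fun i => i.Coprime n), aeval (ζ ^ γ) f := by
  obtain ⟨z, hz⟩ := exists_int_prod_aeval_primitiveRoots n hn f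
  exact ⟨z, by rw [hz, prod_coprime_pow_eq_prod_primitiveRoots hn hζ (fun μ => aeval μ f)]⟩

/-- If an integer polynomial does not vanish at `ζ`, it does not vanish at `ζ ^ γ` for `γ`
prime to `n`. -/
theorem aeval_pow_ne_zero_of_coprime {n : ℕ} (hn : 0 < n) {ζ : ℂ} (hζ : IsPrimitiveRoot ζ n)
    (f : ℤ[X]) (hf : aeval ζ f ≠ 0) (γ : ℕ) (hγ : γ.Coprime n) : aeval (ζ ^ γ) f ≠ 0 := by
  have : NeZero n := ⟨hn.ne'⟩
  intro h0
  have hμ : IsPrimitiveRoot (ζ ^ γ) n := hζ.pow_of_coprime γ hγ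
  obtain ⟨j, -, hjc, hj⟩ := hμ.isPrimitiveRoot_iff.mp hζ
  apply hf
  rw [← hj]
  exact Cfsg.Agent.H79.aeval_pow_eq_zero_of_coprime hn hμ j hjc f h0

end Cyclo

section NormBound

variable {p : ℕ} {M : Ideal AlgInt}

/-- If `z = p^e w` with `z` a rational integer and `w` a local integer then `p^e ∣ z`. -/
theorem pow_dvd_int_of_memLocalRing (hM : IsPModular p M) (e : ℕ) (z : ℤ) (w : ℂ)
    (hw : MemLocalRing M w) (h : (z : ℂ) = (p : ℂ) ^ e * w) : (p : ℤ) ^ e ∣ z := by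
  obtain ⟨m, hm⟩ : ∃ m : ℕ, z = (m : ℤ) ∨ z = -(m : ℤ) := ⟨z.natAbs, Int.natAbs_eq z⟩
  rcases hm with hz | hz
  · have h1 : ((m : ℕ) : ℂ) = (p : ℂ) ^ e * w := by
      rw [← h, hz]
      push_cast
      rfl
    have h2 := pow_dvd_of_memLocalRing hM e m w hw h1
    rw [hz]
    exact_mod_cast h2
  · have h1 : ((m : ℕ) : ℂ) = (p : ℂ) ^ e * (-w) := by
      rw [mul_neg, ← h, hz]
      push_cast
      ring
    have h2 := pow_dvd_of_memLocalRing hM e m (-w) (memLocalRing_neg hw) h1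
    rw [hz]
    apply Dvd.dvd.neg_right
    exact_mod_cast h2

/-- **Burnside's inequality with `p`-divisibility**: if the values `f(ζ^γ)` (`γ` prime to `n`)
are all divisible by `p^h` in the local ring and `f(ζ) ≠ 0`, then the sum of their squared
absolute values is at least `φ(n) p^{2h}`. -/
theorem card_mul_pow_le_sum_sq_norm (hM : IsPModular p M) {n : ℕ} (hn : 0 < n) {ζ : ℂ}
    (hζ : IsPrimitiveRoot ζ n) (f : ℤ[X]) (h : ℕ) (hf : aeval ζ f ≠ 0)
    (hR : ∀ γ ∈ (Finset.range n).filter (fun i => i.Coprime n),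
      ∃ ρ : ℂ, MemLocalRing M ρ ∧ aeval (ζ ^ γ) f = (p : ℂ) ^ h * ρ) :
    (((Finset.range n).filter (fun i => i.Coprime n)).card : ℝ) * (p : ℝ) ^ (2 * h) ≤
      ∑ γ ∈ (Finset.range n).filter (fun i => i.Coprime n), ‖aeval (ζ ^ γ) f‖ ^ 2 := by
  classical
  have hp : p.Prime := hM.1
  have hMp := isPrime_of_isPModular hM
  have hp0 : (p : ℂ) ≠ 0 := by exact_mod_cast hp.ne_zero
  have hpR : (0 : ℝ) < (p : ℝ) := by exact_mod_cast hp.pos
  obtain ⟨I, hI⟩ : ∃ I : Finset ℕ, I = (Finset.range n).filter (fun i => i.Coprime n) := ⟨_, rfl⟩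
  rw [← hI] at hR ⊢
  obtain ⟨z, hz⟩ := exists_int_prod_aeval_coprime hn hζ f
  rw [← hI] at hz
  choose! ρ hρR hρ using hR
  have hne : ∀ γ ∈ I, aeval (ζ ^ γ) f ≠ 0 := by
    intro γ hγ
    rw [hI, Finset.mem_filter] at hγ
    exact aeval_pow_ne_zero_of_coprime hn hζ f hf γ hγ.2
  have hz0 : z ≠ 0 := by
    intro h0
    rw [h0, Int.cast_zero] at hz
    have := Finset.prod_eq_zero_iff.mp hz.symm
    obtain ⟨γ, hγ, h1⟩ := this
    exact hne γ hγ h1
  have hz2 : (z : ℂ) = (p : ℂ) ^ (h * I.card) * ∏ γ ∈ I, ρ γ := by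
    rw [hz, Finset.prod_congr rfl (fun γ hγ => hρ γ hγ), Finset.prod_mul_distrib,
      Finset.prod_const, ← pow_mul]
  have hdvd := pow_dvd_int_of_memLocalRing hM (h * I.card) z _
    (memLocalRing_prod hMp I ρ hρR) hz2
  have habs : ((p : ℝ) ^ (h * I.card)) ≤ |(z : ℝ)| := by
    have h1 : (p : ℤ) ^ (h * I.card) ≤ |z| := by
      have h2 : (p : ℤ) ^ (h * I.card) ∣ |z| := (dvd_abs _ _).mpr hdvd
      exact Int.le_of_dvd (abs_pos.mpr hz0) h2
    exact_mod_cast h1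
  have hprod : (1 : ℝ) ≤ ∏ γ ∈ I, (‖aeval (ζ ^ γ) f‖ / (p : ℝ) ^ h) := by
    rw [Finset.prod_div_distrib, Finset.prod_const, ← pow_mul, ← norm_prod, ← hz]
    rw [le_div_iff₀ (by positivity)]
    rw [one_mul]
    have h3 : ‖(z : ℂ)‖ = |(z : ℝ)| := by
      rw [← Complex.ofReal_intCast, Complex.norm_real, Real.norm_eq_abs]
    rw [h3]
    exact habs
  have hmain := Cfsg.Agent.H79.card_le_sum_sq_of_one_le_prod I
    (fun γ => ‖aeval (ζ ^ γ) f‖ / (p : ℝ) ^ h) (fun γ _ => by positivity) hprod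
  have h4 : ∑ γ ∈ I, (‖aeval (ζ ^ γ) f‖ / (p : ℝ) ^ h) ^ 2 =
      (∑ γ ∈ I, ‖aeval (ζ ^ γ) f‖ ^ 2) / (p : ℝ) ^ (2 * h) := by
    rw [Finset.sum_div]
    apply Finset.sum_congr rfl
    intro γ _
    rw [div_pow, ← pow_mul, mul_comm h 2]
  rw [h4, le_div_iff₀ (by positivity)] at hmain
  exact hmain

end NormBound

section Ramification

variable {M : Ideal AlgInt}

/-- Values of integer polynomials at roots of unity are local integers. -/
theorem aeval_memLocalRing (hMp : M.IsPrime) {n : ℕ} (hn : 0 < n) {ζ : ℂ}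
    (hζ : IsPrimitiveRoot ζ n) (q : ℤ[X]) : MemLocalRing M (aeval ζ q) :=
  memLocalRing_algInt hMp ⟨_, Cfsg.Agent.H79.isIntegral_aeval_int ζ (hζ.isIntegral hn) q⟩

/-- Taylor expansion to first order at `1`. -/
theorem aeval_eq_eval_one_add (ζ : ℂ) (q : ℤ[X]) :
    ∃ q' : ℤ[X], aeval ζ q = ((q.eval 1 : ℤ) : ℂ) + (ζ - 1) * aeval ζ q' := by
  obtain ⟨q', hq'⟩ := Polynomial.X_sub_C_dvd_sub_C_eval (a := (1 : ℤ)) (p := q)
  refine ⟨q', ?_⟩
  have h := congrArg (aeval ζ) hq'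
  rw [map_sub, map_mul, map_sub, aeval_X, aeval_C, aeval_C] at h
  simp only [eq_intCast, Int.cast_one] at h
  rw [← h]
  ring

theorem pow_half_eq_neg_one {k : ℕ} (hk : 0 < k) {ζ : ℂ} (hζ : IsPrimitiveRoot ζ (2 ^ k)) :
    ζ ^ 2 ^ (k - 1) = -1 := by
  have h1 : 2 ^ k = 2 ^ (k - 1) * 2 := by
    rw [← pow_succ, Nat.sub_add_cancel hk]
  have h2 : IsPrimitiveRoot (ζ ^ 2 ^ (k - 1)) 2 := hζ.pow (by positivity) h1
  exact h2.eq_neg_one_of_two_right

/-- An integer polynomial whose value at `ζ` lies in the local ideal is divisible by `ζ - 1`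
at `ζ`. -/
theorem exists_aeval_eq_sub_one_mul (hM : IsPModular 2 M) {k : ℕ} (hk : 0 < k) {ζ : ℂ}
    (hζ : IsPrimitiveRoot ζ (2 ^ k)) (q : ℤ[X]) (hq : MemLocalIdeal M (aeval ζ q)) :
    ∃ q' : ℤ[X], aeval ζ q = (ζ - 1) * aeval ζ q' := by
  have hMp := isPrime_of_isPModular hM
  have hN : 0 < 2 ^ k := by positivity
  obtain ⟨q₁, hq₁⟩ := aeval_eq_eval_one_add ζ q
  have hπ : MemLocalIdeal M (ζ - 1) :=
    memLocalIdeal_sub_one_of_pow_eq_one hM (k := k) hζ.pow_eq_one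
  have h1 : MemLocalIdeal M ((q.eval 1 : ℤ) : ℂ) := by
    have := memLocalIdeal_sub hMp hq
      (memLocalIdeal_mul_right hMp hπ (aeval_memLocalRing hMp hN hζ q₁))
    rw [hq₁, add_sub_cancel_right] at this
    exact this
  obtain ⟨c, hc⟩ := (memLocalIdeal_intCast_iff hM _).mp h1
  have hφ := pow_half_eq_neg_one hk hζ
  have h2 : (2 : ℂ) = (ζ - 1) *
      aeval ζ (-(∑ i ∈ Finset.range (2 ^ (k - 1)), (X : ℤ[X]) ^ i)) := by
    rw [map_neg, map_sum]
    simp only [map_pow, aeval_X]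
    have := geom_sum_mul ζ (2 ^ (k - 1))
    rw [hφ] at this
    linear_combination this
  refine ⟨-(∑ i ∈ Finset.range (2 ^ (k - 1)), (X : ℤ[X]) ^ i) * C c + q₁, ?_⟩
  rw [hq₁, hc, map_add, map_mul, aeval_C]
  simp only [eq_intCast]
  push_cast
  linear_combination (c : ℂ) * h2

/-- `(X - 1)^(2^m) ≡ X^(2^m) + 1` modulo `2`. -/
theorem exists_sub_one_pow_two_pow (m : ℕ) :
    ∃ w : ℤ[X], (X - 1 : ℤ[X]) ^ 2 ^ m = X ^ 2 ^ m + 1 + C 2 * w := by
  haveI : Fact (Nat.Prime 2) := ⟨Nat.prime_two⟩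
  have h : C (2 : ℤ) ∣ (X - 1 : ℤ[X]) ^ 2 ^ m - (X ^ 2 ^ m + 1) := by
    rw [Polynomial.C_dvd_iff_dvd_coeff]
    intro i
    have h1 : ((((X - 1 : ℤ[X]) ^ 2 ^ m - (X ^ 2 ^ m + 1)).coeff i : ℤ) : ZMod 2) = 0 := by
      have h2 : (((X - 1 : ℤ[X]) ^ 2 ^ m - (X ^ 2 ^ m + 1)).map (Int.castRingHom (ZMod 2))) = 0 := by
        simp only [Polynomial.map_sub, Polynomial.map_pow, Polynomial.map_add, Polynomial.map_X,
          Polynomial.map_one]
        rw [sub_pow_char_pow, one_pow]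
        have h3 : (2 : (ZMod 2)[X]) = 0 := by
          have : ((2 : ℕ) : (ZMod 2)[X]) = 0 := CharP.cast_eq_zero _ 2
          exact_mod_cast this
        linear_combination (-1 : (ZMod 2)[X]) * h3
      have h4 := congrArg (fun q => q.coeff i) h2
      simp only [Polynomial.coeff_map, Polynomial.coeff_zero] at h4
      exact h4
    exact (ZMod.intCast_zmod_eq_zero_iff_dvd _ 2).mp h1
  obtain ⟨w, hw⟩ := h
  exact ⟨w, by rw [← hw]; ring⟩

/-- Total ramification of `2`, first step: a value `g(ζ)` in `2 R` (`R` the local ring) is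
twice the value of an integer polynomial. -/
theorem exists_aeval_eq_two_mul (hM : IsPModular 2 M) (k : ℕ) {ζ : ℂ}
    (hζ : IsPrimitiveRoot ζ (2 ^ k)) (g : ℤ[X]) (r : ℂ) (hr : MemLocalRing M r)
    (hg : aeval ζ g = 2 * r) : ∃ g' : ℤ[X], aeval ζ g = 2 * aeval ζ g' := by
  have hMp := isPrime_of_isPModular hM
  have h2J : MemLocalIdeal M (2 : ℂ) := by simpa using memLocalIdeal_natCast_self hM
  rcases Nat.eq_zero_or_pos k with hk | hk
  · subst hk
    have hζ1 : ζ = 1 := by simpa using hζ.pow_eq_one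
    subst hζ1
    obtain ⟨q₁, hq₁⟩ := aeval_eq_eval_one_add 1 g
    rw [sub_self, zero_mul, add_zero] at hq₁
    have h1 : MemLocalIdeal M ((g.eval 1 : ℤ) : ℂ) := by
      rw [← hq₁, hg]
      exact memLocalIdeal_mul_right hMp h2J hr
    obtain ⟨c, hc⟩ := (memLocalIdeal_intCast_iff hM _).mp h1
    refine ⟨C c, ?_⟩
    rw [hq₁, hc, aeval_C]
    simp
  · have hN : 0 < 2 ^ k := by positivity
    obtain ⟨φ, hφdef⟩ : ∃ φ : ℕ, φ = 2 ^ (k - 1) := ⟨_, rfl⟩
    have hφpos : 0 < φ := by rw [hφdef]; positivity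
    obtain ⟨w, hw⟩ := exists_sub_one_pow_two_pow (k - 1)
    rw [← hφdef] at hw
    have hφ : ζ ^ φ = -1 := by rw [hφdef]; exact pow_half_eq_neg_one hk hζ
    have hπ : MemLocalIdeal M (ζ - 1) :=
      memLocalIdeal_sub_one_of_pow_eq_one hM (k := k) hζ.pow_eq_one
    have hπ0 : ζ - 1 ≠ 0 := by
      apply sub_ne_zero.mpr
      apply hζ.ne_one
      exact Nat.one_lt_two_pow hk.ne'
    have hd : (ζ - 1) ^ φ = 2 * aeval ζ w := by
      have := congrArg (aeval ζ) hw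
      simp only [map_pow, map_sub, map_add, map_mul, aeval_X, map_one, aeval_C] at this
      rw [this, hφ]
      simp
    have hw1 : w.eval 1 = -1 := by
      have := congrArg (Polynomial.eval 1) hw
      simp only [eval_pow, eval_sub, eval_X, eval_one, eval_add, eval_mul, eval_C] at this
      rw [sub_self, zero_pow hφpos.ne', one_pow] at this
      linarith
    have hwR : MemLocalRing M (aeval ζ w) := aeval_memLocalRing hMp hN hζ w
    have hwu : ¬ MemLocalIdeal M (aeval ζ w) := by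
      intro hcon
      obtain ⟨w₁, hw₁⟩ := aeval_eq_eval_one_add ζ w
      rw [hw1] at hw₁
      have h1 := memLocalIdeal_sub hMp hcon
        (memLocalIdeal_mul_right hMp hπ (aeval_memLocalRing hMp hN hζ w₁))
      rw [hw₁, add_sub_cancel_right] at h1
      have h2 := memLocalIdeal_neg h1
      push_cast at h2
      rw [neg_neg] at h2
      exact not_memLocalIdeal_one hMp h2
    have hw0 : aeval ζ w ≠ 0 := fun h0 => hwu (by rw [h0]; exact memLocalIdeal_zero hMp)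
    have key : ∀ m : ℕ, m ≤ φ → ∃ q : ℤ[X], aeval ζ g = (ζ - 1) ^ m * aeval ζ q := by
      intro m
      induction m with
      | zero => intro _; exact ⟨g, by rw [pow_zero, one_mul]⟩
      | succ m ih =>
        intro hm
        obtain ⟨q, hq⟩ := ih (by omega)
        have hqJ : MemLocalIdeal M (aeval ζ q) := by
          have h2 : aeval ζ q = (ζ - 1) ^ (φ - m) * ((aeval ζ w)⁻¹ * r) := by
            apply mul_left_cancel₀ (pow_ne_zero m hπ0)
            rw [← hq, hg, ← mul_assoc, ← pow_add, Nat.add_sub_cancel' (by omega : m ≤ φ), hd]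
            field_simp
          rw [h2]
          have h3 : φ - m = (φ - m - 1) + 1 := by omega
          rw [h3, pow_succ, mul_assoc]
          apply memLocalIdeal_mul_left hMp
            (memLocalRing_pow hMp (MemLocalIdeal.memLocalRing hπ) _)
          exact memLocalIdeal_mul_right hMp hπ
            (memLocalRing_mul hMp (memLocalRing_inv hwR hwu) hr)
        obtain ⟨q', hq'⟩ := exists_aeval_eq_sub_one_mul hM hk hζ q hqJ
        exact ⟨q', by rw [hq, hq', pow_succ]; ring⟩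
    obtain ⟨q, hq⟩ := key φ le_rfl
    exact ⟨w * q, by rw [hq, hd, map_mul]; ring⟩

/-- **Total ramification of `2`** in `ℤ[ζ]`, `ζ` a `2^k`-th root of unity: a value `f(ζ)` in
`2^h R` (`R` the local ring) is `2^h` times the value of an integer polynomial. -/
theorem exists_aeval_eq_two_pow_mul (hM : IsPModular 2 M) (k : ℕ) {ζ : ℂ}
    (hζ : IsPrimitiveRoot ζ (2 ^ k)) :
    ∀ (h : ℕ) (f : ℤ[X]) (r : ℂ), MemLocalRing M r → aeval ζ f = 2 ^ h * r →
      ∃ g : ℤ[X], aeval ζ f = 2 ^ h * aeval ζ g := by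
  have hMp := isPrime_of_isPModular hM
  have h2R : MemLocalRing M (2 : ℂ) := by simpa using memLocalRing_natCast hMp 2
  intro h
  induction h with
  | zero => intro f r _ _; exact ⟨f, by rw [pow_zero, one_mul]⟩
  | succ h ih =>
    intro f r hr hf
    obtain ⟨g, hg⟩ := ih f (2 * r) (memLocalRing_mul hMp h2R hr) (by rw [hf, pow_succ]; ring)
    have hg2 : aeval ζ g = 2 * r := by
      apply mul_left_cancel₀ (pow_ne_zero h (two_ne_zero (α := ℂ)))
      rw [← hg, hf, pow_succ]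
      ring
    obtain ⟨g', hg'⟩ := exists_aeval_eq_two_mul hM k hζ g r hr hg2
    exact ⟨g', by rw [hg, hg', pow_succ]; ring⟩

/-- The sum of the values of an integer polynomial at the odd powers of a `2^k`-th root of unity
is a multiple of their number. -/
theorem exists_int_sum_aeval_coprime_two_pow (k : ℕ) {ζ : ℂ} (hζ : IsPrimitiveRoot ζ (2 ^ k))
    (g : ℤ[X]) :
    ∃ t : ℤ, ∑ γ ∈ (Finset.range (2 ^ k)).filter (fun i => i.Coprime (2 ^ k)),
        aeval (ζ ^ γ) g =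
      (((Finset.range (2 ^ k)).filter (fun i => i.Coprime (2 ^ k))).card : ℂ) * (t : ℂ) := by
  refine ⟨∑ i ∈ Finset.range (g.natDegree + 1), g.coeff i * tsign (ζ ^ i), ?_⟩
  simp only [aeval_eq_sum_range]
  rw [Finset.sum_comm]
  push_cast
  rw [Finset.mul_sum]
  apply Finset.sum_congr rfl
  intro i _
  simp only [zsmul_eq_mul]
  rw [← Finset.mul_sum]
  have h1 : ∑ γ ∈ (Finset.range (2 ^ k)).filter (fun i => i.Coprime (2 ^ k)), (ζ ^ γ) ^ i =
      (((Finset.range (2 ^ k)).filter (fun i => i.Coprime (2 ^ k))).card : ℂ) *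
        (tsign (ζ ^ i) : ℂ) := by
    rw [← sum_coprime_two_pow k (ζ ^ i)
      (by rw [← pow_mul, mul_comm, pow_mul, hζ.pow_eq_one, one_pow])]
    apply Finset.sum_congr rfl
    intro γ _
    rw [← pow_mul, ← pow_mul, mul_comm]
  rw [h1]
  ring

/-- Positive reals with sum at most their number have product at most one. -/
theorem prod_le_one_of_sum_le_card {ι : Type*} (s : Finset ι) (b : ι → ℝ)
    (hb : ∀ i ∈ s, 0 < b i) (hsum : ∑ i ∈ s, b i ≤ s.card) : ∏ i ∈ s, b i ≤ 1 := by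
  have h1 : ∀ i ∈ s, b i ≤ Real.exp (b i - 1) := by
    intro i _
    have := Real.add_one_le_exp (b i - 1)
    linarith
  calc ∏ i ∈ s, b i ≤ ∏ i ∈ s, Real.exp (b i - 1) :=
        Finset.prod_le_prod (fun i hi => (hb i hi).le) h1
    _ = Real.exp (∑ i ∈ s, (b i - 1)) := (Real.exp_sum s _).symm
    _ ≤ Real.exp 0 := by
        apply Real.exp_le_exp.mpr
        rw [Finset.sum_sub_distrib, Finset.sum_const, nsmul_eq_mul, mul_one]
        linarith
    _ = 1 := Real.exp_zero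

/-- A totally positive value `f(ζ)` all of whose conjugates lie in `2^h J` (`J` the local ideal)
has mean trace at least `2^{h+1}`. -/
theorem two_pow_succ_le_of_trace (hM : IsPModular 2 M) (k : ℕ) {ζ : ℂ}
    (hζ : IsPrimitiveRoot ζ (2 ^ k)) (f : ℤ[X]) (h : ℕ) (a : ℕ → ℝ)
    (ha : ∀ γ ∈ (Finset.range (2 ^ k)).filter (fun i => i.Coprime (2 ^ k)),
      ((a γ : ℝ) : ℂ) = aeval (ζ ^ γ) f)
    (hpos : ∀ γ ∈ (Finset.range (2 ^ k)).filter (fun i => i.Coprime (2 ^ k)), 0 < a γ)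
    (hJ : ∀ γ ∈ (Finset.range (2 ^ k)).filter (fun i => i.Coprime (2 ^ k)),
      ∃ ρ : ℂ, MemLocalIdeal M ρ ∧ aeval (ζ ^ γ) f = 2 ^ h * ρ)
    (μ : ℤ)
    (hμ : ∑ γ ∈ (Finset.range (2 ^ k)).filter (fun i => i.Coprime (2 ^ k)), a γ =
      (((Finset.range (2 ^ k)).filter (fun i => i.Coprime (2 ^ k))).card : ℝ) * (μ : ℝ)) :
    (2 : ℤ) ^ (h + 1) ≤ μ := by
  classical
  have hMp := isPrime_of_isPModular hM
  have hN : 0 < 2 ^ k := by positivity
  obtain ⟨I, hI⟩ : ∃ I : Finset ℕ,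
      I = (Finset.range (2 ^ k)).filter (fun i => i.Coprime (2 ^ k)) := ⟨_, rfl⟩
  rw [← hI] at ha hpos hJ hμ
  have hIc : ∀ γ ∈ I, γ.Coprime (2 ^ k) := by
    intro γ hγ
    rw [hI, Finset.mem_filter] at hγ
    exact hγ.2
  obtain ⟨γ₁, hγ₁, hζγ₁⟩ : ∃ γ₁ ∈ I, ζ ^ γ₁ = ζ := by
    rcases Nat.eq_zero_or_pos k with hk | hk
    · subst hk
      have hζ1 : ζ = 1 := by simpa using hζ.pow_eq_one
      refine ⟨0, ?_, by rw [pow_zero, hζ1]⟩
      rw [hI, Finset.mem_filter, Finset.mem_range]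
      exact ⟨by norm_num, by simp⟩
    · refine ⟨1, ?_, pow_one ζ⟩
      rw [hI, Finset.mem_filter, Finset.mem_range]
      exact ⟨Nat.one_lt_two_pow hk.ne', Nat.coprime_one_left _⟩
  have hIpos : (0 : ℝ) < (I.card : ℝ) := by
    exact_mod_cast Finset.card_pos.mpr ⟨γ₁, hγ₁⟩
  have h2h : (2 : ℂ) ^ h ≠ 0 := pow_ne_zero _ two_ne_zero
  have h2hR : (0 : ℝ) < (2 : ℝ) ^ h := by positivity
  obtain ⟨ρ₁, hρ₁J, hρ₁⟩ := hJ γ₁ hγ₁
  rw [hζγ₁] at hρ₁
  obtain ⟨g, hg⟩ := exists_aeval_eq_two_pow_mul hM k hζ h f ρ₁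
    (MemLocalIdeal.memLocalRing hρ₁J) hρ₁
  have hconj : ∀ γ ∈ I, aeval (ζ ^ γ) f = 2 ^ h * aeval (ζ ^ γ) g := by
    intro γ hγ
    have h0 : aeval ζ (f - C ((2 : ℤ) ^ h) * g) = 0 := by
      rw [map_sub, map_mul, aeval_C, hg]
      simp
    have h1 := Cfsg.Agent.H79.aeval_pow_eq_zero_of_coprime hN hζ γ (hIc γ hγ) _ h0
    rw [map_sub, map_mul, aeval_C] at h1
    have h2 : (algebraMap ℤ ℂ) ((2 : ℤ) ^ h) = (2 : ℂ) ^ h := by simp
    rw [h2] at h1
    exact sub_eq_zero.mp h1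
  have hgJ : ∀ γ ∈ I, MemLocalIdeal M (aeval (ζ ^ γ) g) := by
    intro γ hγ
    obtain ⟨ρ, hρJ, hρ⟩ := hJ γ hγ
    have : aeval (ζ ^ γ) g = ρ := by
      apply mul_left_cancel₀ h2h
      rw [← hconj γ hγ, hρ]
    rw [this]
    exact hρJ
  have hga : ∀ γ ∈ I, aeval (ζ ^ γ) g = ((a γ / (2 : ℝ) ^ h : ℝ) : ℂ) := by
    intro γ hγ
    apply mul_left_cancel₀ h2h
    rw [← hconj γ hγ, ← ha γ hγ]
    push_cast
    field_simp
  obtain ⟨t, ht⟩ := exists_int_sum_aeval_coprime_two_pow k hζ g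
  rw [← hI] at ht
  have ht' : ∑ γ ∈ I, a γ / (2 : ℝ) ^ h = (I.card : ℝ) * (t : ℝ) := by
    apply Complex.ofReal_injective
    push_cast
    rw [← ht]
    apply Finset.sum_congr rfl
    intro γ hγ
    rw [hga γ hγ]
    push_cast
    rfl
  have hμt : (μ : ℝ) = (2 : ℝ) ^ h * (t : ℝ) := by
    have h1 : (I.card : ℝ) * (μ : ℝ) = (I.card : ℝ) * ((2 : ℝ) ^ h * (t : ℝ)) := by
      rw [← hμ]
      have h2 : ∑ γ ∈ I, a γ = (2 : ℝ) ^ h * ∑ γ ∈ I, a γ / (2 : ℝ) ^ h := by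
        rw [Finset.mul_sum]
        apply Finset.sum_congr rfl
        intro γ _
        field_simp
      rw [h2, ht']
      ring
    exact mul_left_cancel₀ hIpos.ne' h1
  obtain ⟨z, hz⟩ := exists_int_prod_aeval_coprime hN hζ g
  rw [← hI] at hz
  have hzJ : MemLocalIdeal M (z : ℂ) := by
    rw [hz, ← Finset.mul_prod_erase I _ hγ₁]
    exact memLocalIdeal_mul_right hMp (hgJ γ₁ hγ₁)
      (memLocalRing_prod hMp (I.erase γ₁) _
        (fun γ hγ => MemLocalIdeal.memLocalRing (hgJ γ (Finset.mem_of_mem_erase hγ))))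
  have hz2 : (2 : ℤ) ∣ z := by
    have := (memLocalIdeal_intCast_iff hM z).mp hzJ
    exact_mod_cast this
  have hzprod : (z : ℝ) = ∏ γ ∈ I, a γ / (2 : ℝ) ^ h := by
    apply Complex.ofReal_injective
    push_cast
    rw [hz]
    apply Finset.prod_congr rfl
    intro γ hγ
    rw [hga γ hγ]
    push_cast
    rfl
  have hbpos : ∀ γ ∈ I, 0 < a γ / (2 : ℝ) ^ h := fun γ hγ => div_pos (hpos γ hγ) h2hR
  have hzpos : 0 < z := by
    have : (0 : ℝ) < (z : ℝ) := by rw [hzprod]; exact Finset.prod_pos hbpos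
    exact_mod_cast this
  have hz2' : 2 ≤ z := Int.le_of_dvd hzpos hz2
  have ht2 : 2 ≤ t := by
    by_contra hcon
    have ht1 : t ≤ 1 := by omega
    have h1 : ∑ γ ∈ I, a γ / (2 : ℝ) ^ h ≤ (I.card : ℝ) := by
      rw [ht']
      have : (t : ℝ) ≤ 1 := by exact_mod_cast ht1
      nlinarith
    have h2 := prod_le_one_of_sum_le_card I _ hbpos h1
    rw [← hzprod] at h2
    have : z ≤ 1 := by exact_mod_cast h2
    omega
  have hfin : ((2 : ℤ) ^ (h + 1) : ℝ) ≤ (μ : ℝ) := by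
    rw [hμt]
    push_cast
    rw [pow_succ]
    have : (2 : ℝ) ≤ (t : ℝ) := by exact_mod_cast ht2
    nlinarith
  exact_mod_cast hfin

end Ramification

end Cfsg.Agent.H20
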