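/-
helper20 library: `2`-blocks with a major subsection `(x, b)`; bounds for `k(B)` with heights
when `l(b) ≤ 3` or `k(B) - l(b) ≤ 3` (Sambale).

* `two_bound_abstract`: the combinatorial core.
* `exists_mu_data`: integer polynomials for the normalized contribution numbers, their mean
  traces `μ χ` and the congruence `μ χ ≡ 2^d m_{χχ}` modulo the local ideal (after helper84).
* `two_major_data`: all the data for a major subsection.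
* `two_major_bound`: the bounds.
-/
import Mathlib
import Cfsg.Prelude.Def_Blocks
import Cfsg.Prelude.Def_BlockRank
import Cfsg.Agent.H20.FiveH
import Cfsg.Agent.H20.TwoAdic

set_option autoImplicit false
set_option linter.style.haveILetI false
set_option linter.unusedSectionVars false
set_option linter.unusedVariables false

namespace Cfsg.Agent.H20

open Cfsg Cfsg.Agent.H4 Cfsg.Agent.H84 Polynomial
open scoped ComplexConjugate

universe u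

section Abstract

/-- The combinatorial core of the bounds for `2`-blocks with a major subsection of small rank. -/
theorem two_bound_abstract {ι : Type*} (𝔅 : Finset ι) (ht : ι → ℕ) (I : Finset ℕ)
    (hI : 0 < I.card) (d r : ℕ) (hr : r ≤ 3)
    (c : ℕ → ι → ℝ) (s : ℕ → ι → ι → ℝ) (μ : ι → ℤ)
    (hs0 : ∀ γ ∈ I, ∀ χ ∈ 𝔅, ∀ ψ ∈ 𝔅, 0 ≤ s γ χ ψ)
    (R1 : ∀ γ ∈ I, ∀ χ ∈ 𝔅, ∑ ψ ∈ 𝔅, s γ χ ψ = (2 : ℝ) ^ d * c γ χ)
    (R2 : ∀ γ ∈ I, ∑ χ ∈ 𝔅, c γ χ ≤ (2 : ℝ) ^ d * r)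
    (R3 : ∀ χ ∈ 𝔅, ∑ γ ∈ I, c γ χ = (I.card : ℝ) * μ χ)
    (R4 : ∀ χ ∈ 𝔅, ht χ = 0 → Odd (μ χ))
    (R5 : ∀ χ ∈ 𝔅, ht χ ≠ 0 → (2 : ℤ) ^ (ht χ + 1) ≤ μ χ)
    (R6 : ∀ θ ∈ 𝔅, ht θ = 0 → ∀ χ ∈ 𝔅,
      (I.card : ℝ) * (4 : ℝ) ^ (ht χ) ≤ ∑ γ ∈ I, s γ θ χ) :
    3 * (𝔅.filter (fun χ => ht χ = 0)).card +
      2 * ∑ χ ∈ 𝔅.filter (fun χ => ht χ ≠ 0), 2 ^ (ht χ) ≤ 3 * 2 ^ d := by
  classical
  have hIpos : (0 : ℝ) < (I.card : ℝ) := by exact_mod_cast hI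
  have hrow : ∀ θ ∈ 𝔅, ∑ χ ∈ 𝔅, ∑ γ ∈ I, s γ θ χ = (2 : ℝ) ^ d * ((I.card : ℝ) * μ θ) := by
    intro θ hθ
    rw [Finset.sum_comm, Finset.sum_congr rfl (fun γ hγ => R1 γ hγ θ hθ), ← Finset.mul_sum,
      R3 θ hθ]
  have hμpos : ∀ θ ∈ 𝔅, ht θ = 0 → 0 < μ θ := by
    intro θ hθ h0
    have h1 := R6 θ hθ h0 θ hθ
    rw [h0, pow_zero, mul_one] at h1
    have h2 : ∑ γ ∈ I, s γ θ θ ≤ ∑ χ ∈ 𝔅, ∑ γ ∈ I, s γ θ χ :=
      Finset.single_le_sum (f := fun χ => ∑ γ ∈ I, s γ θ χ)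
        (fun χ hχ => Finset.sum_nonneg (fun γ hγ => hs0 γ hγ θ hθ χ hχ)) hθ
    rw [hrow θ hθ] at h2
    have h3 : (0 : ℝ) < (2 : ℝ) ^ d * ((I.card : ℝ) * μ θ) := lt_of_lt_of_le hIpos (h1.trans h2)
    have h4 : (0 : ℝ) < (μ θ : ℝ) := by
      by_contra hcon
      have hcon' : (μ θ : ℝ) ≤ 0 := not_lt.mp hcon
      have : (2 : ℝ) ^ d * ((I.card : ℝ) * μ θ) ≤ 0 :=
        mul_nonpos_of_nonneg_of_nonpos (by positivity)
          (mul_nonpos_of_nonneg_of_nonpos hIpos.le hcon')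
      linarith
    exact_mod_cast h4
  obtain ⟨w, hw⟩ : ∃ w : ι → ℕ, ∀ χ, w χ = if ht χ = 0 then 3 else 2 * 2 ^ (ht χ) :=
    ⟨_, fun _ => rfl⟩
  have hLHS : 3 * (𝔅.filter (fun χ => ht χ = 0)).card +
      2 * ∑ χ ∈ 𝔅.filter (fun χ => ht χ ≠ 0), 2 ^ (ht χ) = ∑ χ ∈ 𝔅, w χ := by
    simp only [hw]
    rw [Finset.sum_ite, Finset.sum_const, smul_eq_mul, Finset.mul_sum, mul_comm]
  rw [hLHS]
  have hw3 : ∀ χ, (w χ : ℝ) ≤ 3 * (4 : ℝ) ^ (ht χ) := by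
    intro χ
    rw [hw]
    split_ifs with h
    · rw [h]
      norm_num
    · push_cast
      have h1 : (2 : ℝ) ^ (ht χ) ≤ (4 : ℝ) ^ (ht χ) :=
        pow_le_pow_left₀ (by norm_num) (by norm_num) _
      have h2 : (0 : ℝ) < (2 : ℝ) ^ (ht χ) := by positivity
      linarith
  by_cases hA : ∃ θ ∈ 𝔅, ht θ = 0 ∧ μ θ = 1
  · obtain ⟨θ, hθ, h0, hμ1⟩ := hA
    have h1 : ∑ χ ∈ 𝔅, (I.card : ℝ) * (4 : ℝ) ^ (ht χ) ≤
        (2 : ℝ) ^ d * ((I.card : ℝ) * μ θ) := by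
      rw [← hrow θ hθ]
      exact Finset.sum_le_sum (fun χ hχ => R6 θ hθ h0 χ hχ)
    rw [hμ1, ← Finset.mul_sum] at h1
    have h2 : ∑ χ ∈ 𝔅, (4 : ℝ) ^ (ht χ) ≤ (2 : ℝ) ^ d := by
      have h3 : (I.card : ℝ) * ∑ χ ∈ 𝔅, (4 : ℝ) ^ (ht χ) ≤ (I.card : ℝ) * (2 : ℝ) ^ d := by
        calc (I.card : ℝ) * ∑ χ ∈ 𝔅, (4 : ℝ) ^ (ht χ)
            ≤ (2 : ℝ) ^ d * ((I.card : ℝ) * ((1 : ℤ) : ℝ)) := h1
          _ = (I.card : ℝ) * (2 : ℝ) ^ d := by push_cast; ring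
      exact le_of_mul_le_mul_left h3 hIpos
    have h4 : ((∑ χ ∈ 𝔅, w χ : ℕ) : ℝ) ≤ ((3 * 2 ^ d : ℕ) : ℝ) := by
      push_cast
      calc ∑ χ ∈ 𝔅, (w χ : ℝ) ≤ ∑ χ ∈ 𝔅, 3 * (4 : ℝ) ^ (ht χ) :=
            Finset.sum_le_sum (fun χ _ => hw3 χ)
        _ = 3 * ∑ χ ∈ 𝔅, (4 : ℝ) ^ (ht χ) := by rw [Finset.mul_sum]
        _ ≤ 3 * (2 : ℝ) ^ d := by linarith
    exact_mod_cast h4
  · have hA' : ∀ θ ∈ 𝔅, ht θ = 0 → μ θ ≠ 1 := fun θ hθ h0 h1 => hA ⟨θ, hθ, h0, h1⟩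
    have hwμ : ∀ χ ∈ 𝔅, (w χ : ℤ) ≤ μ χ := by
      intro χ hχ
      rw [hw]
      split_ifs with h
      · have h1 := hμpos χ hχ h
        have h2 := R4 χ hχ h
        have h3 := hA' χ hχ h
        obtain ⟨m, hm⟩ := h2
        push_cast
        omega
      · have := R5 χ hχ h
        push_cast
        rw [pow_succ] at this
        linarith
    have h1 : ((∑ χ ∈ 𝔅, μ χ : ℤ) : ℝ) ≤ 3 * (2 : ℝ) ^ d := by
      have h2 : (I.card : ℝ) * ((∑ χ ∈ 𝔅, μ χ : ℤ) : ℝ) ≤ (I.card : ℝ) * (3 * (2 : ℝ) ^ d) := by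
        push_cast
        rw [Finset.mul_sum, ← Finset.sum_congr rfl (fun χ hχ => R3 χ hχ), Finset.sum_comm]
        calc ∑ γ ∈ I, ∑ χ ∈ 𝔅, c γ χ ≤ ∑ γ ∈ I, (2 : ℝ) ^ d * r :=
              Finset.sum_le_sum (fun γ hγ => R2 γ hγ)
          _ = (I.card : ℝ) * ((2 : ℝ) ^ d * r) := by rw [Finset.sum_const, nsmul_eq_mul]
          _ ≤ (I.card : ℝ) * (3 * (2 : ℝ) ^ d) := by
              apply mul_le_mul_of_nonneg_left _ hIpos.le
              have h5 : (r : ℝ) ≤ 3 := by exact_mod_cast hr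
              have h6 : (0 : ℝ) < (2 : ℝ) ^ d := by positivity
              nlinarith
      exact le_of_mul_le_mul_left h2 hIpos
    have h3 : ((∑ χ ∈ 𝔅, w χ : ℕ) : ℤ) ≤ ∑ χ ∈ 𝔅, μ χ := by
      push_cast
      exact Finset.sum_le_sum hwμ
    have h4 : ((∑ χ ∈ 𝔅, w χ : ℕ) : ℝ) ≤ ((3 * 2 ^ d : ℕ) : ℝ) := by
      have h5 : (((∑ χ ∈ 𝔅, w χ : ℕ) : ℤ) : ℝ) ≤ ((∑ χ ∈ 𝔅, μ χ : ℤ) : ℝ) := by
        exact_mod_cast h3
      have h6 : (((∑ χ ∈ 𝔅, w χ : ℕ) : ℤ) : ℝ) = ((∑ χ ∈ 𝔅, w χ : ℕ) : ℝ) := by push_cast; rfl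
      rw [h6] at h5
      have h7 : ((3 * 2 ^ d : ℕ) : ℝ) = 3 * (2 : ℝ) ^ d := by push_cast; rfl
      rw [h7]
      exact h5.trans h1
    exact_mod_cast h4

end Abstract

section MuData

variable {G : Type u} [Group G] [Fintype G] {M : Ideal AlgInt}

/-- Integer polynomials for the normalized contribution numbers of the subsections `(x^γ, b)`,
their mean traces `μ χ` on the diagonal, and the congruence `μ χ ≡ 2^d m_{χχ}` modulo the local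
ideal (adapted from helper84's `exists_mu_two`). -/
theorem exists_mu_data [Fact (Nat.Prime 2)] (hM : IsPModular 2 M) (x : G) (k : ℕ)
    (hxN : x ^ 2 ^ k = 1) (C : Subgroup G) [Fintype C] (hxmem : x ∈ C)
    (hxC : ∀ c ∈ C, x * c = c * x) (ψ₀ : IrrCharacter C) (ζ : ℂ)
    (hζ : IsPrimitiveRoot ζ (2 ^ k)) :
    ∃ (f : IrrCharacter G → IrrCharacter G → Polynomial ℤ) (μ : IrrCharacter G → ℤ),
      (∀ (χ ψ : IrrCharacter G) (γ : ℕ), aeval (ζ ^ γ) (f χ ψ) =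
        ((2 : ℕ) : ℂ) ^ blockDefect 2 (blockOf M (ψ₀ : C → ℂ)) *
          contrib 2 C (blockOf M (ψ₀ : C → ℂ)) (x ^ γ) χ ψ) ∧
      (∀ χ : IrrCharacter G,
        ∑ γ ∈ (Finset.range (2 ^ k)).filter (fun i => i.Coprime (2 ^ k)),
            aeval (ζ ^ γ) (f χ χ) =
          (((Finset.range (2 ^ k)).filter (fun i => i.Coprime (2 ^ k))).card : ℂ) * (μ χ : ℂ)) ∧
      (∀ χ : IrrCharacter G, MemLocalIdeal M ((μ χ : ℂ) - aeval ζ (f χ χ))) := by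
  classical
  have hMp := isPrime_of_isPModular hM
  have hN : 0 < 2 ^ k := by positivity
  obtain ⟨n, e, Q, hQsym, he, hdata⟩ :=
    exists_contrib_data hM x (2 ^ k) hN hxN C hxmem hxC ψ₀ ζ hζ
  obtain ⟨d, hd⟩ : ∃ d : ℕ, d = blockDefect 2 (blockOf M (ψ₀ : C → ℂ)) := ⟨_, rfl⟩
  rw [← hd] at hdata ⊢
  obtain ⟨bf, hbf⟩ : ∃ bf : Finset (IrrCharacter C), bf = irrFinset (blockOf M (ψ₀ : C → ℂ)) :=
    ⟨_, rfl⟩
  rw [← hbf] at hdata
  obtain ⟨I, hI⟩ : ∃ I : Finset ℕ,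
      I = (Finset.range (2 ^ k)).filter (fun i => i.Coprime (2 ^ k)) := ⟨_, rfl⟩
  rw [← hI]
  obtain ⟨j, hj⟩ : ∃ j : IrrCharacter C → IrrCharacter C → ℕ,
      ∀ ξ ξ', j ξ ξ' = e ξ + (2 ^ k - e ξ') := ⟨_, fun _ _ => rfl⟩
  obtain ⟨μ, hμ⟩ : ∃ μ : IrrCharacter G → ℤ, ∀ χ, μ χ = ∑ ξ ∈ bf, ∑ ξ' ∈ bf,
      (n χ ξ : ℤ) * (n χ ξ' : ℤ) * Q ξ ξ' * tsign (ζ ^ j ξ ξ') := ⟨_, fun _ => rfl⟩
  have hK1 : ∀ χ : IrrCharacter G,
      ∑ γ ∈ I, ((2 : ℕ) : ℂ) ^ d * contrib 2 C (blockOf M (ψ₀ : C → ℂ)) (x ^ γ) χ χ =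
        (I.card : ℂ) * (μ χ : ℂ) := by
    intro χ
    simp only [hdata]
    rw [Finset.sum_comm, hμ]
    push_cast
    rw [Finset.mul_sum]
    apply Finset.sum_congr rfl
    intro ξ _
    rw [Finset.sum_comm, Finset.mul_sum]
    apply Finset.sum_congr rfl
    intro ξ' _
    rw [← Finset.mul_sum]
    have h1 : ∑ γ ∈ I, (ζ ^ γ) ^ (e ξ + (2 ^ k - e ξ')) =
        (I.card : ℂ) * (tsign (ζ ^ j ξ ξ') : ℂ) := by
      rw [hI, ← sum_coprime_two_pow k (ζ ^ j ξ ξ')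
        (by rw [← pow_mul, mul_comm, pow_mul, hζ.pow_eq_one, one_pow])]
      apply Finset.sum_congr rfl
      intro γ _
      rw [hj, ← pow_mul, ← pow_mul, mul_comm]
    rw [h1]
    ring
  obtain ⟨f, hf⟩ : ∃ f : IrrCharacter G → IrrCharacter G → Polynomial ℤ,
      ∀ (χ ψ : IrrCharacter G) (γ : ℕ), Polynomial.aeval (ζ ^ γ) (f χ ψ) =
        ((2 : ℕ) : ℂ) ^ d * contrib 2 C (blockOf M (ψ₀ : C → ℂ)) (x ^ γ) χ ψ := by
    refine ⟨fun χ ψ => ∑ ξ ∈ bf, ∑ ξ' ∈ bf,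
        Polynomial.C ((n χ ξ : ℤ) * (n ψ ξ' : ℤ) * Q ξ ξ') *
          Polynomial.X ^ (e ξ + (2 ^ k - e ξ')), ?_⟩
    intro χ ψ γ
    rw [hdata, map_sum]
    apply Finset.sum_congr rfl
    intro ξ _
    rw [map_sum]
    apply Finset.sum_congr rfl
    intro ξ' _
    rw [map_mul, Polynomial.aeval_C, map_pow, Polynomial.aeval_X, eq_intCast]
    push_cast
    rfl
  refine ⟨f, μ, hf, ?_, ?_⟩
  · intro χ
    rw [← hK1 χ]
    apply Finset.sum_congr rfl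
    intro γ _
    exact hf χ χ γ
  · intro χ
    obtain ⟨F, hF⟩ : ∃ F : ℤ, F = ∑ ξ ∈ bf, ∑ ξ' ∈ bf,
        (n χ ξ : ℤ) * (n χ ξ' : ℤ) * Q ξ ξ' := ⟨_, rfl⟩
    have hF1 : MemLocalIdeal M ((F : ℂ) -
        ((2 : ℕ) : ℂ) ^ d * contrib 2 C (blockOf M (ψ₀ : C → ℂ)) x χ χ) := by
      have h1 := hdata χ χ 1
      rw [pow_one, pow_one] at h1
      rw [h1, hF]
      push_cast
      rw [← Finset.sum_sub_distrib]
      apply memLocalIdeal_sum hMp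
      intro ξ _
      rw [← Finset.sum_sub_distrib]
      apply memLocalIdeal_sum hMp
      intro ξ' _
      have h2 : MemLocalIdeal M (ζ ^ (e ξ + (2 ^ k - e ξ')) - 1) := by
        apply memLocalIdeal_sub_one_of_pow_eq_one hM (k := k)
        rw [← pow_mul, mul_comm, pow_mul, hζ.pow_eq_one, one_pow]
      have h3 : MemLocalRing M ((n χ ξ : ℂ) * (n χ ξ' : ℂ) * (Q ξ ξ' : ℂ)) :=
        memLocalRing_mul hMp (memLocalRing_mul hMp (memLocalRing_natCast hMp _)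
          (memLocalRing_natCast hMp _)) (memLocalRing_intCast hMp _)
      have h4 := memLocalIdeal_mul_left hMp h3 (memLocalIdeal_neg h2)
      convert h4 using 1
      ring
    have hdiff : Even (μ χ - F) := by
      rw [even_iff_two_dvd]
      have h1 : (((μ χ - F : ℤ)) : ZMod 2) = 0 := by
        have h2 : μ χ - F = ∑ t ∈ bf ×ˢ bf,
            ((n χ t.1 : ℤ) * (n χ t.2 : ℤ) * Q t.1 t.2) * (tsign (ζ ^ j t.1 t.2) - 1) := by
          rw [hμ, hF, Finset.sum_product, ← Finset.sum_sub_distrib]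
          apply Finset.sum_congr rfl
          intro ξ _
          rw [← Finset.sum_sub_distrib]
          apply Finset.sum_congr rfl
          intro ξ' _
          ring
        rw [h2]
        push_cast
        have h3 : ∀ t : IrrCharacter C × IrrCharacter C,
            ((n χ t.1 : ZMod 2) * (n χ t.2 : ZMod 2) * (Q t.1 t.2 : ZMod 2)) *
              ((tsign (ζ ^ j t.1 t.2) : ZMod 2) - 1) =
            if tsign (ζ ^ j t.1 t.2) = 0 then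
              ((n χ t.1 : ZMod 2) * (n χ t.2 : ZMod 2) * (Q t.1 t.2 : ZMod 2)) else 0 := by
          intro t
          have h4 := tsign_sub_one_zmod (ζ ^ j t.1 t.2)
          push_cast at h4
          rw [h4]
          split_ifs
          · rw [mul_one]
          · rw [mul_zero]
        rw [Finset.sum_congr rfl (fun t _ => h3 t), ← Finset.sum_filter]
        apply Finset.sum_involution (fun t _ => Prod.swap t)
        · intro t ht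
          rw [Finset.mem_filter, Finset.mem_product] at ht
          have hm1 : t.1 ∈ blockOf M (ψ₀ : C → ℂ) := by
            rw [← mem_irrFinset, ← hbf]; exact ht.1.1
          have hm2 : t.2 ∈ blockOf M (ψ₀ : C → ℂ) := by
            rw [← mem_irrFinset, ← hbf]; exact ht.1.2
          rw [Prod.fst_swap, Prod.snd_swap, hQsym t.2 hm2 t.1 hm1,
            mul_comm (n χ t.2 : ZMod 2) (n χ t.1 : ZMod 2)]
          exact CharTwo.add_self_eq_zero _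
        · intro t ht _ hswap
          rw [Finset.mem_filter] at ht
          have h5 : t.1 = t.2 := by
            have := congrArg Prod.fst hswap
            simpa using this.symm
          have h6 : ζ ^ j t.1 t.2 = 1 := by
            rw [hj, h5, Nat.add_sub_cancel' (he t.2).le, hζ.pow_eq_one]
          rw [h6, tsign_one] at ht
          exact one_ne_zero ht.2
        · intro t ht
          rw [Finset.mem_filter, Finset.mem_product] at ht ⊢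
          refine ⟨⟨ht.1.2, ht.1.1⟩, ?_⟩
          rw [Prod.fst_swap, Prod.snd_swap]
          have h7 : ζ ^ j t.2 t.1 = (ζ ^ j t.1 t.2)⁻¹ := by
            apply eq_inv_of_mul_eq_one_left
            rw [← pow_add, hj, hj]
            have h8 : e t.2 + (2 ^ k - e t.1) + (e t.1 + (2 ^ k - e t.2)) = 2 ^ k * 2 := by
              have := he t.1
              have := he t.2
              omega
            rw [h8, pow_mul, hζ.pow_eq_one, one_pow]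
          rw [h7, tsign_inv]
          exact ht.2
        · intro t _
          exact Prod.swap_swap t
      exact_mod_cast (ZMod.intCast_zmod_eq_zero_iff_dvd (μ χ - F) 2).mp h1
    have h5 : MemLocalIdeal M (((μ χ - F : ℤ) : ℂ)) := by
      rw [memLocalIdeal_intCast_iff hM]
      exact_mod_cast even_iff_two_dvd.mp hdiff
    have h6 := hf χ χ 1
    rw [pow_one, pow_one] at h6
    rw [h6]
    have h7 := memLocalIdeal_add hMp h5 hF1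
    convert h7 using 1
    push_cast
    ring

end MuData

section Major

variable {G : Type u} [Group G] [Fintype G] {M : Ideal AlgInt}

/-- All the data attached to a major subsection `(x, b)` of a `2`-block `B`. -/
theorem two_major_data [Fact (Nat.Prime 2)] (hM : IsPModular 2 M) (h2 : SecondMain 2 M G)
    (x : G) (k : ℕ) (hk : orderOf x = 2 ^ k) (C : Subgroup G) [Fintype C]
    (hxC : ∀ c ∈ C, x * c = c * x) (hCx : ∀ g : G, g * x = x * g → g ∈ C)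
    (ψ₀ : IrrCharacter C) (B : Set (IrrCharacter G))
    (hind : IsInducedBlock M C (blockOf M (ψ₀ : C → ℂ)) B)
    (hdef : blockDefect 2 (blockOf M (ψ₀ : C → ℂ)) = blockDefect 2 B) :
    ∃ (ζ : ℂ) (f : IrrCharacter G → IrrCharacter G → Polynomial ℤ) (μ : IrrCharacter G → ℤ)
      (c : ℕ → IrrCharacter G → ℝ),
      IsPrimitiveRoot ζ (2 ^ k) ∧
      (∀ γ ∈ (Finset.range (2 ^ k)).filter (fun i => i.Coprime (2 ^ k)), ∀ χ : IrrCharacter G,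
        ((c γ χ : ℝ) : ℂ) = aeval (ζ ^ γ) (f χ χ)) ∧
      (∀ γ ∈ (Finset.range (2 ^ k)).filter (fun i => i.Coprime (2 ^ k)), ∀ χ : IrrCharacter G,
        ∑ ψ ∈ irrFinset B, ‖aeval (ζ ^ γ) (f χ ψ)‖ ^ 2 = (2 : ℝ) ^ blockDefect 2 B * c γ χ) ∧
      (∀ γ ∈ (Finset.range (2 ^ k)).filter (fun i => i.Coprime (2 ^ k)),
        ∑ χ ∈ irrFinset B, c γ χ =
          (2 : ℝ) ^ blockDefect 2 B * (blockRank 2 (blockOf M (ψ₀ : C → ℂ)) : ℝ)) ∧
      (∀ χ : IrrCharacter G,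
        ∑ γ ∈ (Finset.range (2 ^ k)).filter (fun i => i.Coprime (2 ^ k)), c γ χ =
          (((Finset.range (2 ^ k)).filter (fun i => i.Coprime (2 ^ k))).card : ℝ) * (μ χ : ℝ)) ∧
      (∀ χ : IrrCharacter G, MemLocalIdeal M ((μ χ : ℂ) - aeval ζ (f χ χ))) ∧
      (∀ γ ∈ (Finset.range (2 ^ k)).filter (fun i => i.Coprime (2 ^ k)),
        ∀ χ ∈ B, ∀ ψ ∈ B, ∃ ρ : ℂ, MemLocalRing M ρ ∧
          aeval (ζ ^ γ) (f χ ψ) = (2 : ℂ) ^ blockHeight 2 B (ψ : G → ℂ) * ρ ∧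
          (blockHeight 2 B (χ : G → ℂ) = 0 → ¬ MemLocalIdeal M ρ) ∧
          (blockHeight 2 B (χ : G → ℂ) ≠ 0 → MemLocalIdeal M ρ)) ∧
      (∀ γ ∈ (Finset.range (2 ^ k)).filter (fun i => i.Coprime (2 ^ k)),
        ∀ χ ψ : IrrCharacter G, ‖aeval (ζ ^ γ) (f χ ψ)‖ = ‖aeval (ζ ^ γ) (f ψ χ)‖) := by
  classical
  have hMp := isPrime_of_isPModular hM
  have hN : 0 < 2 ^ k := by positivity
  have hxN : x ^ 2 ^ k = 1 := by rw [← hk]; exact pow_orderOf_eq_one x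
  have hxmem : x ∈ C := hCx x rfl
  obtain ⟨ζ, hζ⟩ : ∃ ζ : ℂ, IsPrimitiveRoot ζ (2 ^ k) :=
    ⟨_, Complex.isPrimitiveRoot_exp _ hN.ne'⟩
  obtain ⟨f, μ, hf, htr, hpar⟩ := exists_mu_data hM x k hxN C hxmem hxC ψ₀ ζ hζ
  rw [hdef] at hf
  obtain ⟨d, hd⟩ : ∃ d : ℕ, d = blockDefect 2 B := ⟨_, rfl⟩
  rw [← hd] at hf ⊢
  obtain ⟨I, hI⟩ : ∃ I : Finset ℕ,
      I = (Finset.range (2 ^ k)).filter (fun i => i.Coprime (2 ^ k)) := ⟨_, rfl⟩
  rw [← hI] at htr ⊢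
  have hB : IsPBlock M B := hind.2.1
  have hsub : ∀ γ ∈ I, (∃ k' : ℕ, orderOf (x ^ γ) = 2 ^ k') ∧
      (∀ c ∈ C, x ^ γ * c = c * x ^ γ) ∧ (∀ g : G, g * x ^ γ = x ^ γ * g → g ∈ C) := by
    intro γ hγ
    rw [hI, Finset.mem_filter] at hγ
    exact subsection_pow x ⟨k, hk⟩ C hxC hCx γ (by rw [hk]; exact hγ.2)
  have hrow : ∀ γ ∈ I,
      (∀ χ : IrrCharacter G, ((∑ ψ ∈ irrFinset B,
          ‖contrib 2 C (blockOf M (ψ₀ : C → ℂ)) (x ^ γ) χ ψ‖ ^ 2 : ℝ) : ℂ) =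
        contrib 2 C (blockOf M (ψ₀ : C → ℂ)) (x ^ γ) χ χ) ∧
      ∑ χ ∈ irrFinset B, ∑ ψ ∈ irrFinset B,
          ‖contrib 2 C (blockOf M (ψ₀ : C → ℂ)) (x ^ γ) χ ψ‖ ^ 2 =
        (blockRank 2 (blockOf M (ψ₀ : C → ℂ)) : ℝ) := by
    intro γ hγ
    obtain ⟨hxγ, hxCγ, hCxγ⟩ := hsub γ hγ
    have hCγ : C = Subgroup.centralizer ({x ^ γ} : Set G) := by
      ext g
      rw [Subgroup.mem_centralizer_singleton_iff]
      exact ⟨fun hg => (hxCγ g hg).symm, fun hg => hCxγ g hg⟩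
    have h0 : ∀ χ : IrrCharacter G, χ ∉ B → ∀ y : C, ¬ 2 ∣ orderOf y →
        blockPart (blockOf M (ψ₀ : C → ℂ)) (fun c : C => (χ : G → ℂ) (x ^ γ * (c : G))) y = 0 :=
      fun χ hχ y hy =>
        (secondMain_both' hM h2 (x ^ γ) hxγ C hCγ B hB χ _ ⟨ψ₀, rfl⟩).2 hχ hind y hy
    exact ⟨fun χ => sum_norm_sq_contrib hM (x ^ γ) hxγ C hxCγ hCxγ B ψ₀ h0 χ,
      sum_sum_norm_sq_contrib hM (x ^ γ) hxγ C hxCγ hCxγ B ψ₀ h0⟩
  have hcC : ∀ γ ∈ I, ∀ χ : IrrCharacter G,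
      (((2 : ℝ) ^ d * ∑ ψ ∈ irrFinset B,
          ‖contrib 2 C (blockOf M (ψ₀ : C → ℂ)) (x ^ γ) χ ψ‖ ^ 2 : ℝ) : ℂ) =
        aeval (ζ ^ γ) (f χ χ) := by
    intro γ hγ χ
    rw [hf, Complex.ofReal_mul, (hrow γ hγ).1 χ]
    push_cast
    rfl
  refine ⟨ζ, f, μ, fun γ χ => (2 : ℝ) ^ d * ∑ ψ ∈ irrFinset B,
    ‖contrib 2 C (blockOf M (ψ₀ : C → ℂ)) (x ^ γ) χ ψ‖ ^ 2, hζ, hcC, ?_, ?_, ?_, hpar, ?_, ?_⟩
  · intro γ hγ χ
    have h1 : ∀ ψ : IrrCharacter G, ‖aeval (ζ ^ γ) (f χ ψ)‖ ^ 2 =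
        (2 : ℝ) ^ d * ((2 : ℝ) ^ d * ‖contrib 2 C (blockOf M (ψ₀ : C → ℂ)) (x ^ γ) χ ψ‖ ^ 2) := by
      intro ψ
      rw [hf, norm_mul, mul_pow, norm_pow, Complex.norm_natCast]
      push_cast
      ring
    rw [Finset.sum_congr rfl (fun ψ _ => h1 ψ), ← Finset.mul_sum, ← Finset.mul_sum]
  · intro γ hγ
    rw [← Finset.mul_sum, (hrow γ hγ).2]
  · intro χ
    apply Complex.ofReal_injective
    rw [Complex.ofReal_sum, Finset.sum_congr rfl (fun γ hγ => hcC γ hγ χ), htr χ]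
    push_cast
    rfl
  · intro γ hγ χ hχ ψ hψ
    obtain ⟨hxγ, hxCγ, hCxγ⟩ := hsub γ hγ
    obtain ⟨ρ, hρR, hρ, hρ0, hρ1⟩ :=
      five_h hM (x ^ γ) hxγ C hxCγ hCxγ ψ₀ B hind hdef χ ψ hχ hψ
    refine ⟨ρ, hρR, ?_, hρ0, hρ1⟩
    rw [hf, hd]
    exact_mod_cast hρ
  · intro γ hγ χ ψ
    rw [hf, hf, norm_mul, norm_mul, ← contrib_conj 2 C _ (x ^ γ) χ ψ, RCLike.norm_conj]

/-- **Sambale's bounds** for a `2`-block `B` with a major subsection `(x, b)`: if `l(b) ≤ 3` or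
`k(B) ≤ l(b) + 3` then `3 k₀(B) + 2 ∑_{h(χ) > 0} 2^{h(χ)} ≤ 3 · 2^d`. -/
theorem two_major_bound [Fact (Nat.Prime 2)] (hM : IsPModular 2 M) (h2 : SecondMain 2 M G)
    (x : G) (k : ℕ) (hk : orderOf x = 2 ^ k) (C : Subgroup G) [Fintype C]
    (hxC : ∀ c ∈ C, x * c = c * x) (hCx : ∀ g : G, g * x = x * g → g ∈ C)
    (ψ₀ : IrrCharacter C) (B : Set (IrrCharacter G))
    (hind : IsInducedBlock M C (blockOf M (ψ₀ : C → ℂ)) B)
    (hdef : blockDefect 2 (blockOf M (ψ₀ : C → ℂ)) = blockDefect 2 B)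
    (hcase : blockRank 2 (blockOf M (ψ₀ : C → ℂ)) ≤ 3 ∨
      (irrFinset B).card ≤ blockRank 2 (blockOf M (ψ₀ : C → ℂ)) + 3) :
    3 * ((irrFinset B).filter
        (fun χ : IrrCharacter G => blockHeight 2 B (χ : G → ℂ) = 0)).card +
      2 * ∑ χ ∈ (irrFinset B).filter
        (fun χ : IrrCharacter G => blockHeight 2 B (χ : G → ℂ) ≠ 0),
        2 ^ blockHeight 2 B (χ : G → ℂ) ≤ 3 * 2 ^ blockDefect 2 B := by
  classical
  have hMp := isPrime_of_isPModular hM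
  have hN : 0 < 2 ^ k := by positivity
  obtain ⟨ζ, f, μ, c, hζ, D1, D1', D2, D3, D4, D5, D6⟩ :=
    two_major_data hM h2 x k hk C hxC hCx ψ₀ B hind hdef
  obtain ⟨d, hd⟩ : ∃ d : ℕ, d = blockDefect 2 B := ⟨_, rfl⟩
  obtain ⟨l, hl⟩ : ∃ l : ℕ, l = blockRank 2 (blockOf M (ψ₀ : C → ℂ)) := ⟨_, rfl⟩
  obtain ⟨ht, hht⟩ : ∃ ht : IrrCharacter G → ℕ, ∀ χ, ht χ = blockHeight 2 B (χ : G → ℂ) :=
    ⟨_, fun _ => rfl⟩
  obtain ⟨I, hI⟩ : ∃ I : Finset ℕ,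
      I = (Finset.range (2 ^ k)).filter (fun i => i.Coprime (2 ^ k)) := ⟨_, rfl⟩
  obtain ⟨𝔅, h𝔅⟩ : ∃ 𝔅 : Finset (IrrCharacter G), 𝔅 = irrFinset B := ⟨_, rfl⟩
  rw [← hd] at D1' D2 ⊢
  rw [← hl] at D2 hcase
  rw [← hI] at D1 D1' D2 D3 D5 D6
  rw [← h𝔅] at D1' D2 hcase ⊢
  simp only [← hht] at D5 ⊢
  have hmem : ∀ χ : IrrCharacter G, χ ∈ 𝔅 ↔ χ ∈ B := by
    intro χ
    rw [h𝔅]
    exact mem_irrFinset
  obtain ⟨γ₁, hγ₁, hζγ₁⟩ : ∃ γ₁ ∈ I, ζ ^ γ₁ = ζ := by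
    rcases Nat.eq_zero_or_pos k with hk0 | hk0
    · have hζ1 : ζ = 1 := by
        have := hζ.pow_eq_one
        rw [hk0] at this
        simpa using this
      refine ⟨0, ?_, by rw [pow_zero, hζ1]⟩
      rw [hI, Finset.mem_filter, Finset.mem_range, hk0]
      exact ⟨by norm_num, by simp⟩
    · refine ⟨1, ?_, pow_one ζ⟩
      rw [hI, Finset.mem_filter, Finset.mem_range]
      exact ⟨Nat.one_lt_two_pow hk0.ne', Nat.coprime_one_left _⟩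
  have hIpos : 0 < I.card := Finset.card_pos.mpr ⟨γ₁, hγ₁⟩
  have hIposR : (0 : ℝ) < (I.card : ℝ) := by exact_mod_cast hIpos
  have h2d : (0 : ℝ) < (2 : ℝ) ^ d := by positivity
  -- nonvanishing
  have hne : ∀ γ ∈ I, ∀ θ ∈ B, ht θ = 0 → ∀ χ ∈ B, aeval (ζ ^ γ) (f θ χ) ≠ 0 := by
    intro γ hγ θ hθ h0 χ hχ hzero
    obtain ⟨ρ, hρR, hρ, hρ0, _⟩ := D5 γ hγ θ hθ χ hχ
    rw [hzero] at hρ
    have : ρ = 0 := by
      rcases mul_eq_zero.mp hρ.symm with h | h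
      · exact absurd h (pow_ne_zero _ two_ne_zero)
      · exact h
    rw [this] at hρ0
    exact hρ0 h0 (memLocalIdeal_zero hMp)
  -- R6
  have hR6 : ∀ θ ∈ B, ht θ = 0 → ∀ χ ∈ B,
      (I.card : ℝ) * (4 : ℝ) ^ (ht χ) ≤ ∑ γ ∈ I, ‖aeval (ζ ^ γ) (f θ χ)‖ ^ 2 := by
    intro θ hθ h0 χ hχ
    have hf0 : aeval ζ (f θ χ) ≠ 0 := by
      have := hne γ₁ hγ₁ θ hθ h0 χ hχ
      rwa [hζγ₁] at this
    have hR : ∀ γ ∈ (Finset.range (2 ^ k)).filter (fun i => i.Coprime (2 ^ k)),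
        ∃ ρ : ℂ, MemLocalRing M ρ ∧ aeval (ζ ^ γ) (f θ χ) = ((2 : ℕ) : ℂ) ^ (ht χ) * ρ := by
      intro γ hγ
      rw [← hI] at hγ
      obtain ⟨ρ, hρR, hρ, _, _⟩ := D5 γ hγ θ hθ χ hχ
      exact ⟨ρ, hρR, by rw [hρ]; push_cast; rfl⟩
    have h1 := card_mul_pow_le_sum_sq_norm hM hN hζ (f θ χ) (ht χ) hf0 hR
    rw [← hI] at h1
    have h3 : ((2 : ℕ) : ℝ) ^ (2 * ht χ) = (4 : ℝ) ^ (ht χ) := by
      rw [pow_mul]
      norm_num
    rw [h3] at h1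
    exact h1
  have hc0 : ∀ γ ∈ I, ∀ χ : IrrCharacter G, 0 ≤ c γ χ := by
    intro γ hγ χ
    have h1 := D1' γ hγ χ
    have h3 : 0 ≤ (2 : ℝ) ^ d * c γ χ := by
      rw [← h1]
      exact Finset.sum_nonneg (fun _ _ => by positivity)
    by_contra hcon
    have : c γ χ < 0 := not_le.mp hcon
    nlinarith
  obtain ⟨χ₁, hχ₁⟩ := hind.2.1
  have hχ₁B : χ₁ ∈ B := by rw [hχ₁]; exact Cfsg.Agent.H80.mem_blockOf_self hMp χ₁
  obtain ⟨θ₀, hθ₀, hθ₀0⟩ := exists_blockHeight_zero (p := 2) B ⟨χ₁, hχ₁B⟩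
  rw [← hht] at hθ₀0
  have hcsq : ∀ γ ∈ I, ∀ χ : IrrCharacter G, ‖aeval (ζ ^ γ) (f χ χ)‖ ^ 2 = (c γ χ) ^ 2 := by
    intro γ hγ χ
    rw [← D1 γ hγ χ, Complex.norm_real, Real.norm_eq_abs, sq_abs]
  have hcpos : ∀ γ ∈ I, ∀ χ ∈ B, 0 < c γ χ := by
    intro γ hγ χ hχ
    have h1 := D1' γ hγ χ
    have h3 : ‖aeval (ζ ^ γ) (f χ θ₀)‖ ^ 2 ≤ ∑ ψ ∈ 𝔅, ‖aeval (ζ ^ γ) (f χ ψ)‖ ^ 2 :=
      Finset.single_le_sum (f := fun ψ => ‖aeval (ζ ^ γ) (f χ ψ)‖ ^ 2)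
        (fun _ _ => by positivity) ((hmem θ₀).mpr hθ₀)
    have h4 : 0 < ‖aeval (ζ ^ γ) (f χ θ₀)‖ ^ 2 := by
      rw [D6 γ hγ χ θ₀]
      have := hne γ hγ θ₀ hθ₀ hθ₀0 χ hχ
      positivity
    rw [h1] at h3
    by_contra hcon
    have : c γ χ ≤ 0 := not_lt.mp hcon
    nlinarith
  -- R4
  have hodd : ∀ χ ∈ 𝔅, ht χ = 0 → Odd (μ χ) := by
    intro χ hχ h0
    rw [hmem] at hχ
    obtain ⟨ρ, hρR, hρ, hρ0, _⟩ := D5 γ₁ hγ₁ χ hχ χ hχ
    rw [hζγ₁, h0, pow_zero, one_mul] at hρ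
    rw [← Int.not_even_iff_odd]
    intro hev
    have h1 : MemLocalIdeal M (μ χ : ℂ) := by
      rw [memLocalIdeal_intCast_iff hM]
      exact_mod_cast even_iff_two_dvd.mp hev
    have h3 := memLocalIdeal_sub hMp h1 (D4 χ)
    rw [sub_sub_cancel, hρ] at h3
    exact hρ0 h0 h3
  -- R5
  have hR5 : ∀ χ ∈ 𝔅, ht χ ≠ 0 → (2 : ℤ) ^ (ht χ + 1) ≤ μ χ := by
    intro χ hχ hpos
    rw [hmem] at hχ
    have hJ : ∀ γ ∈ (Finset.range (2 ^ k)).filter (fun i => i.Coprime (2 ^ k)),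
        ∃ ρ : ℂ, MemLocalIdeal M ρ ∧ aeval (ζ ^ γ) (f χ χ) = 2 ^ (ht χ) * ρ := by
      intro γ hγ
      rw [← hI] at hγ
      obtain ⟨ρ, hρR, hρ, _, hρJ⟩ := D5 γ hγ χ hχ χ hχ
      exact ⟨ρ, hρJ hpos, hρ⟩
    have h1 := two_pow_succ_le_of_trace hM k hζ (f χ χ) (ht χ) (fun γ => c γ χ)
      (by rw [← hI]; exact fun γ hγ => D1 γ hγ χ)
      (by rw [← hI]; exact fun γ hγ => hcpos γ hγ χ hχ) hJ (μ χ)
      (by rw [← hI]; exact D3 χ)
    exact h1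
  rcases hcase with hl3 | hk3
  · -- the direct case
    exact two_bound_abstract 𝔅 ht I hIpos d l hl3 c
      (fun γ χ ψ => ‖aeval (ζ ^ γ) (f χ ψ)‖ ^ 2) μ
      (fun γ _ χ _ ψ _ => by positivity)
      (fun γ hγ χ _ => D1' γ hγ χ)
      (fun γ hγ => (D2 γ hγ).le)
      (fun χ _ => D3 χ) hodd hR5
      (fun θ hθ h0 χ hχ => hR6 θ ((hmem θ).mp hθ) h0 χ ((hmem χ).mp hχ))
  · -- the complementary case
    have hcle : ∀ γ ∈ I, ∀ χ ∈ B, c γ χ ≤ (2 : ℝ) ^ d := by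
      intro γ hγ χ hχ
      have h1 := D1' γ hγ χ
      have h3 : ‖aeval (ζ ^ γ) (f χ χ)‖ ^ 2 ≤ ∑ ψ ∈ 𝔅, ‖aeval (ζ ^ γ) (f χ ψ)‖ ^ 2 :=
        Finset.single_le_sum (f := fun ψ => ‖aeval (ζ ^ γ) (f χ ψ)‖ ^ 2)
          (fun _ _ => by positivity) ((hmem χ).mpr hχ)
      rw [h1, hcsq γ hγ χ] at h3
      have h4 := hcpos γ hγ χ hχ
      nlinarith
    have hμle : ∀ χ ∈ B, (μ χ : ℝ) ≤ (2 : ℝ) ^ d := by
      intro χ hχ
      have h1 : (I.card : ℝ) * (μ χ : ℝ) ≤ (I.card : ℝ) * (2 : ℝ) ^ d := by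
        rw [← D3 χ]
        calc ∑ γ ∈ I, c γ χ ≤ ∑ γ ∈ I, (2 : ℝ) ^ d :=
              Finset.sum_le_sum (fun γ hγ => hcle γ hγ χ hχ)
          _ = (I.card : ℝ) * (2 : ℝ) ^ d := by rw [Finset.sum_const, nsmul_eq_mul]
      exact le_of_mul_le_mul_left h1 hIposR
    have hsum4 : ∑ χ ∈ 𝔅, (4 : ℝ) ^ (ht χ) ≤ (4 : ℝ) ^ d := by
      have h1 : ∑ χ ∈ 𝔅, (I.card : ℝ) * (4 : ℝ) ^ (ht χ) ≤
          ∑ χ ∈ 𝔅, ∑ γ ∈ I, ‖aeval (ζ ^ γ) (f θ₀ χ)‖ ^ 2 :=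
        Finset.sum_le_sum (fun χ hχ => hR6 θ₀ hθ₀ hθ₀0 χ ((hmem χ).mp hχ))
      rw [Finset.sum_comm, Finset.sum_congr rfl (fun γ hγ => D1' γ hγ θ₀), ← Finset.mul_sum,
        ← Finset.mul_sum, D3 θ₀] at h1
      have h3 := hμle θ₀ hθ₀
      have h4 : (I.card : ℝ) * ∑ χ ∈ 𝔅, (4 : ℝ) ^ (ht χ) ≤ (I.card : ℝ) * (4 : ℝ) ^ d := by
        have h5 : (4 : ℝ) ^ d = (2 : ℝ) ^ d * (2 : ℝ) ^ d := by
          rw [← mul_pow]
          norm_num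
        rw [h5]
        calc (I.card : ℝ) * ∑ χ ∈ 𝔅, (4 : ℝ) ^ (ht χ)
            ≤ (2 : ℝ) ^ d * ((I.card : ℝ) * (μ θ₀ : ℝ)) := h1
          _ ≤ (2 : ℝ) ^ d * ((I.card : ℝ) * (2 : ℝ) ^ d) := by
              apply mul_le_mul_of_nonneg_left _ h2d.le
              exact mul_le_mul_of_nonneg_left h3 hIposR.le
          _ = (I.card : ℝ) * ((2 : ℝ) ^ d * (2 : ℝ) ^ d) := by ring
      exact le_of_mul_le_mul_left h4 hIposR
    by_cases hd0 : d = 0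
    · -- defect zero: a single character
      rw [hd0, pow_zero] at hsum4
      have hcard : 𝔅.card ≤ 1 := by
        have h1 : (𝔅.card : ℝ) ≤ ∑ χ ∈ 𝔅, (4 : ℝ) ^ (ht χ) := by
          calc (𝔅.card : ℝ) = ∑ χ ∈ 𝔅, (1 : ℝ) := by simp
            _ ≤ ∑ χ ∈ 𝔅, (4 : ℝ) ^ (ht χ) :=
                Finset.sum_le_sum (fun χ _ => one_le_pow₀ (by norm_num))
        have h3 : (𝔅.card : ℝ) ≤ 1 := h1.trans hsum4
        exact_mod_cast h3
      have hall : ∀ χ ∈ 𝔅, ht χ = 0 := by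
        intro χ hχ
        have := Finset.card_le_one.mp hcard χ hχ θ₀ ((hmem θ₀).mpr hθ₀)
        rw [this]
        exact hθ₀0
      have h1 : 𝔅.filter (fun χ => ht χ ≠ 0) = ∅ := by
        apply Finset.filter_eq_empty_iff.mpr
        intro χ hχ
        exact not_not.mpr (hall χ hχ)
      rw [h1, Finset.sum_empty, mul_zero, add_zero, hd0, pow_zero, mul_one]
      have h3 : (𝔅.filter (fun χ => ht χ = 0)).card ≤ 𝔅.card := Finset.card_filter_le _ _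
      omega
    · have hd1 : 1 ≤ d := Nat.one_le_iff_ne_zero.mpr hd0
      have hθne : ∀ χ : IrrCharacter G, ht χ ≠ 0 → θ₀ ≠ χ := by
        intro χ hχ h
        rw [← h] at hχ
        exact hχ hθ₀0
      have hlt : ∀ χ ∈ B, ht χ ≠ 0 → ht χ < d := by
        intro χ hχ hpos
        have hsub : ({θ₀, χ} : Finset (IrrCharacter G)) ⊆ 𝔅 := by
          intro ψ hψ
          rw [Finset.mem_insert, Finset.mem_singleton] at hψ
          rcases hψ with h | h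
          · rw [h]; exact (hmem θ₀).mpr hθ₀
          · rw [h]; exact (hmem χ).mpr hχ
        have h1 : ∑ ψ ∈ ({θ₀, χ} : Finset (IrrCharacter G)), (4 : ℝ) ^ (ht ψ) ≤
            ∑ ψ ∈ 𝔅, (4 : ℝ) ^ (ht ψ) :=
          Finset.sum_le_sum_of_subset_of_nonneg hsub (fun _ _ _ => by positivity)
        rw [Finset.sum_pair (hθne χ hpos), hθ₀0, pow_zero] at h1
        by_contra hcon
        have h3 : d ≤ ht χ := not_lt.mp hcon
        have h4 : (4 : ℝ) ^ d ≤ (4 : ℝ) ^ (ht χ) := pow_le_pow_right₀ (by norm_num) h3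
        linarith
      have hclt : ∀ γ ∈ I, ∀ χ ∈ B, ht χ ≠ 0 → c γ χ < (2 : ℝ) ^ d := by
        intro γ hγ χ hχ hpos
        have hsub : ({χ, θ₀} : Finset (IrrCharacter G)) ⊆ 𝔅 := by
          intro ψ hψ
          rw [Finset.mem_insert, Finset.mem_singleton] at hψ
          rcases hψ with h | h
          · rw [h]; exact (hmem χ).mpr hχ
          · rw [h]; exact (hmem θ₀).mpr hθ₀
        have h1 : ∑ ψ ∈ ({χ, θ₀} : Finset (IrrCharacter G)), ‖aeval (ζ ^ γ) (f χ ψ)‖ ^ 2 ≤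
            ∑ ψ ∈ 𝔅, ‖aeval (ζ ^ γ) (f χ ψ)‖ ^ 2 :=
          Finset.sum_le_sum_of_subset_of_nonneg hsub (fun _ _ _ => by positivity)
        rw [Finset.sum_pair (hθne χ hpos).symm, D1' γ hγ χ, hcsq γ hγ χ] at h1
        have h4 : 0 < ‖aeval (ζ ^ γ) (f χ θ₀)‖ ^ 2 := by
          rw [D6 γ hγ χ θ₀]
          have := hne γ hγ θ₀ hθ₀ hθ₀0 χ hχ
          positivity
        have h5 := hcpos γ hγ χ hχ
        nlinarith
      have ha' : ∀ γ ∈ I, ∀ χ : IrrCharacter G, (((2 : ℝ) ^ d - c γ χ : ℝ) : ℂ) =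
          aeval (ζ ^ γ) (Polynomial.C ((2 : ℤ) ^ d) - f χ χ) := by
        intro γ hγ χ
        rw [map_sub, aeval_C, ← D1 γ hγ χ]
        push_cast
        simp
      have h2J : MemLocalIdeal M (2 : ℂ) := by simpa using memLocalIdeal_natCast_self hM
      have h2R : MemLocalRing M (2 : ℂ) := MemLocalIdeal.memLocalRing h2J
      exact two_bound_abstract 𝔅 ht I hIpos d 3 le_rfl (fun γ χ => (2 : ℝ) ^ d - c γ χ)
        (fun γ χ ψ => if χ = ψ then ((2 : ℝ) ^ d - c γ χ) ^ 2 else ‖aeval (ζ ^ γ) (f χ ψ)‖ ^ 2)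
        (fun χ => (2 : ℤ) ^ d - μ χ)
        (fun γ _ χ _ ψ _ => by
          show 0 ≤ (if χ = ψ then ((2 : ℝ) ^ d - c γ χ) ^ 2 else ‖aeval (ζ ^ γ) (f χ ψ)‖ ^ 2)
          split_ifs <;> positivity)
        (fun γ hγ χ hχ => by
          show ∑ ψ ∈ 𝔅, (if χ = ψ then ((2 : ℝ) ^ d - c γ χ) ^ 2
            else ‖aeval (ζ ^ γ) (f χ ψ)‖ ^ 2) = (2 : ℝ) ^ d * ((2 : ℝ) ^ d - c γ χ)
          have h1 := D1' γ hγ χ
          rw [← Finset.add_sum_erase 𝔅 _ hχ, hcsq γ hγ χ] at h1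
          rw [← Finset.add_sum_erase 𝔅 _ hχ, if_pos rfl]
          have h3 : ∑ ψ ∈ 𝔅.erase χ, (if χ = ψ then ((2 : ℝ) ^ d - c γ χ) ^ 2
              else ‖aeval (ζ ^ γ) (f χ ψ)‖ ^ 2) =
              ∑ ψ ∈ 𝔅.erase χ, ‖aeval (ζ ^ γ) (f χ ψ)‖ ^ 2 := by
            apply Finset.sum_congr rfl
            intro ψ hψ
            rw [if_neg (fun h => (Finset.ne_of_mem_erase hψ) h.symm)]
          rw [h3]
          linear_combination h1)
        (fun γ hγ => by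
          show ∑ χ ∈ 𝔅, ((2 : ℝ) ^ d - c γ χ) ≤ (2 : ℝ) ^ d * ((3 : ℕ) : ℝ)
          rw [Finset.sum_sub_distrib, Finset.sum_const, D2 γ hγ, nsmul_eq_mul]
          have h1 : (𝔅.card : ℝ) ≤ (l : ℝ) + 3 := by exact_mod_cast hk3
          push_cast
          nlinarith)
        (fun χ _ => by
          show ∑ γ ∈ I, ((2 : ℝ) ^ d - c γ χ) = (I.card : ℝ) * (((2 : ℤ) ^ d - μ χ : ℤ) : ℝ)
          rw [Finset.sum_sub_distrib, Finset.sum_const, D3 χ, nsmul_eq_mul]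
          push_cast
          ring)
        (fun χ hχ h0 => by
          show Odd ((2 : ℤ) ^ d - μ χ)
          have h1 : Even ((2 : ℤ) ^ d) := Even.pow_of_ne_zero even_two hd0
          exact h1.sub_odd (hodd χ hχ h0))
        (fun χ hχ hpos => by
          show (2 : ℤ) ^ (ht χ + 1) ≤ (2 : ℤ) ^ d - μ χ
          have hχB := (hmem χ).mp hχ
          have hJ : ∀ γ ∈ (Finset.range (2 ^ k)).filter (fun i => i.Coprime (2 ^ k)),
              ∃ ρ : ℂ, MemLocalIdeal M ρ ∧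
                aeval (ζ ^ γ) (Polynomial.C ((2 : ℤ) ^ d) - f χ χ) = 2 ^ (ht χ) * ρ := by
            intro γ hγ
            rw [← hI] at hγ
            obtain ⟨ρ, hρR, hρ, _, hρJ⟩ := D5 γ hγ χ hχB χ hχB
            have hltχ := hlt χ hχB hpos
            refine ⟨(2 : ℂ) ^ (d - ht χ) - ρ, ?_, ?_⟩
            · apply memLocalIdeal_sub hMp _ (hρJ hpos)
              have h3 : d - ht χ = (d - ht χ - 1) + 1 := by omega
              rw [h3, pow_succ]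
              exact memLocalIdeal_mul_left hMp (memLocalRing_pow hMp h2R _) h2J
            · rw [map_sub, aeval_C, hρ, mul_sub, ← pow_add, Nat.add_sub_cancel' hltχ.le]
              simp
          have h1 := two_pow_succ_le_of_trace hM k hζ (Polynomial.C ((2 : ℤ) ^ d) - f χ χ) (ht χ)
            (fun γ => (2 : ℝ) ^ d - c γ χ)
            (by rw [← hI]; exact fun γ hγ => ha' γ hγ χ)
            (by rw [← hI]; exact fun γ hγ => sub_pos.mpr (hclt γ hγ χ hχB hpos)) hJ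
            ((2 : ℤ) ^ d - μ χ)
            (by
              rw [← hI, Finset.sum_sub_distrib, Finset.sum_const, D3 χ, nsmul_eq_mul]
              push_cast
              ring)
          exact h1)
        (fun θ hθ h0 χ hχ => by
          show (I.card : ℝ) * (4 : ℝ) ^ (ht χ) ≤ ∑ γ ∈ I,
            (if θ = χ then ((2 : ℝ) ^ d - c γ θ) ^ 2 else ‖aeval (ζ ^ γ) (f θ χ)‖ ^ 2)
          have hθB := (hmem θ).mp hθ
          by_cases hθχ : θ = χ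
          · rw [← hθχ, h0, pow_zero, mul_one]
            simp only [↓reduceIte]
            have hne' : aeval ζ (Polynomial.C ((2 : ℤ) ^ d) - f θ θ) ≠ 0 := by
              intro hzero
              rw [map_sub, aeval_C, sub_eq_zero] at hzero
              obtain ⟨ρ, hρR, hρ, hρ0, _⟩ := D5 γ₁ hγ₁ θ hθB θ hθB
              rw [hζγ₁, h0, pow_zero, one_mul] at hρ
              apply hρ0 h0
              rw [← hρ, ← hzero]
              have h3 : (algebraMap ℤ ℂ) ((2 : ℤ) ^ d) = (2 : ℂ) ^ (d - 1) * 2 := by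
                rw [← pow_succ, Nat.sub_add_cancel hd1]
                simp
              rw [h3]
              exact memLocalIdeal_mul_left hMp (memLocalRing_pow hMp h2R _) h2J
            have h1 := Cfsg.Agent.H79.card_le_sum_sq_norm_aeval_pow hN hζ
              (Polynomial.C ((2 : ℤ) ^ d) - f θ θ) hne'
            rw [← hI] at h1
            calc (I.card : ℝ) ≤ ∑ γ ∈ I, ‖aeval (ζ ^ γ) (Polynomial.C ((2 : ℤ) ^ d) - f θ θ)‖ ^ 2 := h1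
              _ = ∑ γ ∈ I, ((2 : ℝ) ^ d - c γ θ) ^ 2 := by
                  apply Finset.sum_congr rfl
                  intro γ hγ
                  rw [← ha' γ hγ θ, Complex.norm_real, Real.norm_eq_abs, sq_abs]
          · simp only [if_neg hθχ]
            exact hR6 θ hθB h0 χ ((hmem χ).mp hχ))

end Major

end Cfsg.Agent.H20
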