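import Cfsg.Agent.H93.U33Defs
import Cfsg.Agent.S0188
import Cfsg.Agent.H4.OddSixteen
import Cfsg.Agent.H44.PSL2Deg

set_option autoImplicit false

/-! U-PROD for helper93's S3670 project: degrees of a direct product. -/

namespace Cfsg.Agent.H20.U33

theorem prod : Cfsg.Agent.H93.U33.StmtProd := by
  intro A B _ _ _ _ a b ha hb
  obtain ⟨χ, hχ⟩ := ha
  obtain ⟨ψ, hψ⟩ := hb
  refine ⟨⟨_, Cfsg.Agent.S0188.prod_irr χ.2 ψ.2⟩, ?_⟩
  obtain ⟨n, -, hn⟩ := Cfsg.Agent.H4.irr_degree_dvd_card χ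
  obtain ⟨m, -, hm⟩ := Cfsg.Agent.H4.irr_degree_dvd_card ψ
  have h1 : Cfsg.charDegree χ.1 = n := Cfsg.Agent.H44.charDegree_eq_of_one_eq hn
  have h2 : Cfsg.charDegree ψ.1 = m := Cfsg.Agent.H44.charDegree_eq_of_one_eq hm
  rw [← hχ, ← hψ, h1, h2]
  apply Cfsg.Agent.H44.charDegree_eq_of_one_eq
  show χ.1 (1 : A × B).1 * ψ.1 (1 : A × B).2 = _
  simp [hn, hm]

example : ∀ (A B : Type) [Group A] [Group B] [Finite A] [Finite B] (a b : ℕ),
    a ∈ Cfsg.charDegrees A → b ∈ Cfsg.charDegrees B → a * b ∈ Cfsg.charDegrees (A × B) := prod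

end Cfsg.Agent.H20.U33

#print axioms Cfsg.Agent.H20.U33.prod
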