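import Cfsg.Agent.H93.U33Defs
import Cfsg.Agent.S2366
import Cfsg.Agent.H21.SimpleTools

set_option autoImplicit false

/-! U-TI1 for helper93's S3670 project: a Sylow 7-subgroup of `SU₃(3)` is self-centralising with
normaliser of order 21. -/

namespace Cfsg.Agent.H20.U33

open Subgroup

/-- A group of order 6048 without elements of order 14 or 21 has a self-centralising subgroup
of order 7 whose normaliser has order 21. -/
theorem ti1_abstract {G : Type*} [Group G] [Finite G] (hG : Nat.card G = 6048)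
    (h14 : ∀ x : G, orderOf x ≠ 14) (h21 : ∀ x : G, orderOf x ≠ 21) :
    ∃ P : Subgroup G, Nat.card P = 7 ∧ Nat.card (Subgroup.centralizer (P : Set G)) = 7 ∧
      Nat.card (Subgroup.normalizer (P : Set G)) = 21 := by
  have : Fact (Nat.Prime 7) := ⟨by norm_num⟩
  obtain ⟨P⟩ : Nonempty (Sylow 7 G) := inferInstance
  have hP : Nat.card (P : Subgroup G) = 7 := by
    have := Cfsg.Agent.H21.sylow_card_of_card_eq (p := 7) (k := 1) (m := 864)
      (by rw [hG]; norm_num) (by norm_num) P
    simpa using this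
  have hcyc : IsCyclic (P : Subgroup G) := isCyclic_of_prime_card hP
  have hPC : (P : Subgroup G) ≤ centralizer ((P : Subgroup G) : Set G) := by
    have hcomm : ∀ a b : (P : Subgroup G), a * b = b * a := fun a b =>
      (IsCyclic.commGroup (α := (P : Subgroup G))).mul_comm a b
    intro x hx y hy
    have := hcomm ⟨y, hy⟩ ⟨x, hx⟩
    exact congrArg Subtype.val this
  obtain ⟨g, hgP, hg7⟩ : ∃ g ∈ (P : Subgroup G), orderOf g = 7 := by
    obtain ⟨x, hx⟩ := exists_prime_orderOf_dvd_card' (G := (P : Subgroup G)) 7 (by rw [hP])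
    exact ⟨x.1, x.2, (Subgroup.orderOf_coe x).trans hx⟩
  have hC7 : Nat.card (centralizer ((P : Subgroup G) : Set G)) = 7 := by
    have h7 : 7 ∣ Nat.card (centralizer ((P : Subgroup G) : Set G)) := by
      have := Subgroup.card_dvd_of_le hPC
      rwa [hP] at this
    have hdvd : Nat.card (centralizer ((P : Subgroup G) : Set G)) ∣ 6048 :=
      hG ▸ Subgroup.card_subgroup_dvd_card _
    obtain ⟨k, hk⟩ := h7
    by_contra hne
    have hk1 : k ≠ 1 := by rintro rfl; exact hne (by rw [hk])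
    have hk864 : k ∣ 864 := by
      rw [hk] at hdvd
      exact Nat.dvd_of_mul_dvd_mul_left (by norm_num : 0 < 7) (by simpa using hdvd)
    obtain ⟨r, hr, hrk⟩ := Nat.exists_prime_and_dvd hk1
    have hr864 : r ∣ 864 := hrk.trans hk864
    have hr23 : r = 2 ∨ r = 3 := by
      have h864 : r ∣ 2 ^ 5 * 3 ^ 3 := by norm_num; exact hr864
      rcases (Nat.Prime.dvd_mul hr).1 h864 with h | h
      · left; exact (Nat.prime_dvd_prime_iff_eq hr (by norm_num)).1 (hr.dvd_of_dvd_pow h)
      · right; exact (Nat.prime_dvd_prime_iff_eq hr (by norm_num)).1 (hr.dvd_of_dvd_pow h)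
    have : Fact r.Prime := ⟨hr⟩
    obtain ⟨x, hx⟩ := exists_prime_orderOf_dvd_card'
      (G := centralizer ((P : Subgroup G) : Set G)) r (by rw [hk]; exact Dvd.dvd.mul_left hrk 7)
    have hxo : orderOf (x : G) = r := (Subgroup.orderOf_coe x).trans hx
    have hcomm : Commute (x : G) g := (x.2 g hgP).symm
    have hcop : Nat.Coprime (orderOf (x : G)) (orderOf g) := by
      rw [hxo, hg7]; rcases hr23 with rfl | rfl <;> norm_num
    have hmul := hcomm.orderOf_mul_eq_mul_orderOf_of_coprime hcop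
    rw [hxo, hg7] at hmul
    rcases hr23 with rfl | rfl
    · exact h14 _ hmul
    · exact h21 _ hmul
  refine ⟨P, hP, hC7, ?_⟩
  have h1 := Cfsg.Agent.H21.relIndex_centralizer_normalizer_dvd_card_mulAut (P : Subgroup G)
  rw [IsCyclic.card_mulAut, hP, Nat.totient_prime (by norm_num : Nat.Prime 7)] at h1
  have h2 := Cfsg.Agent.H21.card_centralizer_mul_relIndex_normalizer (P : Subgroup G)
  rw [hC7] at h2
  have h3 : Nat.card (Sylow 7 G) = (normalizer ((P : Subgroup G) : Set G)).index :=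
    Sylow.card_eq_index_normalizer P
  have h4 : Nat.card (Sylow 7 G) ≡ 1 [MOD 7] := card_sylow_modEq_one 7 G
  have h5 := (normalizer ((P : Subgroup G) : Set G)).card_mul_index
  rw [hG, ← h3, ← h2] at h5
  have he : (centralizer ((P : Subgroup G) : Set G)).relIndex
      (normalizer ((P : Subgroup G) : Set G)) ∈ Nat.divisors 6 :=
    Nat.mem_divisors.2 ⟨h1, by norm_num⟩
  have hd : Nat.divisors 6 = {1, 2, 3, 6} := by decide
  rw [hd] at he
  have h4' : Nat.card (Sylow 7 G) % 7 = 1 := h4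
  rw [← h2]
  simp only [Finset.mem_insert, Finset.mem_singleton] at he
  rcases he with he | he | he | he <;> rw [he] at h5 ⊢ <;> omega

instance gf9CharP : CharP Cfsg.Agent.H6.L29.GF9 3 :=
  charP_of_injective_algebraMap (algebraMap (ZMod 3) Cfsg.Agent.H6.L29.GF9).injective 3

theorem su9_orderOf_mem (x : Cfsg.Agent.H6.G22.SU9) :
    orderOf x ∣ 4 ∨ orderOf x ∣ 12 ∨ orderOf x ∣ 8 ∨ orderOf x ∣ 7 := by
  have : Fact (Nat.Prime 3) := ⟨by norm_num⟩
  have h := Cfsg.Agent.S2366.result (F := Cfsg.Agent.H6.L29.GF9) 3 (by norm_num) 3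
    (by rw [Cfsg.Agent.H6.L29.card_gf9]; norm_num)
  have hx : orderOf (Cfsg.Agent.H6.G22.suEquivPSU Cfsg.Agent.H6.L29.card_gf9 x) ∈
      Set.range (orderOf : Cfsg.PSU 3 Cfsg.Agent.H6.L29.GF9 3 → ℕ) := ⟨_, rfl⟩
  rw [h, MulEquiv.orderOf_eq] at hx
  simp only [Set.mem_union, Set.mem_ofPred_eq] at hx
  norm_num at hx
  tauto

theorem ti1 : Cfsg.Agent.H93.U33.StmtTI1 := by
  apply ti1_abstract (Cfsg.Agent.H6.G22.su_card Cfsg.Agent.H6.L29.card_gf9)
  · intro x hx
    have := su9_orderOf_mem x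
    rw [hx] at this
    norm_num at this
  · intro x hx
    have := su9_orderOf_mem x
    rw [hx] at this
    norm_num at this

example : ∃ P : Subgroup Cfsg.Agent.H6.G22.SU9, Nat.card P = 7 ∧
    Nat.card (Subgroup.centralizer (P : Set Cfsg.Agent.H6.G22.SU9)) = 7 ∧
    Nat.card (Subgroup.normalizer (P : Set Cfsg.Agent.H6.G22.SU9)) = 21 := ti1

end Cfsg.Agent.H20.U33

#print axioms Cfsg.Agent.H20.U33.ti1
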