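import Cfsg.Agent.H93.U33Defs
import Cfsg.Agent.H4.OddSixteen
import Cfsg.Agent.H44.PSL2Deg

set_option autoImplicit false

/-! U-TI3 for helper93's S3670 project: the arithmetic of the exceptional characters at `p = 7`
in a group of order 6048 forces an irreducible character degree divisible by 6. -/

namespace Cfsg.Agent.H20.U33

open Cfsg

theorem charDegree_dvd_card {G : Type} [Group G] [Finite G] (χ : IrrCharacter G) :
    charDegree χ.1 ∣ Nat.card G := by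
  obtain ⟨n, hn, h⟩ := Cfsg.Agent.H4.irr_degree_dvd_card χ
  rw [Cfsg.Agent.H44.charDegree_eq_of_one_eq h]; exact hn

set_option maxRecDepth 100000 in
theorem arith864 : ∀ x ∈ Finset.range 865, x ∣ 864 → x ≠ 1 →
    (x % 7 = 1 → 6 ∣ x ∨ x = 8) ∧ (x % 7 = 6 → 6 ∣ x ∨ x = 27) := by
  decide

theorem deg_cases (x : ℕ) (v : ℤ) (hx : x ∣ 6048) (hx1 : x ≠ 1) (hv : v = 1 ∨ v = -1) (t : ℤ)
    (h : (x : ℤ) = v + t * 7) :
    6 ∣ x ∨ (v = 1 ∧ x = 8) ∨ (v = -1 ∧ x = 27) := by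
  have h7 : ¬ 7 ∣ x := by
    intro h7
    obtain ⟨k, rfl⟩ := h7
    push_cast at h
    rcases hv with rfl | rfl <;> omega
  have h864 : x ∣ 864 := by
    have hc : Nat.Coprime x 7 :=
      ((Nat.Prime.coprime_iff_not_dvd (by norm_num : Nat.Prime 7)).2 h7).symm
    exact hc.dvd_of_dvd_mul_left (by simpa using hx)
  have hlt : x < 865 := Nat.lt_succ_of_le (Nat.le_of_dvd (by norm_num) h864)
  have key := arith864 x (Finset.mem_range.2 hlt) h864 hx1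
  rcases hv with rfl | rfl
  · have hm : x % 7 = 1 := by omega
    rcases key.1 hm with h6 | h8
    · exact Or.inl h6
    · exact Or.inr (Or.inl ⟨rfl, h8⟩)
  · have hm : x % 7 = 6 := by omega
    rcases key.2 hm with h6 | h8
    · exact Or.inl h6
    · exact Or.inr (Or.inr ⟨rfl, h8⟩)

theorem ti3 : Cfsg.Agent.H93.U33.StmtTI3 := by
  intro G _ _ hG hE
  obtain ⟨ε, c, d, s, v, T, hε, hd, hds, hT, hsum, hdeg⟩ := hE
  classical
  have hnn : 0 ≤ ∑ ψ ∈ T, v ψ ^ 2 := Finset.sum_nonneg (fun ψ _ => sq_nonneg _)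
  have hc : c = 0 ∨ c = ε := by
    rw [hsum] at hnn
    rcases hε with rfl | rfl
    · have h1 : c ≤ 1 := by nlinarith
      have h0 : 0 ≤ c := by nlinarith
      omega
    · have h1 : c ≤ 0 := by nlinarith
      have h0 : -1 ≤ c := by nlinarith
      omega
  have hsum2 : ∑ ψ ∈ T, v ψ ^ 2 = 2 := by
    rw [hsum]
    rcases hε with rfl | rfl <;> rcases hc with rfl | rfl <;> norm_num
  have hpm : ε - 2 * c = 1 ∨ ε - 2 * c = -1 := by
    rcases hε with rfl | rfl <;> rcases hc with rfl | rfl <;> norm_num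
  have hsum' : ∑ ψ ∈ T.filter (fun ψ => v ψ ≠ 0), v ψ ^ 2 = 2 := by
    rw [Finset.sum_filter_of_ne, hsum2]
    intro ψ _ h h0
    exact h (by rw [h0]; norm_num)
  have hsumd' : ∑ ψ ∈ T.filter (fun ψ => v ψ ≠ 0), v ψ * (charDegree ψ.1 : ℤ) =
      ∑ ψ ∈ T, v ψ * (charDegree ψ.1 : ℤ) := by
    apply Finset.sum_filter_of_ne
    intro ψ _ h h0
    exact h (by rw [h0]; norm_num)
  have hv1 : ∀ ψ ∈ T.filter (fun ψ => v ψ ≠ 0), v ψ = 1 ∨ v ψ = -1 := by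
    intro ψ hψ
    have hle : v ψ ^ 2 ≤ 2 := by
      rw [← hsum']
      exact Finset.single_le_sum (f := fun ψ => v ψ ^ 2) (fun _ _ => sq_nonneg _) hψ
    have hne : v ψ ≠ 0 := (Finset.mem_filter.1 hψ).2
    have h1 : v ψ ≤ 1 := by nlinarith
    have h2 : -1 ≤ v ψ := by nlinarith
    omega
  have hcard : (T.filter (fun ψ => v ψ ≠ 0)).card = 2 := by
    have h1 : ∑ ψ ∈ T.filter (fun ψ => v ψ ≠ 0), v ψ ^ 2 =
        ∑ ψ ∈ T.filter (fun ψ => v ψ ≠ 0), (1 : ℤ) := by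
      refine Finset.sum_congr rfl fun ψ hψ => ?_
      rcases hv1 ψ hψ with h | h <;> rw [h] <;> norm_num
    rw [hsum'] at h1
    simp at h1
    exact_mod_cast h1.symm
  obtain ⟨ψ₁, ψ₂, hne, hT2⟩ := Finset.card_eq_two.1 hcard
  have hm1 : ψ₁ ∈ T.filter (fun ψ => v ψ ≠ 0) := by rw [hT2]; simp
  have hm2 : ψ₂ ∈ T.filter (fun ψ => v ψ ≠ 0) := by rw [hT2]; simp
  rw [hT2, Finset.sum_pair hne] at hsumd'
  rw [← hsumd'] at hdeg
  obtain ⟨hx1, t1, ht1⟩ := hT ψ₁ (Finset.mem_filter.1 hm1).1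
  obtain ⟨hx2, t2, ht2⟩ := hT ψ₂ (Finset.mem_filter.1 hm2).1
  have hdv1 : charDegree ψ₁.1 ∣ 6048 := hG ▸ charDegree_dvd_card ψ₁
  have hdv2 : charDegree ψ₂.1 ∣ 6048 := hG ▸ charDegree_dvd_card ψ₂
  have hdd : d ∣ 6048 := by
    obtain ⟨χ, hχ⟩ := hd
    rw [← hχ]
    exact hG ▸ charDegree_dvd_card χ
  have c1 := deg_cases _ _ hdv1 hx1 (hv1 ψ₁ hm1) t1 ht1
  have c2 := deg_cases _ _ hdv2 hx2 (hv1 ψ₂ hm2) t2 ht2
  rcases c1 with h6 | c1
  · exact ⟨_, ⟨ψ₁, rfl⟩, h6⟩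
  rcases c2 with h6 | c2
  · exact ⟨_, ⟨ψ₂, rfl⟩, h6⟩
  have hd18 : d = 18 := by
    rcases c1 with ⟨hv₁, hx₁⟩ | ⟨hv₁, hx₁⟩ <;> rcases c2 with ⟨hv₂, hx₂⟩ | ⟨hv₂, hx₂⟩ <;>
      rcases hpm with hp | hp <;> rw [hv₁, hv₂, hx₁, hx₂, hp] at hdeg <;> push_cast at hdeg
    · have : d = 17 := by omega
      subst this; norm_num at hdd
    · omega
    · omega
    · omega
    · omega
    · omega
    · omega
    · have : d = 53 := by omega
      subst this; norm_num at hdd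
  exact ⟨d, hd, by rw [hd18]; norm_num⟩

example : ∀ (G : Type) [Group G] [Finite G], Nat.card G = 6048 → Cfsg.Agent.H93.U33.ExcData G →
    ∃ d ∈ Cfsg.charDegrees G, 6 ∣ d := ti3

end Cfsg.Agent.H20.U33

#print axioms Cfsg.Agent.H20.U33.ti3
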