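import Mathlib
import Cfsg.Agent.H72.ZasDefs
import Cfsg.Agent.S0016

/-!
helper20: S0690-NOZ for helper72 — a perfect group satisfying `ZasAx` has no nontrivial normal
subgroup of odd order.
-/

set_option autoImplicit false

namespace Cfsg.Agent.H20.Zas

open Cfsg.Agent.H72.Zas
open scoped commutatorElement

universe u

/-- In a finite cyclic group, an element killed by the prime `p` lies in the subgroup generated
by any element of order `p`. -/
theorem cyc_mem_zpowers {Z : Type*} [Group Z] [Finite Z] [IsCyclic Z] {p : ℕ}
    (hp : p.Prime) {a b : Z} (ha : orderOf a = p) (hb : b ^ p = 1) : b ∈ Subgroup.zpowers a := by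
  classical
  have := Fintype.ofFinite Z
  have h1 : (Finset.univ.filter (fun x : Z => x ^ p = 1)).card ≤ p :=
    IsCyclic.card_pow_eq_one_le hp.pos
  have h2 : ((Finset.range p).image (fun i => a ^ i)) ⊆
      Finset.univ.filter (fun x : Z => x ^ p = 1) := by
    intro x hx
    obtain ⟨i, _, rfl⟩ := Finset.mem_image.mp hx
    rw [Finset.mem_filter]
    refine ⟨Finset.mem_univ _, ?_⟩
    rw [← pow_mul, mul_comm, pow_mul, ← ha, pow_orderOf_eq_one, one_pow]
  have h3 : ((Finset.range p).image (fun i => a ^ i)).card = p := by
    rw [Finset.card_image_of_injOn, Finset.card_range]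
    intro i hi j hj hij
    rw [Finset.coe_range, Set.mem_Iio] at hi hj
    exact pow_injOn_Iio_orderOf (by rw [ha]; exact hi) (by rw [ha]; exact hj) hij
  have h4 := Finset.eq_of_subset_of_card_le h2 (by rw [h3]; exact h1)
  have h5 : b ∈ Finset.univ.filter (fun x : Z => x ^ p = 1) := by simp [hb]
  rw [← h4] at h5
  obtain ⟨i, _, rfl⟩ := Finset.mem_image.mp h5
  exact Subgroup.npow_mem_zpowers a i

/-- If all abelian subgroups are cyclic, then `p`-subgroups are cyclic for odd `p`. -/
theorem pgroup_cyclic {G : Type u} [Group G] [Finite G]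
    (hab : ∀ A : Subgroup G, (∀ x ∈ A, ∀ y ∈ A, x * y = y * x) → IsCyclic A)
    (p : ℕ) [hp : Fact p.Prime] (hp2 : p ≠ 2) (H : Subgroup G) (hH : IsPGroup p H) :
    IsCyclic H := by
  have huniq : ∀ A B : Subgroup H, Nat.card A = p → Nat.card B = p → A = B := by
    intro A B hA hB
    have : Nontrivial H := by
      have h1 : 1 < Nat.card A := by rw [hA]; exact hp.out.one_lt
      have h2 : Nat.card A ≤ Nat.card H := Subgroup.card_le_card_group A
      exact Finite.one_lt_card_iff_nontrivial.mp (lt_of_lt_of_le h1 h2)
    have : Nontrivial (Subgroup.center H) := hH.center_nontrivial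
    have hZp : IsPGroup p (Subgroup.center H) := hH.to_subgroup _
    have hdvd : p ∣ Nat.card (Subgroup.center H) := by
      rcases hZp.card_eq_or_dvd with h | h
      · exact absurd h (Finite.one_lt_card).ne'
      · exact h
    obtain ⟨z, hz⟩ := exists_prime_orderOf_dvd_card' p hdvd
    have hzH : orderOf (z : H) = p := by rw [Subgroup.orderOf_coe]; exact hz
    have hzG : orderOf ((z : H) : G) = p := by rw [Subgroup.orderOf_coe]; exact hzH
    have hzc : ∀ h : H, h * (z : H) = (z : H) * h :=
      fun h => (Subgroup.mem_center_iff.mp z.2 h)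
    have key : ∀ a : H, a ^ p = 1 → a ∈ Subgroup.zpowers (z : H) := by
      intro a ha
      let C : Subgroup G := Subgroup.closure {(a : G), ((z : H) : G)}
      have hCcomm : ∀ x ∈ C, ∀ y ∈ C, x * y = y * x := by
        have hgen : ∀ x ∈ ({(a : G), ((z : H) : G)} : Set G),
            ∀ y ∈ ({(a : G), ((z : H) : G)} : Set G), x * y = y * x := by
          have haz : (a : G) * ((z : H) : G) = ((z : H) : G) * (a : G) := by
            have := congrArg Subtype.val (hzc a)
            simpa using this
          rintro x (rfl | rfl) y (rfl | rfl)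
          · rfl
          · exact haz
          · exact haz.symm
          · rfl
        intro x hx y hy
        exact Set.centralizer_centralizer_comm_of_comm hgen x
          (Subgroup.closure_le_centralizer_centralizer _ hx) y
          (Subgroup.closure_le_centralizer_centralizer _ hy)
      have hCc : IsCyclic C := hab C hCcomm
      have haC : (a : G) ∈ C := Subgroup.subset_closure (by simp)
      have hzC : ((z : H) : G) ∈ C := Subgroup.subset_closure (by simp)
      have h1 : orderOf (⟨((z : H) : G), hzC⟩ : C) = p := by
        rw [← Subgroup.orderOf_coe]; exact hzG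
      have h2 : (⟨(a : G), haC⟩ : C) ^ p = 1 := by
        apply Subtype.ext
        have := congrArg Subtype.val ha
        simpa using this
      obtain ⟨k, hk⟩ := Subgroup.mem_zpowers_iff.mp (cyc_mem_zpowers hp.out h1 h2)
      rw [Subgroup.mem_zpowers_iff]
      refine ⟨k, ?_⟩
      apply Subtype.ext
      have := congrArg Subtype.val hk
      simpa using this
    have hcardz : Nat.card (Subgroup.zpowers (z : H)) = p := by rw [Nat.card_zpowers, hzH]
    have hsub : ∀ A : Subgroup H, Nat.card A = p → A = Subgroup.zpowers (z : H) := by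
      intro A hA
      apply Subgroup.eq_of_le_of_card_ge
      · intro a ha
        apply key
        have h3 := pow_card_eq_one' (G := A) (x := ⟨a, ha⟩)
        rw [hA] at h3
        have := congrArg Subtype.val h3
        simpa using this
      · rw [hcardz, hA]
    rw [hsub A hA, hsub B hB]
  rcases Cfsg.Agent.S0016.result (G := H) p hH huniq with h | ⟨h2, -⟩
  · exact h
  · exact absurd h2 hp2

/-- In a perfect group, a prime with cyclic Sylow subgroups does not divide the order of the
center (transfer into the center). -/
theorem not_dvd_card_center {G : Type u} [Group G] [Finite G] (hperf : commutator G = ⊤)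
    (p : ℕ) [Fact p.Prime] (P : Sylow p G) (hP : IsCyclic P) :
    ¬ p ∣ Nat.card (Subgroup.center G) := by
  intro hdvd
  have hpow : ∀ g : G, g ^ (Subgroup.center G).index = 1 := by
    intro g
    have h1 : g ∈ (MonoidHom.transferCenterPow G).ker := by
      have h0 : commutator G ≤ (MonoidHom.transferCenterPow G).ker := by
        rw [commutator_eq_closure, Subgroup.closure_le]
        rintro x ⟨a, b, rfl⟩
        have hc : ∀ u v : Subgroup.center G, u * v = v * u := fun u v =>
          Subtype.ext (Subgroup.mem_center_iff.mp v.2 u)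
        rw [SetLike.mem_coe, MonoidHom.mem_ker, commutatorElement_def, map_mul, map_mul, map_mul,
          map_inv, map_inv, hc (MonoidHom.transferCenterPow G a)]
        group
      rw [hperf] at h0
      exact h0 (Subgroup.mem_top g)
    rw [MonoidHom.mem_ker] at h1
    have h2 := congrArg Subtype.val h1
    rwa [MonoidHom.transferCenterPow_apply] at h2
  obtain ⟨x, hx⟩ := IsCyclic.exists_ofOrder_eq_natCard (α := P)
  have h3 : Nat.card P ∣ (Subgroup.center G).index := by
    rw [← hx, ← Subgroup.orderOf_coe]
    exact orderOf_dvd_of_pow_eq_one (hpow x)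
  have h4 : Nat.card (Subgroup.center G) * (Subgroup.center G).index = Nat.card G :=
    Subgroup.card_mul_index _
  have h5 : Nat.card P * (P : Subgroup G).index = Nat.card G := Subgroup.card_mul_index _
  apply P.not_dvd_index
  obtain ⟨j, hj⟩ := hdvd
  obtain ⟨k, hk⟩ := h3
  have hpos : 0 < Nat.card P := Nat.card_pos
  have h6 : (P : Subgroup G).index = p * (j * k) := by
    apply Nat.eq_of_mul_eq_mul_left hpos
    rw [h5, ← h4, hj, hk]; ring
  exact ⟨j * k, h6⟩

/-- S0690-NOZ. -/
theorem stNoz : StNoz.{u} := by
  intro G _ _ hax hperf N hN hodd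
  by_contra hne
  have : IsZGroup N := by
    refine ⟨fun p hp P => ?_⟩
    have := Fact.mk hp
    by_cases hp2 : p = 2
    · subst hp2
      have h1 : Nat.card P ∣ Nat.card N := Subgroup.card_subgroup_dvd_card _
      obtain ⟨k, hk⟩ := (IsPGroup.iff_card.mp P.2)
      have hk0 : k = 0 := by
        by_contra hk0
        have h2 : 2 ∣ Nat.card N := dvd_trans (hk ▸ dvd_pow_self 2 hk0) h1
        exact (Nat.not_even_iff_odd.mpr hodd) (even_iff_two_dvd.mpr h2)
      have hcard1 : Nat.card P = 1 := by rw [hk, hk0, pow_zero]
      have : Subsingleton P := (Nat.card_eq_one_iff_unique.mp hcard1).1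
      exact isCyclic_of_subsingleton
    · have hPG : IsPGroup p ((P : Subgroup N).map N.subtype) := P.2.map N.subtype
      have hc := pgroup_cyclic hax.ab p hp2 _ hPG
      exact isCyclic_of_surjective
        ((P : Subgroup N).equivMapOfInjective N.subtype N.subtype_injective).symm
        (MulEquiv.surjective _)
  obtain ⟨D, hDn, hDc, hDne, hDN⟩ :
      ∃ D : Subgroup G, D.Normal ∧ IsCyclic D ∧ D ≠ ⊥ ∧ D ≤ N := by
    have := hN
    by_cases hcomm : ⁅N, N⁆ = ⊥
    · refine ⟨N, hN, hax.ab N ?_, hne, le_refl _⟩
      intro x hx y hy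
      have h1 : ⁅x, y⁆ ∈ ⁅N, N⁆ := Subgroup.commutator_mem_commutator hx hy
      rw [hcomm, Subgroup.mem_bot] at h1
      exact (commutatorElement_eq_one_iff_mul_comm.mp h1)
    · refine ⟨⁅N, N⁆, inferInstance, ?_, hcomm, Subgroup.commutator_le_left N N⟩
      have h1 : IsCyclic (commutator N) := IsZGroup.isCyclic_commutator N
      have h2 : IsCyclic ((commutator N).map N.subtype) :=
        isCyclic_of_surjective
          ((commutator N).equivMapOfInjective N.subtype N.subtype_injective)
          (MulEquiv.surjective _)
      rwa [Subgroup.map_subtype_commutator] at h2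
  have hDcen : D ≤ Subgroup.center G := by
    have := hDn
    have := hDc
    let f : G →* MulAut D := MulAut.conjNormal
    have hker : f.ker = ⊤ := by
      have hcomm : ∀ a b : MulAut D, a * b = b * a := by
        intro a b
        apply (IsCyclic.mulAutMulEquiv D).injective
        rw [map_mul, map_mul, mul_comm]
      rw [eq_top_iff, ← hperf, commutator_eq_closure, Subgroup.closure_le]
      rintro x ⟨a, b, rfl⟩
      rw [SetLike.mem_coe, MonoidHom.mem_ker, commutatorElement_def, map_mul, map_mul, map_mul,
        map_inv, map_inv, hcomm (f a) (f b)]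
      group
    intro d hd
    rw [Subgroup.mem_center_iff]
    intro g
    have h1 : f g = 1 := by
      have h0 : g ∈ f.ker := hker ▸ Subgroup.mem_top g
      exact h0
    have h2 := congrArg (fun φ : MulAut D => ((φ ⟨d, hd⟩ : D) : G)) h1
    simp only [f, MulAut.conjNormal_apply, MulAut.one_apply] at h2
    calc g * d = (g * d * g⁻¹) * g := by group
      _ = d * g := by rw [h2]
  have hDcard : Nat.card D ≠ 1 := by
    intro h
    exact hDne (Subgroup.card_eq_one.mp h)
  obtain ⟨p, hp, hpd⟩ := Nat.exists_prime_and_dvd hDcard
  have := Fact.mk hp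
  have hpN : p ∣ Nat.card N := dvd_trans hpd (Subgroup.card_dvd_of_le hDN)
  have hp2 : p ≠ 2 := by
    rintro rfl
    exact (Nat.not_even_iff_odd.mpr hodd) (even_iff_two_dvd.mpr hpN)
  have hpZ : p ∣ Nat.card (Subgroup.center G) := dvd_trans hpd (Subgroup.card_dvd_of_le hDcen)
  obtain ⟨P⟩ : Nonempty (Sylow p G) := inferInstance
  exact not_dvd_card_center hperf p P (pgroup_cyclic hax.ab p hp2 P P.2) hpZ

end Cfsg.Agent.H20.Zas
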